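import Cfsg.Agent.Lib.Loc.H6Off
import Cfsg.Agent.Lib.Grp.Subn
import Cfsg.Agent.Lib.Grp.Act

/-!
Fixed points of an element of prime order: on permuted direct sums, on abelian normal subgroups,
and on transitive sets of a solvable group generated by its conjugates.
-/

set_option autoImplicit false
set_option linter.unusedSectionVars false

namespace CA.FusFlv

open Subgroup Module MulAction Cfsg CA.H6Off
open scoped commutatorElement

theorem card_orbits {G I : Type*} [Group G] [MulAction G I] [Finite I] {p : ℕ} [hp : Fact p.Prime]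
    {x : G} (hx : orderOf x = p) :
    p * Nat.card (Quotient (orbitRel (zpowers x) I)) =
      Nat.card I + (p - 1) * Nat.card (fixedBy I x) := by
  classical
  have hc : Nat.card (zpowers x) = p := by rw [Nat.card_zpowers, hx]
  haveI : Finite (zpowers x) := Nat.finite_of_card_ne_zero (by rw [hc]; exact hp.out.ne_zero)
  haveI := Fintype.ofFinite (zpowers x)
  haveI : ∀ g : zpowers x, Fintype (fixedBy I g) := fun g => Fintype.ofFinite _
  haveI : Fintype (Quotient (orbitRel (zpowers x) I)) := Fintype.ofFinite _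
  have h := sum_card_fixedBy_eq_card_orbits_mul_card_group (zpowers x) I
  simp only [← Nat.card_eq_fintype_card] at h
  rw [hc, ← Finset.add_sum_erase _ _ (Finset.mem_univ 1)] at h
  have h1 : Nat.card (fixedBy I (1 : zpowers x)) = Nat.card I := by
    rw [fixedBy_one_eq_univ]; exact Nat.card_congr (Equiv.Set.univ I)
  have h2 : ∀ g ∈ Finset.univ.erase (1 : zpowers x),
      Nat.card (fixedBy I g) = Nat.card (fixedBy I x) := by
    intro g hg
    have hg1 : g ≠ 1 := Finset.ne_of_mem_erase hg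
    have ht := zpowers_eq_top_of_prime_card hc hg1
    have e : fixedBy I g = fixedBy I x := by
      ext i
      simp only [mem_fixedBy]
      constructor
      · intro hi
        obtain ⟨n, hn⟩ := mem_zpowers_iff.1 (ht ▸ mem_top (⟨x, mem_zpowers x⟩ : zpowers x))
        have : (g ^ n) • i = i := zpow_mem (show g ∈ stabilizer (zpowers x) i from hi) n
        rwa [hn] at this
      · intro hi
        obtain ⟨n, hn⟩ := mem_zpowers_iff.1 g.2
        have : (x ^ n) • i = i := zpow_mem (show x ∈ stabilizer G i from hi) n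
        rwa [hn] at this
    rw [e]
  rw [h1, Finset.sum_congr rfl h2, Finset.sum_const, Finset.card_erase_of_mem (Finset.mem_univ _),
    Finset.card_univ, ← Nat.card_eq_fintype_card, hc, smul_eq_mul] at h
  rw [mul_comm, ← h]

theorem finrank_le_of_maps {k U : Type*} [Field k] [AddCommGroup U] [Module k U]
    [FiniteDimensional k U] {f : End k U} (hf : Function.Injective f) {W W' : Submodule k U}
    (h : ∀ w ∈ W, f w ∈ W') : finrank k W ≤ finrank k W' :=
  LinearMap.finrank_le_finrank_of_injective (f := f.restrict h) fun a b e =>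
    Subtype.ext (hf (congrArg Subtype.val e))

theorem inj_of_hom {G k U : Type*} [Group G] [Field k] [AddCommGroup U] [Module k U]
    (τ : G →* End k U) (g : G) : Function.Injective (τ g) := fun a b e => by
  have : ∀ a, τ g⁻¹ (τ g a) = a := fun a => by
    rw [← Module.End.mul_apply, ← map_mul, inv_mul_cancel, map_one, Module.End.one_apply]
  rw [← this a, e, this]

/-- fixed points on a permuted direct sum -/
theorem PB {G I k U : Type*} [Group G] [MulAction G I] [Finite I] [Field k] [AddCommGroup U]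
    [Module k U] [FiniteDimensional k U] (τ : G →* End k U) (W : I → Submodule k U)
    (hind : iSupIndep W) (htop : iSup W = ⊤) (hW : ∀ g i, ∀ w ∈ W i, τ g w ∈ W (g • i)) {d : ℕ}
    (hd : ∀ i, finrank k (W i) = d) {p : ℕ} [Fact p.Prime] {x : G} (hx : orderOf x = p) :
    finrank k U = Nat.card I * d ∧ p * finrank k (LinearMap.ker (τ x - 1)) ≤
      d * (Nat.card I + (p - 1) * Nat.card (fixedBy I x)) := by
  classical
  haveI := Fintype.ofFinite I
  have hi := DirectSum.isInternal_submodule_of_iSupIndep_of_iSup_eq_top hind htop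
  let e := LinearEquiv.ofBijective (DirectSum.coeLinearMap W) hi
  refine ⟨?_, ?_⟩
  · rw [← e.finrank_eq, Module.finrank_directSum]
    simp [hd]
  let π : ∀ i, U →ₗ[k] W i := fun i => (DirectSum.component k I (fun i => W i) i).comp e.symm.toLinearMap
  have hπ : ∀ i u, π i u = e.symm u i := fun _ _ => rfl
  have hequiv : ∀ (g : G) i u, (π (g • i) (τ g u) : U) = τ g (π i u) := by
    intro g i u
    have hu : u ∈ iSup W := htop ▸ Submodule.mem_top
    induction hu using Submodule.iSup_induction' with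
    | mem j u hu =>
      by_cases h : j = i
      · subst h
        rw [hπ, hπ, hi.ofBijective_coeLinearMap_of_mem hu,
          hi.ofBijective_coeLinearMap_of_mem (hW g j u hu)]
      · rw [hπ, hπ, hi.ofBijective_coeLinearMap_of_mem_ne h hu,
          hi.ofBijective_coeLinearMap_of_mem_ne (fun e => h (MulAction.injective g e)) (hW g j u hu)]
        simp
    | zero => simp
    | add a b _ _ ha hb => simp only [map_add, Submodule.coe_add, ha, hb]
  let Ω := Quotient (orbitRel (zpowers x) I)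
  haveI : Fintype Ω := Fintype.ofFinite _
  let φ : LinearMap.ker (τ x - 1) →ₗ[k] (∀ ω : Ω, W ω.out) :=
    LinearMap.pi fun ω => (π ω.out).comp (Submodule.subtype _)
  have hφ : Function.Injective φ := by
    rw [injective_iff_map_eq_zero]
    rintro ⟨u, hu⟩ h0
    have hu1 : τ x u = u := by
      rwa [LinearMap.mem_ker, LinearMap.sub_apply, Module.End.one_apply, sub_eq_zero] at hu
    have hfix : ∀ g ∈ zpowers x, τ g u = u := by
      let S : Subgroup G :=
        { carrier := {g | τ g u = u}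
          mul_mem' := fun {a b} ha hb => by
            show τ (a * b) u = u
            rw [map_mul, Module.End.mul_apply, hb, ha]
          one_mem' := by show τ 1 u = u; rw [map_one, Module.End.one_apply]
          inv_mem' := fun {a} ha => by
            show τ a⁻¹ u = u
            apply inj_of_hom τ a
            rw [← Module.End.mul_apply, ← map_mul, mul_inv_cancel, map_one, Module.End.one_apply]
            exact ha.symm }
      exact fun g hg => (zpowers_le.2 (show x ∈ S from hu1)) hg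
    refine Subtype.ext (e.symm.injective ?_)
    show e.symm u = e.symm 0
    rw [map_zero]
    ext i
    obtain ⟨g, hg⟩ : i ∈ orbit (zpowers x) (Quotient.mk (orbitRel (zpowers x) I) i).out :=
      orbitRel_apply.1 ((orbitRel (zpowers x) I).symm (Quotient.exact (Quotient.out_eq _)))
    have h1 : π (Quotient.mk (orbitRel (zpowers x) I) i).out u = 0 :=
      congrFun h0 (Quotient.mk (orbitRel (zpowers x) I) i)
    have h2 := hequiv g (Quotient.mk (orbitRel (zpowers x) I) i).out u
    rw [hfix g g.2, h1] at h2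
    have hg' : (g : G) • (Quotient.mk (orbitRel (zpowers x) I) i).out = i := hg
    rw [hg'] at h2
    rw [← hπ, h2]
    simp
  have h1 := LinearMap.finrank_le_finrank_of_injective hφ
  rw [Module.finrank_pi_fintype] at h1
  simp only [hd, Finset.sum_const, Finset.card_univ, smul_eq_mul] at h1
  rw [← card_orbits hx, ← Nat.card_eq_fintype_card] at *
  calc _ ≤ p * (Nat.card Ω * d) := Nat.mul_le_mul_left p h1
    _ = _ := by ring

section grp

variable {G : Type*} [Group G] [Finite G] {p : ℕ} [hp : Fact p.Prime]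

theorem pow_eq_one_of_comm {A : Subgroup G} (hA : IsMulCommutative A) {a : G}
    (ha : a ∈ normalizer (A : Set G)) (hap : a ^ p = 1) {y : G} (hy : y ∈ ⁅A, zpowers a⁆)
    (hc : a * y = y * a) : y ^ p = 1 := by
  obtain ⟨v, hv, rfl⟩ := (mem_comm_zpowers hA ha).1 hy
  have key : ∀ n : ℕ, a ^ n * v * (a ^ n)⁻¹ = ⁅a, v⁆ ^ n * v := by
    intro n
    induction n with
    | zero => simp
    | succ n ih =>
      have hc' : a * ⁅a, v⁆ ^ n = ⁅a, v⁆ ^ n * a := ((show Commute a _ from hc).pow_right n).eq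
      calc a ^ (n + 1) * v * (a ^ (n + 1))⁻¹ = a * (a ^ n * v * (a ^ n)⁻¹) * a⁻¹ := by
            rw [pow_succ']; group
        _ = ⁅a, v⁆ ^ n * (a * v * a⁻¹) := by rw [ih, ← mul_assoc, hc']; group
        _ = _ := by rw [pow_succ, mul_assoc _ ⁅a, v⁆, commutatorElement_def]; group
  have := key p
  rw [hap, one_mul, inv_one, mul_one] at this
  exact (mul_eq_right.1 this.symm)

theorem card_mod' {V : Subgroup G} {a : G} (ha : a ∈ normalizer (V : Set G)) (hap : a ^ p = 1) :
    Nat.card V ≡ Nat.card ↥(V ⊓ centralizer (zpowers a : Set G)) [MOD p] := by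
  have hn : zpowers a ≤ normalizer (V : Set G) := zpowers_le.2 ha
  have hP : IsPGroup p (zpowers a) := fun g => ⟨1, by
    obtain ⟨n, hn⟩ := mem_zpowers_iff.1 g.2
    refine Subtype.ext ?_
    rw [pow_one, coe_pow, ← hn, ← zpow_natCast, ← zpow_mul, mul_comm, zpow_mul, zpow_natCast, hap,
      one_zpow, coe_one]⟩
  letI := Act.conjAct hn
  have e : Nat.card (MulAction.fixedPoints (zpowers a) V) =
      Nat.card ↥(V ⊓ centralizer (zpowers a : Set G)) := Nat.card_congr
    ⟨fun v => ⟨v.1.1, v.1.2, fun g hg => mul_inv_eq_iff_eq_mul.1 (congrArg Subtype.val (v.2 ⟨g, hg⟩))⟩,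
      fun v => ⟨⟨v.1, v.2.1⟩, fun g => Subtype.ext (mul_inv_eq_iff_eq_mul.2 (v.2.2 g g.2))⟩,
      fun _ => rfl, fun _ => rfl⟩
  exact e ▸ hP.card_modEq_card_fixedPoints V

theorem mem_norm_comm {A : Subgroup G} {a : G} (ha : a ∈ normalizer (A : Set G)) :
    a ∈ normalizer ((⁅A, zpowers a⁆ : Subgroup G) : Set G) :=
  normalizer_commutator_ge_right A (zpowers a) (mem_zpowers a)

/-- the order of `[A, a]` is `0` or `1` modulo `p` -/
theorem card_comm_cases {A : Subgroup G} (hA : IsMulCommutative A) {a : G}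
    (ha : a ∈ normalizer (A : Set G)) (hap : a ^ p = 1) :
    p ∣ Nat.card ↥⁅A, zpowers a⁆ ∨ Nat.card ↥⁅A, zpowers a⁆ ≡ 1 [MOD p] := by
  have h := card_mod' (mem_norm_comm ha) hap
  have hP : IsPGroup p ↥(⁅A, zpowers a⁆ ⊓ centralizer (zpowers a : Set G)) :=
    Subn.isPGroup_of_pow_eq_one fun y hy =>
      pow_eq_one_of_comm hA ha hap hy.1 (hy.2 a (mem_zpowers a))
  obtain ⟨j, hj⟩ := IsPGroup.iff_card.1 hP
  rw [hj] at h
  cases j with
  | zero => exact Or.inr h
  | succ j => exact Or.inl ((Nat.modEq_zero_iff_dvd).1 (h.trans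
      ((Nat.modEq_zero_iff_dvd).2 (dvd_pow_self p (Nat.succ_ne_zero j)))))

theorem le_card_comm {A : Subgroup G} (hA : IsMulCommutative A) {a : G}
    (ha : a ∈ normalizer (A : Set G)) (hap : a ^ p = 1) (h : ⁅A, zpowers a⁆ ≠ ⊥) :
    p ≤ Nat.card ↥⁅A, zpowers a⁆ := by
  have h1 : 1 < Nat.card ↥⁅A, zpowers a⁆ := (one_lt_card_iff_ne_bot _).2 h
  rcases card_comm_cases hA ha hap with h2 | h2
  · exact Nat.le_of_dvd Nat.card_pos h2
  · have := Nat.le_of_dvd (by omega) ((Nat.modEq_iff_dvd' h1.le).1 h2.symm)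
    omega

theorem fpr_core [Group.IsSolvable G] {H : Subgroup G} (hH : IsCoatom H) (hc : H.normalCore = ⊥)
    {x : G} (hx : x ^ p = 1) (hgen : normalClosure ({x} : Set G) = ⊤) :
    p * Nat.card {g : G | g⁻¹ * x * g ∈ H} ≤ Nat.card G := by
  by_cases h0 : ∃ g₀ : G, g₀⁻¹ * x * g₀ ∈ H
  swap
  · have : {g : G | g⁻¹ * x * g ∈ H} = ∅ := Set.eq_empty_of_forall_notMem fun g hg => h0 ⟨g, hg⟩
    rw [this]; simp
  obtain ⟨g₀, hg₀⟩ := h0
  obtain ⟨y, hy⟩ : ∃ y, y = g₀⁻¹ * x * g₀ := ⟨_, rfl⟩
  rw [← hy] at hg₀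
  have hyp : y ^ p = 1 := by
    rw [hy, show g₀⁻¹ * x * g₀ = g₀⁻¹ * x * g₀⁻¹⁻¹ by rw [inv_inv], conj_pow, hx]; group
  have hG : (⊤ : Subgroup G) ≠ ⊥ := fun h => hH.1 (top_le_iff.1 (h ▸ bot_le))
  obtain ⟨A, -, hA0, hAn, hmin⟩ := Subn.exists_minimal_normal hG
  obtain ⟨hA, -⟩ := Subn.elemAb_of_minimal_normal inferInstance hA0 hmin
  have hAH : ¬ A ≤ H := fun h => hA0 (eq_bot_iff.2 (hc ▸ normal_le_normalCore.2 h))
  have hsup : A ⊔ H = ⊤ := hH.2 _ (right_lt_sup.2 hAH)
  have hdec : ∀ g : G, ∃ a ∈ A, ∃ h ∈ H, a * h = g := fun g => by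
    have : g ∈ ((A ⊔ H : Subgroup G) : Set G) := by rw [hsup]; trivial
    rw [normal_mul] at this
    obtain ⟨a, ha, h, hh, e⟩ := this
    exact ⟨a, ha, h, hh, e⟩
  have hinf : A ⊓ H = ⊥ := by
    refine (hmin (A ⊓ H) ⟨fun n hn g => ?_⟩ inf_le_left).resolve_right fun e => hAH (e ▸ inf_le_right)
    obtain ⟨a, ha, h, hh, rfl⟩ := hdec g
    have h1 : h * n * h⁻¹ ∈ A := hAn.conj_mem n hn.1 h
    have : a * h * n * (a * h)⁻¹ = h * n * h⁻¹ := by
      have e : a * (h * n * h⁻¹) = h * n * h⁻¹ * a :=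
        congrArg Subtype.val (hA.is_comm.comm (⟨a, ha⟩ : A) ⟨_, h1⟩)
      calc _ = a * (h * n * h⁻¹) * a⁻¹ := by group
        _ = _ := by rw [e]; group
    rw [this]
    exact ⟨h1, H.mul_mem (H.mul_mem hh hn.2) (H.inv_mem hh)⟩
  have hyn : y ∈ normalizer (A : Set G) := le_normalizer_of_normal (mem_top y)
  have hne : ⁅A, zpowers y⁆ ≠ ⊥ := by
    intro h
    rw [commutator_eq_bot_iff_le_centralizer] at h
    apply hH.1
    rw [eq_top_iff, ← hgen, normalClosure, closure_le]
    intro z hz
    obtain ⟨w, hw, hz'⟩ := Group.mem_conjugatesOfSet_iff.1 hz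
    rw [Set.mem_singleton_iff.1 hw] at hz'
    obtain ⟨c, rfl⟩ := isConj_iff.1 hz'
    obtain ⟨a, ha, h', hh, e⟩ := hdec (g₀⁻¹ * c⁻¹)
    have h1 : y * a = a * y := h ha y (mem_zpowers y)
    have : c * x * c⁻¹ = h'⁻¹ * y * h' := by
      calc c * x * c⁻¹ = (g₀⁻¹ * c⁻¹)⁻¹ * y * (g₀⁻¹ * c⁻¹) := by rw [hy]; group
        _ = h'⁻¹ * (a⁻¹ * (y * a)) * h' := by rw [← e]; group
        _ = _ := by rw [h1]; group
    rw [SetLike.mem_coe, this]
    exact H.mul_mem (H.mul_mem (H.inv_mem hh) hg₀) hh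
  have h1 := le_card_comm hA hyn hyp hne
  have h2 := card_cent_mul_card_comm hA hyn
  have h3 : Nat.card {g : G | g⁻¹ * x * g ∈ H} ≤
      Nat.card (↥(A ⊓ centralizer (zpowers y : Set G)) × H) := by
    refine Nat.card_le_card_of_surjective (fun t => ⟨g₀ * t.1 * t.2, ?_⟩) ?_
    · have h1 : y * t.1 = t.1 * y := t.1.2.2 y (mem_zpowers y)
      have : (g₀ * t.1 * t.2)⁻¹ * x * (g₀ * t.1 * t.2) = (t.2 : G)⁻¹ * y * t.2 := by
        generalize (t.1 : G) = a at h1
        generalize (t.2 : G) = b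
        calc _ = b⁻¹ * (a⁻¹ * (y * a)) * b := by rw [hy]; group
          _ = _ := by rw [h1]; group
      rw [Set.mem_setOf_eq, this]
      exact H.mul_mem (H.mul_mem (H.inv_mem t.2.2) hg₀) t.2.2
    · rintro ⟨g, hg⟩
      obtain ⟨a, ha, h, hh, e⟩ := hdec (g₀⁻¹ * g)
      have e1 : g = g₀ * a * h := by rw [mul_assoc, e]; group
      have h1 : a⁻¹ * y * a * y⁻¹ ∈ A ⊓ H := by
        refine ⟨?_, H.mul_mem ?_ (H.inv_mem hg₀)⟩
        · rw [mul_assoc, mul_assoc, ← mul_assoc y]
          exact A.mul_mem (A.inv_mem ha) (hAn.conj_mem a ha y)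
        · have : a⁻¹ * y * a = h * (g⁻¹ * x * g) * h⁻¹ := by rw [e1, hy]; group
          rw [this]
          exact H.mul_mem (H.mul_mem hh hg) (H.inv_mem hh)
      rw [hinf, mem_bot] at h1
      have h2 : y * a = a * y := by
        calc y * a = a * (a⁻¹ * y * a * y⁻¹) * y := by group
          _ = _ := by rw [h1, mul_one]
      refine ⟨(⟨a, ha, ?_⟩, ⟨h, hh⟩), Subtype.ext e1.symm⟩
      intro z hz
      obtain ⟨n, rfl⟩ := mem_zpowers_iff.1 hz
      exact ((show Commute y a from h2).zpow_left n).eq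
  have h4 : Nat.card A * Nat.card H ≤ Nat.card G := by
    rw [← Nat.card_prod]
    exact Nat.card_le_card_of_injective _ (mul_injective_of_disjoint (disjoint_iff.2 hinf))
  rw [Nat.card_prod] at h3
  calc _ ≤ Nat.card ↥⁅A, zpowers y⁆ * (Nat.card ↥(A ⊓ centralizer (zpowers y : Set G)) * Nat.card H) :=
        Nat.mul_le_mul h1 h3
    _ = Nat.card A * Nat.card H := by rw [← h2]; ring
    _ ≤ _ := h4

theorem fpr_sub [Group.IsSolvable G] {H : Subgroup G} (hH : H ≠ ⊤)
    {x : G} (hx : x ^ p = 1) (hgen : normalClosure ({x} : Set G) = ⊤) :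
    p * Nat.card {g : G | g⁻¹ * x * g ∈ H} ≤ Nat.card G := by
  obtain ⟨M, hM, hHM⟩ := (eq_top_or_exists_le_coatom H).resolve_left hH
  have hKM : M.normalCore ≤ M := normalCore_le M
  let π := QuotientGroup.mk' M.normalCore
  have hπ : Function.Surjective π := QuotientGroup.mk'_surjective _
  have hcm : (M.map π).comap π = M := by
    rw [comap_map_eq, QuotientGroup.ker_mk', sup_eq_left.2 hKM]
  have h1 : IsCoatom (M.map π) := by
    refine ⟨fun h => hM.1 (by rw [← hcm, h, comap_top]), fun L hL => ?_⟩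
    have : M < L.comap π := hcm.symm.trans_lt ((comap_lt_comap_of_surjective hπ).2 hL)
    rw [← map_comap_eq_self_of_surjective hπ L, hM.2 _ this, ← MonoidHom.range_eq_map,
      MonoidHom.range_eq_top.2 hπ]
  have h2 : (M.map π).normalCore = ⊥ := by
    rw [eq_bot_iff]
    intro z hz
    obtain ⟨z, rfl⟩ := hπ z
    have : ((M.map π).normalCore.comap π) ≤ M.normalCore :=
      normal_le_normalCore.2 ((comap_mono (normalCore_le _)).trans hcm.le)
    exact (QuotientGroup.eq_one_iff z).2 (this hz)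
  have h3 := fpr_core h1 h2 (x := π x) (by rw [← map_pow, hx, map_one]) (by
    rw [← Set.image_singleton, ← map_normalClosure _ _ hπ, hgen, ← MonoidHom.range_eq_map,
      MonoidHom.range_eq_top.2 hπ])
  have h4 : Nat.card {g : G | g⁻¹ * x * g ∈ H} ≤
      Nat.card (QuotientGroup.mk ⁻¹' {g : G ⧸ M.normalCore | g⁻¹ * π x * g ∈ M.map π} : Set G) := by
    refine Nat.card_le_card_of_injective _ (Set.inclusion_injective fun g hg => ?_)
    exact ⟨_, hHM hg, rfl⟩
  rw [QuotientGroup.card_preimage_mk] at h4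
  rw [card_eq_card_quotient_mul_card_subgroup M.normalCore]
  calc _ ≤ p * (Nat.card M.normalCore * _) := Nat.mul_le_mul_left p h4
    _ = p * _ * Nat.card M.normalCore := by ring
    _ ≤ _ := Nat.mul_le_mul_right _ h3

/-- fixed point ratio of an element of prime order of a solvable group generated by its class -/
theorem fpr [Group.IsSolvable G] {I : Type*} [MulAction G I] [IsPretransitive G I] [Nontrivial I]
    {x : G} (hx : x ^ p = 1) (hgen : normalClosure ({x} : Set G) = ⊤) :
    p * Nat.card (fixedBy I x) ≤ Nat.card I := by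
  obtain ⟨i, j, hij⟩ := exists_pair_ne I
  have hH : stabilizer G i ≠ ⊤ := fun h => by
    obtain ⟨g, rfl⟩ := exists_smul_eq G i j
    exact hij (show g ∈ stabilizer G i from h ▸ mem_top g).symm
  have h1 := fpr_sub hH hx hgen
  let f := ofQuotientStabilizer G i
  have hf : Function.Bijective f := ⟨injective_ofQuotientStabilizer G i, fun k => by
    obtain ⟨g, rfl⟩ := exists_smul_eq G i k
    exact ⟨g, rfl⟩⟩
  have h2 : {g : G | g⁻¹ * x * g ∈ stabilizer G i} = QuotientGroup.mk ⁻¹' (f ⁻¹' fixedBy I x) := by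
    ext g
    show (g⁻¹ * x * g) • i = i ↔ x • g • i = g • i
    rw [mul_smul, mul_smul, inv_smul_eq_iff]
  rw [h2, QuotientGroup.card_preimage_mk, Nat.card_preimage_of_injective hf.1
    (by rw [hf.2.range_eq]; exact Set.subset_univ _),
    card_eq_card_quotient_mul_card_subgroup (stabilizer G i), Nat.card_congr (Equiv.ofBijective f hf),
    mul_comm (Nat.card (stabilizer G i)), ← mul_assoc] at h1
  exact Nat.le_of_mul_le_mul_right h1 Nat.card_pos

end grp

end CA.FusFlv
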