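import Cfsg.Agent.Lib.Fus.FusFlv1
import Cfsg.Agent.Lib.Loc.H6PSolv
import Cfsg.Agent.Lib.Loc.H6Stab
import Cfsg.Agent.Lib.Solv.HH1
import Cfsg.Agent.Lib.Perm.FcRep

/-!
An element of prime order `p ≥ 5` whose class generates a solvable group fixes less than half of
every module without trivial composition factors.
-/

set_option autoImplicit false
set_option linter.unusedSectionVars false

namespace CA.FusFlv

open Subgroup Module MulAction Cfsg CA.H6Off
open scoped commutatorElement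

universe u

theorem arith_idx {p q j : ℕ} (hp : p.Prime) (h5 : 5 ≤ p) (hq : q.Prime) (hj : 2 ≤ j)
    (h : p ∣ q ^ j ∨ q ^ j ≡ 1 [MOD p]) : 4 * (p - 1) ≤ (p - 4) * q ^ j := by
  have hq2 := hq.two_le
  have h4 : q ^ 2 ≤ q ^ j := Nat.pow_le_pow_right hq.pos hj
  obtain ⟨r, rfl⟩ : ∃ r, p = r + 4 := ⟨p - 4, by omega⟩
  rw [show r + 4 - 1 = r + 3 by omega, Nat.add_sub_cancel]
  rcases h with h | h
  · have e := (Nat.prime_dvd_prime_iff_eq hp hq).1 (hp.dvd_of_dvd_pow h)
    subst e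
    nlinarith
  · have h1 : 1 < q ^ j := by nlinarith
    have h2 := Nat.le_of_dvd (by omega) ((Nat.modEq_iff_dvd' h1.le).1 h.symm)
    by_cases h7 : 3 ≤ r
    · have : r + 5 ≤ q ^ j := by omega
      nlinarith
    have hr : r = 1 := by
      have : r ≠ 2 := by rintro rfl; norm_num at hp
      omega
    subst hr
    by_contra hlt
    have h16 : q ^ j < 16 := by omega
    have hq4 : q < 4 := by nlinarith
    have hj4 : j < 4 := by
      by_contra h'
      have : 2 ^ 4 ≤ q ^ j := (Nat.pow_le_pow_left hq2 4).trans (Nat.pow_le_pow_right hq.pos (by omega))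
      omega
    interval_cases q <;> interval_cases j <;> simp_all [Nat.ModEq]

section grp

variable {G : Type*} [Group G] [Finite G] {p : ℕ} [hp : Fact p.Prime]

theorem symp_index [Group.IsSolvable G] (h5 : 5 ≤ p) {A : Subgroup G} [hAn : A.Normal] (hA0 : A ≠ ⊥)
    (hmin : ∀ K : Subgroup G, K.Normal → K ≤ A → K = ⊥ ∨ K = A) {a : G} (hap : a ^ p = 1)
    (hgen : normalClosure ({a} : Set G) = ⊤) {C : Type*} [CommGroup C] (β : A →* A →* C)
    (halt : ∀ u, β u u = 1) (hnd : ∀ u, (∀ v, β u v = 1) → u = 1)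
    (hinv : ∀ u v, β (MulAut.conjNormal a u) (MulAut.conjNormal a v) = β u v) :
    4 * (p - 1) * Nat.card ↥(A ⊓ centralizer (zpowers a : Set G)) ≤ (p - 4) * Nat.card A := by
  obtain ⟨hA, q, hq, hAq⟩ := Subn.elemAb_of_minimal_normal inferInstance hA0 hmin
  haveI := Fact.mk hq
  have han : a ∈ normalizer (A : Set G) := le_normalizer_of_normal (mem_top a)
  have hIA : ⁅A, zpowers a⁆ ≤ A := commutator_le_left _ _
  have hcyc : ∀ (u : A) (n : ℤ), β u (u ^ n) = 1 := fun u n => by rw [map_zpow, halt, one_zpow]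
  have hne : ⁅A, zpowers a⁆ ≠ ⊥ := by
    intro h
    rw [commutator_comm, commutator_eq_bot_iff_le_centralizer] at h
    have h1 : centralizer (A : Set G) = ⊤ := by
      rw [eq_top_iff, ← hgen]
      exact normalClosure_le_normal (Set.singleton_subset_iff.2 (h (mem_zpowers a)))
    obtain ⟨u, hu⟩ := ne_bot_iff_exists_ne_one.1 hA0
    have h2 : (zpowers (u : G)).Normal := ⟨fun n hn g => by
      have : n * g = g * n := (h1 ▸ mem_top g : g ∈ centralizer (A : Set G)) n (zpowers_le.2 u.2 hn)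
      rwa [← this, mul_inv_cancel_right]⟩
    rcases hmin _ h2 (zpowers_le.2 u.2) with e | e
    · exact hu (Subtype.ext (zpowers_eq_bot.1 e))
    · refine hu (hnd u fun v => ?_)
      obtain ⟨n, hn⟩ := mem_zpowers_iff.1 (e.symm ▸ v.2 : (v : G) ∈ zpowers (u : G))
      rw [show v = u ^ n from Subtype.ext hn.symm, hcyc]
  obtain ⟨j, hj⟩ := IsPGroup.iff_card.1 ((Subn.isPGroup_of_pow_eq_one hAq).to_le hIA)
  have hmul := card_cent_mul_card_comm hA han
  have hj2 : 2 ≤ j := by
    by_contra hlt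
    have hj1 : j = 1 := by
      have : j ≠ 0 := by rintro rfl; exact hne (card_eq_one.1 hj)
      omega
    rw [hj1, pow_one] at hj
    obtain ⟨y, hy⟩ := ne_bot_iff_exists_ne_one.1 hne
    have hyt := zpowers_eq_top_of_prime_card hj hy
    have hyI : ∀ z ∈ ⁅A, zpowers a⁆, ∃ n : ℤ, (y : G) ^ n = z := fun z hz => by
      obtain ⟨n, hn⟩ := mem_zpowers_iff.1 (hyt ▸ mem_top (⟨z, hz⟩ : ↥⁅A, zpowers a⁆))
      exact ⟨n, congrArg Subtype.val hn⟩
    by_cases hc : a * y = y * a
    · -- quadratic action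
      have hyp := pow_eq_one_of_comm hA han hap y.2 hc
      have e : q = p := by
        have h1 : orderOf (y : G) = p := orderOf_eq_prime hyp fun e => hy (Subtype.ext e)
        have h2 : orderOf (y : G) = q := orderOf_eq_prime (hAq _ (hIA y.2)) fun e => hy (Subtype.ext e)
        exact h2.symm.trans h1
      subst e
      have hq' : ⁅⁅A, zpowers a⁆, zpowers a⁆ = ⊥ := by
        rw [commutator_eq_bot_iff_le_centralizer]
        intro z hz w hw
        obtain ⟨n, rfl⟩ := hyI z hz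
        obtain ⟨m, rfl⟩ := mem_zpowers_iff.1 hw
        exact ((show Commute a y from hc).zpow_zpow m n).eq
      have hP := Subn.isPGroup_of_pow_eq_one hAq
      have hn : (⊤ : Subgroup G) ≤ normalizer (A : Set G) := le_normalizer_of_normal
      have hst := (H6Stab.stab_of_psolv (by omega) (by omega) hP hn
        (H6PSolv.psolv_of_isSolvable inferInstance)).mem hP hn (mem_top a) hq'
      have hN : (H6Op.Op q ⊤ (centralizer (A : Set G))).Normal :=
        normalizer_eq_top_iff.1 (top_le_iff.1 (H6Op.norm_Op _ _ _))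
      have htop : H6Op.Op q ⊤ (centralizer (A : Set G)) = ⊤ :=
        eq_top_iff.2 (hgen.ge.trans (normalClosure_le_normal (Set.singleton_subset_iff.2 hst)))
      refine hA0 (eq_bot_of_le_comm_of_res hP hn (H6Op.Op_eq_self_iff.1 htop) ?_)
      rcases hmin ⁅A, ⊤⁆ inferInstance (commutator_le_left _ _) with e | e
      · exact absurd (eq_bot_iff.2 (e ▸ commutator_mono le_rfl le_top)) hne
      · exact e.ge
    · have hdis : Disjoint (A ⊓ centralizer (zpowers a : Set G)) ⁅A, zpowers a⁆ := by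
        rw [disjoint_def]
        intro z hz hz'
        by_contra h1
        have := zpowers_eq_top_of_prime_card hj (g := ⟨z, hz'⟩) fun e => h1 (congrArg Subtype.val e)
        obtain ⟨n, hn⟩ := mem_zpowers_iff.1 (this ▸ mem_top y)
        have hn' : z ^ n = y := congrArg Subtype.val hn
        exact hc (hn' ▸ ((show Commute a z from hz.2 a (mem_zpowers a)).zpow_right n).eq)
      let f : ↥(A ⊓ centralizer (zpowers a : Set G)) × ↥⁅A, zpowers a⁆ → A :=
        fun t => ⟨t.1 * t.2, A.mul_mem t.1.2.1 (hIA t.2.2)⟩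
      have hf : Function.Injective f := fun s t e =>
        mul_injective_of_disjoint hdis (congrArg Subtype.val e)
      have hsurj := (hf.bijective_of_nat_card_le (by rw [Nat.card_prod, hmul])).2
      obtain ⟨v, hv, hvy⟩ := (mem_comm_zpowers hA han).1 y.2
      refine hy (Subtype.ext (congrArg (fun t : A => (t : G)) (hnd ⟨y, hIA y.2⟩ fun w => ?_)))
      obtain ⟨⟨c, z⟩, rfl⟩ := hsurj w
      obtain ⟨n, hn⟩ := hyI z z.2
      have e1 : f (c, z) = ⟨c, c.2.1⟩ * ⟨y, hIA y.2⟩ ^ n := Subtype.ext (by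
        show (c : G) * z = c * y ^ n
        rw [hn])
      have e2 : (⟨y, hIA y.2⟩ : A) = MulAut.conjNormal a ⟨v, hv⟩ * ⟨v, hv⟩⁻¹ := Subtype.ext hvy.symm
      have e3 : MulAut.conjNormal a (⟨c, c.2.1⟩ : A) = ⟨c, c.2.1⟩ := Subtype.ext (by
        show a * c * a⁻¹ = c
        rw [c.2.2 a (mem_zpowers a), mul_inv_cancel_right])
      rw [e1, map_mul, hcyc, mul_one, e2, map_mul, map_inv, MonoidHom.mul_apply,
        MonoidHom.inv_apply, mul_inv_eq_one, ← hinv ⟨v, hv⟩, e3]
  have := arith_idx hp.out h5 hq hj2 (hj ▸ card_comm_cases hA han hap)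
  rw [← hmul, hj]
  calc _ ≤ (p - 4) * q ^ j * _ := Nat.mul_le_mul_right _ this
    _ = _ := by ring

end grp

section rep

variable {G k V : Type*} [Group G] [Finite G] [Field k] [AddCommGroup V] [Module k V]
  [FiniteDimensional k V] {p : ℕ} [hp : Fact p.Prime]

theorem indep_wt {ι U : Type*} [AddCommGroup U] [Module k U] (f : ι → End k U)
    (hc : ∀ i j, Commute (f i) (f j)) :
    iSupIndep fun χ : ι → k => ⨅ i, (f i).eigenspace (χ i) :=
  (Module.End.independent_iInf_maxGenEigenspace_of_forall_mapsTo f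
    fun i j φ => Module.End.mapsTo_maxGenEigenspace_of_comm (hc j i) φ).mono
    fun χ => iInf_mono fun i => ((f i).genEigenspace (χ i)).monotone le_top

theorem mem_wt {ι U : Type*} [AddCommGroup U] [Module k U] {f : ι → End k U} {χ : ι → k} {v : U} :
    v ∈ ⨅ i, (f i).eigenspace (χ i) ↔ ∀ i, f i v = χ i • v := by
  simp only [Submodule.mem_iInf, Module.End.mem_eigenspace_iff]

theorem case_comm [IsAlgClosed k] [Nontrivial V] [Group.IsSolvable G] (h5 : 5 ≤ p)
    (ρ : G →* End k V)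
    (hirr : ∀ W : Submodule k V, (∀ g, ∀ w ∈ W, ρ g w ∈ W) → W = ⊥ ∨ W = ⊤) {x : G}
    (hx : orderOf x = p) (hgen : normalClosure ({x} : Set G) = ⊤) (M : Subgroup G) [hM : M.Normal]
    (hc : ∀ m ∈ M, ∀ n ∈ M, ρ m * ρ n = ρ n * ρ m) (hns : ∃ m ∈ M, ∀ c : k, ρ m ≠ c • 1) :
    2 * finrank k (LinearMap.ker (ρ x - 1)) < finrank k V := by
  letI : MulAction G (M → k) :=
    { smul := fun g χ m => χ ⟨g⁻¹ * m * g, hM.conj_mem' m m.2 g⟩
      one_smul := fun χ => funext fun m => congrArg χ (Subtype.ext (by simp))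
      mul_smul := fun g h χ => funext fun m => congrArg χ (Subtype.ext (by simp [mul_assoc])) }
  have hsm : ∀ (g : G) (χ : M → k) (m : M), (g • χ) m = χ ⟨g⁻¹ * m * g, hM.conj_mem' m m.2 g⟩ :=
    fun _ _ _ => rfl
  obtain ⟨v, hv, hev⟩ := FcRep.exists_common_eigen (k := k) (ρ '' M) (by
    rintro _ ⟨m, hm, rfl⟩ _ ⟨n, hn, rfl⟩; exact hc m hm n hn)
  choose χ hχ using fun m : M => hev (ρ m) ⟨m, m.2, rfl⟩
  let W : orbit G χ → Submodule k V := fun i => ⨅ m : M, (ρ m).eigenspace (i.1 m)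
  let i₀ : orbit G χ := ⟨χ, mem_orbit_self χ⟩
  have hW : ∀ (g : G) i, ∀ w ∈ W i, ρ g w ∈ W (g • i) := fun g i w hw => mem_wt.2 fun m => by
    have := mem_wt.1 hw ⟨g⁻¹ * m * g, hM.conj_mem' m m.2 g⟩
    rw [orbit.coe_smul, hsm, ← map_smul, ← this, ← Module.End.mul_apply, ← Module.End.mul_apply,
      ← map_mul, ← map_mul]
    congr 2
    group
  have hind : iSupIndep W :=
    (indep_wt (fun m : M => ρ m) fun m n => hc m m.2 n n.2).comp Subtype.val_injective
  have htop : iSup W = ⊤ := by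
    refine (hirr _ fun g w hw => ?_).resolve_left fun h => hv ?_
    · induction hw using Submodule.iSup_induction' with
      | mem i w hw => exact Submodule.mem_iSup_of_mem _ (hW g i w hw)
      | zero => simp
      | add a b _ _ ha hb => rw [map_add]; exact add_mem ha hb
    · exact (Submodule.mem_bot k).1 (h ▸ Submodule.mem_iSup_of_mem i₀ (mem_wt.2 hχ))
  have hd : ∀ i, finrank k (W i) = finrank k (W i₀) := fun i => by
    obtain ⟨g, rfl⟩ := exists_smul_eq G i₀ i
    refine le_antisymm ?_ (finrank_le_of_maps (inj_of_hom ρ g) (hW g i₀))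
    have := hW g⁻¹ (g • i₀)
    rw [inv_smul_smul] at this
    exact finrank_le_of_maps (inj_of_hom ρ g⁻¹) this
  haveI : Finite (orbit G χ) := Set.finite_range _
  haveI : Nontrivial (orbit G χ) := by
    by_contra h
    rw [not_nontrivial_iff_subsingleton] at h
    obtain ⟨m, hm, hm'⟩ := hns
    refine hm' (χ ⟨m, hm⟩) (LinearMap.ext fun w => ?_)
    have : iSup W ≤ W i₀ := iSup_le fun i => by rw [Subsingleton.elim i i₀]
    exact mem_wt.1 (this (htop ▸ Submodule.mem_top)) ⟨m, hm⟩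
  obtain ⟨h1, h2⟩ := PB ρ W hind htop hW hd hx
  have h3 := fpr (I := orbit G χ) (hx ▸ pow_orderOf_eq_one x : x ^ p = 1) hgen
  have h4 : 0 < finrank k V := Module.finrank_pos
  generalize finrank k (LinearMap.ker (ρ x - 1)) = c at *
  generalize finrank k (W i₀) = d at *
  generalize Nat.card (fixedBy (orbit G χ) x) = f at *
  generalize Nat.card (orbit G χ) = s at *
  rw [h1] at h4 ⊢
  obtain ⟨r, rfl⟩ : ∃ r, p = r + 1 := ⟨p - 1, by omega⟩
  rw [Nat.add_sub_cancel] at h2
  have h6 : (r + 1) * ((r + 1) * c) ≤ s * d * (2 * r + 1) := by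
    calc _ ≤ (r + 1) * (d * (s + r * f)) := Nat.mul_le_mul_left _ h2
      _ = d * ((r + 1) * s + r * ((r + 1) * f)) := by ring
      _ ≤ d * ((r + 1) * s + r * s) := by gcongr
      _ = _ := by ring
  by_contra h7
  have h8 : s * d ≤ 2 * c := by omega
  have h9 : 2 * (2 * r + 1) < (r + 1) * (r + 1) := by nlinarith
  nlinarith

/-- the subgroup of elements acting as scalars -/
def scal (ρ : G →* End k V) : Subgroup G where
  carrier := {g | ∃ c : k, ρ g = c • 1}
  mul_mem' := by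
    rintro a b ⟨c, hc⟩ ⟨d, hd⟩
    exact ⟨c * d, by rw [map_mul, hc, hd, smul_mul_assoc, one_mul, smul_smul]⟩
  one_mem' := ⟨1, by rw [map_one, one_smul]⟩
  inv_mem' := by
    rintro a ⟨c, hc⟩
    have h : c • ρ a⁻¹ = 1 := by
      rw [← one_mul (ρ a⁻¹), ← smul_mul_assoc, ← hc, ← map_mul, mul_inv_cancel, map_one]
    by_cases h0 : c = 0
    · exact ⟨0, by rw [← mul_one (ρ a⁻¹), ← h, h0, zero_smul, zero_smul, mul_zero]⟩
    · exact ⟨c⁻¹, by rw [← h, smul_smul, inv_mul_cancel₀ h0, one_smul]⟩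

instance scal_normal (ρ : G →* End k V) : (scal ρ).Normal := ⟨by
  rintro n ⟨c, hc⟩ g
  exact ⟨c, by rw [map_mul, map_mul, hc, mul_smul_comm, mul_one, smul_mul_assoc, ← map_mul,
    mul_inv_cancel, map_one]⟩⟩

theorem rho_ne_zero [Nontrivial V] (ρ : G →* End k V) (g : G) : ρ g ≠ 0 := fun h => by
  have : ρ g * ρ g⁻¹ = 1 := by rw [← map_mul, mul_inv_cancel, map_one]
  rw [h, zero_mul] at this
  exact zero_ne_one this

open Classical in
/-- the commutation scalar -/
noncomputable def bb (ρ : G →* End k V) (m n : G) : kˣ :=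
  if h : ∃ c : kˣ, ρ (m * n) = (c : k) • ρ (n * m) then h.choose else 1

theorem bb_eq [Nontrivial V] {ρ : G →* End k V} {m n : G} {c : kˣ}
    (h : ρ (m * n) = (c : k) • ρ (n * m)) : bb ρ m n = c := by
  have h' : ∃ c : kˣ, ρ (m * n) = (c : k) • ρ (n * m) := ⟨c, h⟩
  rw [bb, dif_pos h']
  exact Units.ext (smul_left_injective k (rho_ne_zero ρ _) (h'.choose_spec.symm.trans h))

theorem bb_spec [Nontrivial V] {ρ : G →* End k V} {m n : G} (h : ⁅m, n⁆ ∈ scal ρ) :
    ρ (m * n) = (bb ρ m n : k) • ρ (n * m) := by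
  obtain ⟨c, hc⟩ := h
  have h0 : c ≠ 0 := fun e => rho_ne_zero ρ ⁅m, n⁆ (by rw [hc, e, zero_smul])
  have : ρ (m * n) = ((Units.mk0 c h0 : kˣ) : k) • ρ (n * m) := by
    rw [show m * n = ⁅m, n⁆ * (n * m) by rw [commutatorElement_def]; group, map_mul, hc,
      smul_mul_assoc, one_mul, Units.val_mk0]
  rw [bb_eq this]; exact this

theorem rho_congr [Nontrivial V] {ρ : G →* End k V} {g h : G}
    (e : (g : G ⧸ scal ρ) = h) : ∃ c : kˣ, ρ h = (c : k) • ρ g := by
  obtain ⟨c, hc⟩ := QuotientGroup.eq.1 e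
  have h0 : c ≠ 0 := fun e => rho_ne_zero ρ (g⁻¹ * h) (by rw [hc, e, zero_smul])
  exact ⟨Units.mk0 c h0, by
    rw [← mul_inv_cancel_left g h, map_mul, hc, mul_smul_comm, mul_one, Units.val_mk0]⟩

theorem case_symp [Nontrivial V] [Group.IsSolvable G] (h5 : 5 ≤ p) (ρ : G →* End k V) {x : G}
    (hx : orderOf x = p) (hgen : normalClosure ({x} : Set G) = ⊤) (hx1 : ρ x ≠ 1)
    (A : Subgroup (G ⧸ scal ρ)) [hAn : A.Normal] (hA0 : A ≠ ⊥)
    (hmin : ∀ K : Subgroup (G ⧸ scal ρ), K.Normal → K ≤ A → K = ⊥ ∨ K = A)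
    (hnd : ∀ m : G, (m : G ⧸ scal ρ) ∈ A →
      (∀ n : G, (n : G ⧸ scal ρ) ∈ A → ρ m * ρ n = ρ n * ρ m) → m ∈ scal ρ) :
    2 * finrank k (LinearMap.ker (ρ x - 1)) < finrank k V := by
  classical
  obtain ⟨hA, q, hq, hAq⟩ := Subn.elemAb_of_minimal_normal inferInstance hA0 hmin
  haveI := Fact.mk hq
  haveI := Fintype.ofFinite A
  let π := QuotientGroup.mk' (scal ρ)
  let M := A.comap π
  have hM : ∀ m ∈ M, ∀ n ∈ M, ρ (m * n) = (bb ρ m n : k) • ρ (n * m) := fun m hm n hn =>
    bb_spec ((QuotientGroup.eq_one_iff _).1 (by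
      show π ⁅m, n⁆ = 1
      rw [map_commutatorElement, commutatorElement_eq_one_iff_mul_comm]
      exact congrArg Subtype.val (hA.is_comm.comm (⟨π m, hm⟩ : A) ⟨π n, hn⟩)))
  have b1 : ∀ m ∈ M, ∀ m' ∈ M, ∀ n ∈ M, bb ρ (m * m') n = bb ρ m n * bb ρ m' n :=
    fun m hm m' hm' n hn => bb_eq (by
      rw [mul_assoc, map_mul, hM m' hm' n hn, mul_smul_comm, ← map_mul, ← mul_assoc, map_mul,
        hM m hm n hn, smul_mul_assoc, ← map_mul, smul_smul, Units.val_mul, mul_comm (bb ρ m n : k),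
        mul_assoc])
  have b2 : ∀ m ∈ M, ∀ n ∈ M, ∀ n' ∈ M, bb ρ m (n * n') = bb ρ m n * bb ρ m n' :=
    fun m hm n hn n' hn' => bb_eq (by
      rw [← mul_assoc, map_mul, hM m hm n hn, smul_mul_assoc, ← map_mul, mul_assoc, map_mul,
        hM m hm n' hn', mul_smul_comm, ← map_mul, smul_smul, Units.val_mul, mul_assoc])
  have b3 : ∀ g : G, ∀ m ∈ M, ∀ n ∈ M, bb ρ (g * m * g⁻¹) (g * n * g⁻¹) = bb ρ m n :=
    fun g m hm n hn => bb_eq (by
      rw [conj_mul, conj_mul, map_mul, map_mul, hM m hm n hn, map_mul _ _ g⁻¹, map_mul _ g,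
        mul_smul_comm, smul_mul_assoc])
  have b4 : ∀ m ∈ M, ∀ n ∈ M, ∀ m' n' : G, π m = π m' → π n = π n' → bb ρ m' n' = bb ρ m n :=
    fun m hm n hn m' n' e e' => bb_eq (by
      obtain ⟨c, hc⟩ := rho_congr e
      obtain ⟨d, hd⟩ := rho_congr e'
      have := hM m hm n hn
      rw [map_mul, map_mul] at this
      rw [map_mul, map_mul, hc, hd]
      simp only [smul_mul_assoc, mul_smul_comm, this, smul_smul]
      congr 1
      ring)
  let o : A → G := fun u => (u : G ⧸ scal ρ).out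
  have ho : ∀ u, π (o u) = u := fun u => QuotientGroup.out_eq' _
  have hoM : ∀ u, o u ∈ M := fun u => by
    show π (o u) ∈ A
    rw [ho]; exact u.2
  have homul : ∀ u v, π (o u * o v) = π (o (u * v)) := fun u v => by
    rw [map_mul, ho, ho, ho, coe_mul]
  let β : A →* A →* kˣ := MonoidHom.mk' (fun u => MonoidHom.mk' (fun v => bb ρ (o u) (o v))
    fun v w => by
      rw [← b2 _ (hoM u) _ (hoM v) _ (hoM w)]
      exact b4 _ (hoM u) _ (M.mul_mem (hoM v) (hoM w)) _ _ rfl (homul v w))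
    fun u v => MonoidHom.ext fun w => by
      show bb ρ _ _ = bb ρ _ _ * bb ρ _ _
      rw [← b1 _ (hoM u) _ (hoM v) _ (hoM w)]
      exact b4 _ (M.mul_mem (hoM u) (hoM v)) _ (hoM w) _ _ (homul u v) rfl
  have hβ : ∀ u v, β u v = bb ρ (o u) (o v) := fun _ _ => rfl
  have hβ' : ∀ (m) (hm : m ∈ M) v, β ⟨π m, hm⟩ v = bb ρ m (o v) := fun m hm v =>
    b4 _ hm _ (hoM v) _ _ (ho ⟨π m, hm⟩).symm rfl
  have hcomm : ∀ m ∈ M, ∀ n ∈ M, bb ρ m n = 1 → ρ m * ρ n = ρ n * ρ m := fun m hm n hn h => by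
    rw [← map_mul, hM m hm n hn, h, Units.val_one, one_smul, map_mul]
  have ho1 : ∀ u, o u ∈ scal ρ → u = 1 := fun u h =>
    Subtype.ext ((ho u).symm.trans ((QuotientGroup.eq_one_iff _).2 h))
  have nd1 : ∀ u, (∀ v, β u v = 1) → u = 1 := fun u h => ho1 u (hnd _ (hoM u) fun n hn =>
    hcomm _ (hoM u) _ hn ((b4 _ (hoM u) _ (hoM ⟨π n, hn⟩) _ _ rfl (ho _)).trans (h _)))
  have nd2 : ∀ u, (∀ v, β v u = 1) → u = 1 := fun u h => ho1 u (hnd _ (hoM u) fun n hn =>
    (hcomm _ hn _ (hoM u) ((hβ' n hn u).symm.trans (h _))).symm)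
  have hinv : ∀ (g : G) u v, β (MulAut.conjNormal (π g) u) (MulAut.conjNormal (π g) v) = β u v :=
    fun g u v => by
      have e : ∀ u : A, π (g * o u * g⁻¹) = π (o (MulAut.conjNormal (π g) u)) := fun u => by
        rw [ho, map_mul, map_mul, ho, map_inv]; rfl
      haveI : M.Normal := inferInstance
      rw [hβ, hβ, ← b3 g _ (hoM u) _ (hoM v)]
      exact b4 _ (this.conj_mem _ (hoM u) g) _ (this.conj_mem _ (hoM v) g) _ _ (e u) (e v)
  have hidx := symp_index h5 hA0 hmin (a := π x) (p := p)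
    (by rw [← map_pow, ← hx, pow_orderOf_eq_one, map_one])
    (by rw [← Set.image_singleton, ← map_normalClosure _ _ (QuotientGroup.mk'_surjective _), hgen,
      ← MonoidHom.range_eq_map, MonoidHom.range_eq_top.2 (QuotientGroup.mk'_surjective _)])
    β (fun u => bb_eq (by rw [Units.val_one, one_smul])) nd1 (hinv x)
  have hcard : (Nat.card A : k) ≠ 0 := by
    obtain ⟨u, hu⟩ := ne_bot_iff_exists_ne_one.1 hA0
    obtain ⟨v, hv⟩ : ∃ v, β u v ≠ 1 := by
      by_contra h
      push Not at h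
      exact hu (nd1 u h)
    have h1 : (β u v) ^ q = 1 := by
      rw [← map_pow, show v ^ q = 1 from Subtype.ext (hAq v v.2), map_one]
    have h2 := IsPrimitiveRoot.orderOf (β u v)
    rw [orderOf_eq_prime h1 hv] at h2
    haveI : NeZero q := ⟨hq.ne_zero⟩
    have h3 := (IsPrimitiveRoot.coe_units_iff.2 h2).neZero'.out
    obtain ⟨j, hj⟩ := IsPGroup.iff_card.1 (Subn.isPGroup_of_pow_eq_one hAq)
    rw [hj, Nat.cast_pow]
    exact pow_ne_zero j h3
  let Ad : G →* End k (End k V) := Representation.linHom ρ ρ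
  have hAd : ∀ g T, Ad g T = ρ g * T * ρ g⁻¹ := fun _ _ => rfl
  have hAdc : ∀ g h : G, π g = π h → Ad g = Ad h := fun g h e => by
    obtain ⟨c, hc⟩ := QuotientGroup.eq.1 e
    have : Ad (g⁻¹ * h) = 1 := LinearMap.ext fun T => by
      rw [hAd, hc, smul_mul_assoc, one_mul, ← mul_one T, ← mul_smul_comm, ← hc, mul_assoc,
        ← map_mul, mul_inv_cancel, map_one, Module.End.one_apply]
    rw [← mul_inv_cancel_left g h, map_mul, this, mul_one]
  letI : MulAction G A := MulAction.compHom A ((MulAut.conjNormal (H := A)).comp π)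
  have hsm : ∀ (g : G) (u : A), g • u = MulAut.conjNormal (π g) u := fun _ _ => rfl
  let W : A → Submodule k (End k V) := fun u => ⨅ v : A, (Ad (o v)).eigenspace (β v u)
  have hWm : ∀ u, ∀ T ∈ W u, ∀ (m) (hm : m ∈ M), Ad m T = (β ⟨π m, hm⟩ u : k) • T :=
    fun u T hT m hm => by rw [← mem_wt.1 hT ⟨π m, hm⟩, hAdc _ _ (ho ⟨π m, hm⟩)]
  have hind : iSupIndep W := by
    refine (indep_wt (fun v : A => Ad (o v)) fun v w => ?_).comp
      (f := fun u : A => fun v : A => (β v u : k)) fun u u' e => ?_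
    · show Ad _ * Ad _ = Ad _ * Ad _
      rw [← map_mul, ← map_mul, hAdc _ _ (homul v w), hAdc _ _ (homul w v), hA.is_comm.comm v w]
    · rw [← mul_inv_eq_one]
      refine nd2 _ fun v => ?_
      rw [map_mul, map_inv, mul_inv_eq_one]
      exact Units.ext (congrFun e v)
  have hW : ∀ (g : G) u, ∀ T ∈ W u, Ad g T ∈ W (g • u) := fun g u T hT => mem_wt.2 fun v => by
    haveI : M.Normal := inferInstance
    have h1 := hWm u T hT _ (this.conj_mem' _ (hoM v) g)
    have h2 : MulAut.conjNormal (π g) (⟨π (g⁻¹ * o v * g), this.conj_mem' _ (hoM v) g⟩ : A) = v :=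
      Subtype.ext (by
        show π g * π _ * (π g)⁻¹ = v
        rw [map_mul, map_mul, ho, map_inv]; group)
    rw [← hinv g, h2] at h1
    rw [hsm, ← map_smul, ← h1, ← Module.End.mul_apply, ← Module.End.mul_apply, ← map_mul, ← map_mul]
    congr 2
    group
  have hshift : ∀ u w, ∀ T ∈ W u, LinearMap.mulLeft k (ρ (o w)) T ∈ W (w * u) :=
    fun u w T hT => mem_wt.2 fun v => by
      have h1 := mem_wt.1 hT v
      have h2 := hM _ (hoM v) _ (hoM w)
      rw [map_mul, map_mul] at h2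
      rw [hAd] at h1
      rw [LinearMap.mulLeft_apply, hAd, ← mul_assoc, h2, smul_mul_assoc, smul_mul_assoc,
        mul_assoc (ρ (o w)), mul_assoc (ρ (o w)), h1, mul_smul_comm, smul_smul, map_mul,
        Units.val_mul, hβ v w]
  have hd : ∀ u, finrank k (W u) = finrank k (W 1) := by
    have hinj : ∀ g, Function.Injective (LinearMap.mulLeft k (ρ g)) := fun g S T e => by
      have : ∀ T : End k V, T = ρ g⁻¹ * (ρ g * T) := fun T => by
        rw [← mul_assoc, ← map_mul, inv_mul_cancel, map_one, one_mul]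
      rw [this S, this T]
      exact congrArg (ρ g⁻¹ * ·) e
    intro u
    have h1 := finrank_le_of_maps (hinj _) (hshift u u⁻¹)
    have h2 := finrank_le_of_maps (hinj _) (hshift 1 u)
    rw [inv_mul_cancel] at h1
    rw [mul_one] at h2
    exact le_antisymm h1 h2
  have htop : iSup W = ⊤ := by
    rw [eq_top_iff]
    intro T _
    let P : A → End k V := fun u => ∑ v : A, (((β v u)⁻¹ : kˣ) : k) • Ad (o v) T
    have hP : ∀ u, P u ∈ W u := fun u => mem_wt.2 fun w => by
      simp only [P, map_sum, map_smul, Finset.smul_sum]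
      refine Fintype.sum_equiv (Equiv.mulLeft w) _ _ fun v => ?_
      rw [← Module.End.mul_apply, ← map_mul, hAdc _ _ (homul w v), Equiv.coe_mulLeft, smul_smul,
        map_mul, MonoidHom.mul_apply, mul_inv, Units.val_mul, ← mul_assoc, Units.mul_inv, one_mul]
    have hsum : ∑ u, P u = (Nat.card A : k) • T := by
      simp only [P]
      rw [Finset.sum_comm, Finset.sum_eq_single 1]
      · rw [← Finset.sum_smul, hAdc (o 1) 1 (by rw [ho, map_one]; rfl), map_one, map_one]
        simp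
      · intro v _ hv
        rw [← Finset.sum_smul]
        have := sum_hom_units_eq_zero ((Units.coeHom k).comp (β v)⁻¹) fun e => hv (nd1 v fun u => by
          have := DFunLike.congr_fun e u
          rw [← inv_eq_one]
          exact Units.ext this)
        rw [show ∑ u : A, (((β v u)⁻¹ : kˣ) : k) = 0 from this, zero_smul]
      · simp
    have : T = (Nat.card A : k)⁻¹ • ∑ u, P u := by
      rw [hsum, smul_smul, inv_mul_cancel₀ hcard, one_smul]
    rw [this]
    exact Submodule.smul_mem _ _ (Submodule.sum_mem _ fun u _ => Submodule.mem_iSup_of_mem u (hP u))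
  obtain ⟨h1, h2⟩ := PB Ad W hind htop hW hd hx
  have h3 : Nat.card (fixedBy A x) = Nat.card ↥(A ⊓ centralizer (zpowers (π x) : Set _)) :=
    Nat.card_congr
      ⟨fun u => ⟨u.1.1, u.1.2, fun g hg => by
          obtain ⟨n, rfl⟩ := mem_zpowers_iff.1 hg
          have : Commute (π x) u.1.1 := mul_inv_eq_iff_eq_mul.1 (congrArg Subtype.val u.2)
          exact (this.zpow_left n).eq⟩,
        fun u => ⟨⟨u.1, u.2.1⟩, Subtype.ext (mul_inv_eq_iff_eq_mul.2 (u.2.2 _ (mem_zpowers _)))⟩,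
        fun _ => rfl, fun _ => rfl⟩
  have h4 : LinearMap.ker (Ad x - 1) = HH.cmt (ρ x - 1) := by
    ext T
    rw [LinearMap.mem_ker, LinearMap.sub_apply, Module.End.one_apply, sub_eq_zero, HH.mem_cmt,
      sub_mul, mul_sub, one_mul, mul_one, sub_left_inj, hAd]
    constructor
    · intro h
      calc ρ x * T = ρ x * T * ρ x⁻¹ * ρ x := by
            rw [mul_assoc, ← map_mul, inv_mul_cancel, map_one, mul_one]
        _ = _ := by rw [h]
    · intro h
      rw [h, mul_assoc, ← map_mul, mul_inv_cancel, map_one, mul_one]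
  have h6 := HH.cmt_step (ρ x - 1)
  have h7 : 0 < finrank k (HH.cmt (HH.rr (ρ x - 1))) := by
    haveI : Nontrivial (LinearMap.range (ρ x - 1)) := Submodule.nontrivial_iff_ne_bot.2 fun h =>
      hx1 (sub_eq_zero.1 (LinearMap.range_eq_bot.1 h))
    refine Nat.pos_of_ne_zero fun h => ?_
    have h' := Submodule.finrank_eq_zero.1 h
    have h1 : (1 : End k _) ∈ HH.cmt (HH.rr (ρ x - 1)) := by rw [HH.mem_cmt, mul_one, one_mul]
    rw [h'] at h1
    exact one_ne_zero ((Submodule.mem_bot k).1 h1)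
  rw [Module.finrank_linearMap] at h1
  rw [h4, h3] at h2
  generalize finrank k (LinearMap.ker (ρ x - 1)) = c at *
  generalize finrank k (HH.cmt (ρ x - 1)) = K at *
  generalize finrank k (W 1) = d at *
  generalize Nat.card ↥(A ⊓ centralizer (zpowers (π x) : Set _)) = f at *
  generalize Nat.card A = s at *
  generalize finrank k V = N at *
  obtain ⟨r, rfl⟩ : ∃ r, p = r + 4 := ⟨p - 4, by omega⟩
  rw [Nat.add_sub_cancel] at hidx
  have h8 : (r + 4) * (4 * K) ≤ (r + 4) * (N * N) := by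
    calc _ = 4 * ((r + 4) * K) := by ring
      _ ≤ 4 * (d * (s + (r + 4 - 1) * f)) := Nat.mul_le_mul_left _ h2
      _ = d * (4 * s + 4 * (r + 4 - 1) * f) := by ring
      _ ≤ d * (4 * s + r * s) := by gcongr
      _ = _ := by rw [h1]; ring
  have h9 := Nat.le_of_mul_le_mul_left h8 (by omega)
  by_contra h10
  have : N ≤ 2 * c := by omega
  nlinarith

theorem irr_bound [IsAlgClosed k] [Nontrivial V] [Group.IsSolvable G] (h5 : 5 ≤ p)
    (ρ : G →* End k V)
    (hirr : ∀ W : Submodule k V, (∀ g, ∀ w ∈ W, ρ g w ∈ W) → W = ⊥ ∨ W = ⊤) {x : G}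
    (hx : orderOf x = p) (hgen : normalClosure ({x} : Set G) = ⊤) (hnt : ∃ g, ρ g ≠ 1) :
    2 * finrank k (LinearMap.ker (ρ x - 1)) < finrank k V := by
  have hx1 : ρ x ≠ 1 := fun h => by
    obtain ⟨g, hg⟩ := hnt
    exact hg (normalClosure_le_normal (N := ρ.toHomUnits.ker) (Set.singleton_subset_iff.2
      (Units.ext h)) (hgen ▸ mem_top g) |> congrArg Units.val)
  by_cases hZ : scal ρ = ⊤
  · obtain ⟨c, hc⟩ : x ∈ scal ρ := hZ ▸ mem_top x
    have h1 : c - 1 ≠ 0 := fun e => hx1 (by rw [hc, sub_eq_zero.1 e, one_smul])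
    have : LinearMap.ker (ρ x - 1) = ⊥ := by
      rw [eq_bot_iff]
      intro w hw
      rw [LinearMap.mem_ker, hc, LinearMap.sub_apply, LinearMap.smul_apply,
        Module.End.one_apply] at hw
      exact (smul_eq_zero.1 (by rw [sub_smul, one_smul, hw])).resolve_left h1
    rw [this, finrank_bot]
    exact Module.finrank_pos
  let π := QuotientGroup.mk' (scal ρ)
  have hG : (⊤ : Subgroup (G ⧸ scal ρ)) ≠ ⊥ := fun h => hZ (eq_top_iff.2 fun g _ =>
    (QuotientGroup.eq_one_iff g).1 (mem_bot.1 (h ▸ mem_top _)))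
  obtain ⟨A, -, hA0, hAn, hmin⟩ := Subn.exists_minimal_normal hG
  let M := A.comap π
  let R : Subgroup G := M ⊓ (centralizer (M.map ρ.toHomUnits : Set _)).comap ρ.toHomUnits
  have hR : ∀ g, g ∈ R ↔ g ∈ M ∧ ∀ n ∈ M, ρ g * ρ n = ρ n * ρ g := fun g => by
    refine and_congr_right fun _ => ⟨fun h n hn => ?_, ?_⟩
    · exact (congrArg Units.val (h _ ⟨n, hn, rfl⟩)).symm
    · rintro h _ ⟨n, hn, rfl⟩
      exact Units.ext (h n hn).symm
  have hMn : M.Normal := inferInstance
  haveI hRn : R.Normal := ⟨fun n hn g => (hR _).2 ⟨hMn.conj_mem _ ((hR n).1 hn).1 g, fun m hm => by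
    have := ((hR n).1 hn).2 _ (hMn.conj_mem' m hm g)
    rw [← map_mul, ← map_mul] at this ⊢
    calc _ = ρ g * ρ (n * (g⁻¹ * m * g)) * ρ g⁻¹ := by rw [← map_mul, ← map_mul]; congr 1; group
      _ = _ := by rw [this, ← map_mul, ← map_mul]; congr 1; group⟩⟩
  rcases hmin (R.map π) (hRn.map _ (QuotientGroup.mk'_surjective _))
    (map_le_iff_le_comap.2 inf_le_left) with e | e
  · refine case_symp h5 ρ hx hgen hx1 A hA0 hmin fun m hm h => ?_
    exact (QuotientGroup.eq_one_iff m).1 (mem_bot.1 (e ▸ mem_map_of_mem π ((hR m).2 ⟨hm, h⟩)))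
  · refine case_comm h5 ρ hirr hx hgen M (fun m hm n hn => ?_) ?_
    · obtain ⟨r, hr, e'⟩ : π m ∈ R.map π := e.symm ▸ hm
      obtain ⟨c, hc⟩ := rho_congr e'
      rw [hc, smul_mul_assoc, mul_smul_comm, ((hR r).1 hr).2 n hn]
    · by_contra h
      push Not at h
      refine hA0 (eq_bot_iff.2 fun a ha => ?_)
      obtain ⟨g, rfl⟩ := QuotientGroup.mk'_surjective _ a
      exact (QuotientGroup.eq_one_iff g).2 (h g ha)

end rep

theorem bound {G k : Type*} [Group G] [Finite G] [Group.IsSolvable G] [Field k] [IsAlgClosed k]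
    {p : ℕ} [Fact p.Prime] (h5 : 5 ≤ p) {x : G} (hx : orderOf x = p)
    (hgen : normalClosure ({x} : Set G) = ⊤) (B : Finset G) (hB : (B.card : k) ≠ 0) (n : ℕ) :
    ∀ (V : Type u) [AddCommGroup V] [Module k V] [FiniteDimensional k V] [Nontrivial V]
      (ρ : G →* End k V), finrank k V = n → ∑ b ∈ B, ρ b = 0 →
      2 * finrank k (LinearMap.ker (ρ x - 1)) < finrank k V := by
  induction n using Nat.strong_induction_on with
  | _ n ih =>
  intro V _ _ _ _ ρ hn h0
  by_cases hirr : ∀ W : Submodule k V, (∀ g, ∀ w ∈ W, ρ g w ∈ W) → W = ⊥ ∨ W = ⊤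
  · refine irr_bound h5 ρ hirr hx hgen ?_
    by_contra h
    push Not at h
    simp only [h, Finset.sum_const, nsmul_eq_mul, mul_one] at h0
    exact hB ((map_eq_zero (algebraMap k (End k V))).1 (by rw [map_natCast, h0]))
  push Not at hirr
  obtain ⟨W, hW, h1, h2⟩ := hirr
  haveI := Submodule.nontrivial_iff_ne_bot.2 h1
  haveI := Submodule.Quotient.nontrivial_iff.2 h2
  have hsum := W.finrank_quotient_add_finrank
  have p1 : 0 < finrank k W := Module.finrank_pos
  have p2 : 0 < finrank k (V ⧸ W) := Module.finrank_pos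
  let ρ1 : G →* End k W := Representation.subrepresentation ρ W hW
  let ρ2 : G →* End k (V ⧸ W) := Representation.quotient ρ W hW
  have e1 : ∀ g (w : W), (ρ1 g w : V) = ρ g w := fun _ _ => rfl
  have e2 : ∀ g v, ρ2 g (W.mkQ v) = W.mkQ (ρ g v) := fun _ _ => rfl
  have i1 := ih _ (by omega) W ρ1 rfl (LinearMap.ext fun w => Subtype.ext (by
    have := LinearMap.congr_fun h0 w
    rw [LinearMap.sum_apply] at this ⊢
    rw [Submodule.coe_sum]
    exact this))
  have i2 := ih _ (by omega) (V ⧸ W) ρ2 rfl (LinearMap.ext fun v => by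
    obtain ⟨v, rfl⟩ := W.mkQ_surjective v
    have := LinearMap.congr_fun h0 v
    rw [LinearMap.sum_apply] at this
    simp only [LinearMap.sum_apply, e2, ← map_sum, this, LinearMap.zero_apply, map_zero])
  have hk : ∀ {U : Type u} [AddCommGroup U] [Module k U] (f : End k U) (v : U),
      v ∈ LinearMap.ker (f - 1) ↔ f v = v := fun f v => by
    rw [LinearMap.mem_ker, LinearMap.sub_apply, Module.End.one_apply, sub_eq_zero]
  let φ : LinearMap.ker (ρ x - 1) →ₗ[k] LinearMap.ker (ρ2 x - 1) :=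
    W.mkQ.restrict fun v hv => (hk _ _).2 (by rw [e2, (hk _ _).1 hv])
  have j1 := LinearMap.finrank_range_add_finrank_ker φ
  have j2 := Submodule.finrank_le (LinearMap.range φ)
  have hmem : ∀ v : LinearMap.ker φ, (v.1 : V) ∈ W := fun v =>
    (Submodule.Quotient.mk_eq_zero W).1 (congrArg Subtype.val v.2)
  let ψ : LinearMap.ker φ →ₗ[k] LinearMap.ker (ρ1 x - 1) :=
    { toFun := fun v => ⟨⟨v.1, hmem v⟩, (hk _ _).2 (Subtype.ext ((hk _ _).1 v.1.2))⟩
      map_add' := fun _ _ => rfl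
      map_smul' := fun _ _ => rfl }
  have j3 := LinearMap.finrank_le_finrank_of_injective (f := ψ) fun a b e =>
    Subtype.ext (Subtype.ext (congrArg (fun t => (t.1.1 : V)) e))
  omega

end CA.FusFlv
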