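import Cfsg.Agent.Lib.Fus.FusFlv2
import Cfsg.Agent.Lib.Solv.HH2

/-!
Solvable groups generated by two conjugate subgroups of prime order `p ≥ 5` acting on elementary
abelian groups.
-/

set_option autoImplicit false
set_option linter.unusedSectionVars false

namespace CA.FusFlv

open Subgroup Cfsg CA.OQuo CA.BG CA.BGRep Module TensorProduct

variable {G : Type*} [Group G] [Finite G] {p q : ℕ} [hp : Fact p.Prime] {V A R : Subgroup G}

theorem cent_sq_lt [hq : Fact q.Prime] (h5 : 5 ≤ p) (hV : IsElementaryAbelian q V) (hV0 : V ≠ ⊥)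
    (hA : A ≤ 𝓝(V)) (hs : Group.IsSolvable A) (hR : R ≤ A) (hRq : ¬ q ∣ ♯R) (hc : V ⊓ 𝓒(R) = ⊥)
    {x : G} (hx : x ∈ A) (ho : orderOf x = p)
    (hgen : normalClosure ({⟨x, hx⟩} : Set A) = ⊤) : ♯(V ⊓ 𝓒₁(x)) ^ 2 < ♯V := by
  classical
  haveI := Fintype.ofFinite R
  let ρ : A →* End (Fb q) (Fb q ⊗[ZMod q] EV hV) := (krep hV).comp (inclusion hA)
  have hρ : ∀ g : A, ρ g = rp (krep hV) g := fun g => (rp_of_mem (krep hV) (hA g.2)).symm
  have h1 := pow_finrank_krep (hV := hV)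
  haveI : Nontrivial (Fb q ⊗[ZMod q] EV hV) := Module.finrank_pos_iff.1 (Nat.pos_of_ne_zero
    fun h => hV0 (card_eq_one.1 (by rw [← h1, h, pow_zero])))
  have hF := Fix_krep_eq_bot (hV := hV) (hR.trans hA) hc
  have key := bound (k := Fb q) h5 (x := (⟨x, hx⟩ : A)) (by rw [← ho, orderOf_mk]) hgen
    ((Finset.univ : Finset R).map ⟨inclusion hR, inclusion_injective hR⟩)
    (by
      rw [Finset.card_map, Finset.card_univ, ← Nat.card_eq_fintype_card]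
      exact cast_ne_zero_Fb hRq) _ _ ρ rfl
    (by
      rw [Finset.sum_map]
      refine LinearMap.ext fun w => (Submodule.mem_bot _).1 (hF.le (mem_Fix.2 fun r hr => ?_))
      rw [LinearMap.sum_apply, map_sum]
      refine Fintype.sum_equiv (Equiv.mulLeft (⟨r, hr⟩ : R)) _ _ fun b => ?_
      rw [show rp (krep hV) r = ρ ⟨r, hR hr⟩ from (hρ ⟨r, hR hr⟩).symm, ← Module.End.mul_apply,
        ← map_mul]
      rfl)
  have h2 := pow_finrank_Fix_krep (hV := hV) (zpowers_le.2 (hA hx))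
  have e : Fix (krep hV) (zpowers x) = LinearMap.ker (ρ ⟨x, hx⟩ - 1) := by
    ext w
    rw [mem_Fix_zpowers (hA hx), LinearMap.mem_ker, LinearMap.sub_apply, Module.End.one_apply,
      sub_eq_zero, hρ]
  rw [← cent_zpowers, ← h2, ← h1, ← pow_mul, e, mul_comm]
  exact Nat.pow_lt_pow_right hq.out.one_lt key

theorem ncl_pair {x a : G} (ha : a ∈ A) (hx : x ∈ A) (h : A = zpowers x ⊔ zpowers (a * x * a⁻¹)) :
    normalClosure ({⟨x, hx⟩} : Set A) = ⊤ := by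
  have hm : (⟨x, hx⟩ : A) ∈ normalClosure ({⟨x, hx⟩} : Set A) :=
    subset_normalClosure (Set.mem_singleton _)
  have : A ≤ (normalClosure ({⟨x, hx⟩} : Set A)).map A.subtype := h.le.trans (sup_le
    (zpowers_le.2 ⟨_, hm, rfl⟩) (zpowers_le.2 ⟨_, normalClosure_normal.conj_mem _ hm ⟨a, ha⟩, rfl⟩))
  rw [eq_top_iff]
  intro g _
  obtain ⟨y, hy, e⟩ := this g.2
  rwa [show y = g from Subtype.ext e] at hy

theorem exists_gen {r : ℕ} (h5 : 5 ≤ p) (hq : q.Prime) (hV : IsElementaryAbelian q V)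
    (hA : A ≤ 𝓝(V)) (hs : Group.IsSolvable A)
    (hirr : ∀ U, U ≤ V → A ≤ 𝓝(U) → U = ⊥ ∨ U = V) (hR : R ≤ A) (hRn : A ≤ 𝓝(R))
    (hRr : IsPi {r} R) (hrq : r ≠ q) (hnc : ¬ V ≤ 𝓒(R)) {x a : G} (hxp : x ^ p = 1) (ha : a ∈ A)
    (h : A = zpowers x ⊔ zpowers (a * x * a⁻¹)) :
    ∃ v ∈ V, V ≤ zpowers x ⊔ zpowers (v * a * x * (v * a)⁻¹) := by
  haveI := Fact.mk hq
  have hx : x ∈ A := zpowers_le.1 (h ▸ le_sup_left)
  have hy : a * x * a⁻¹ ∈ A := zpowers_le.1 (h ▸ le_sup_right)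
  have hc : V ⊓ 𝓒(R) = ⊥ := (hirr _ inf_le_left (norm_inf hA (norm_cent hRn))).resolve_right
    fun e => hnc (e ▸ inf_le_right)
  have hV0 : V ≠ ⊥ := fun e => hnc (e ▸ bot_le)
  have hVq := isPi_of_elem hq hV
  have hcop : (♯V).Coprime ♯R := hVq.coprime_ne hRr hrq.symm
  have hx1 : x ≠ 1 := by
    rintro rfl
    rw [mul_one, mul_inv_cancel, zpowers_one_eq_bot, bot_sup_eq] at h
    exact hnc (by rw [BG.eq_bot_mono hR h, cent_bot]; exact le_top)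
  have hlt := cent_sq_lt h5 hV hV0 hA hs hR ((isPi_compl_iff hq).1 (hRr.ne hrq)) hc hx
    (orderOf_eq_prime hxp hx1) (ncl_pair ha hx h)
  have hNR : V ⊓ 𝓝(R) = ⊥ := (coprime_norm_cent (hR.trans hA) hcop).trans hc
  have hAV : A ⊓ V = ⊥ := BG.eq_bot_mono (le_inf inf_le_right (inf_le_left.trans hRn)) hNR
  by_contra hno
  push Not at hno
  have key : ∀ v ∈ V, v ∈ (V ⊓ 𝓒₁(x)) ⊔ (V ⊓ 𝓒₁(a * x * a⁻¹)) := by
    intro v hv
    obtain ⟨B, hB⟩ : ∃ B, B = zpowers x ⊔ zpowers (v * a * x * (v * a)⁻¹) := ⟨_, rfl⟩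
    have e0 : v * a * x * (v * a)⁻¹ = v * (a * x * a⁻¹) * v⁻¹ := by group
    have hxB : x ∈ B := zpowers_le.1 (hB ▸ le_sup_left)
    have hyB : v * (a * x * a⁻¹) * v⁻¹ ∈ B := e0 ▸ zpowers_le.1 (hB ▸ le_sup_right)
    have hBH : B ≤ A ⊔ V := by
      rw [hB, e0]
      exact sup_le (zpowers_le.2 (mem_sup_left hx)) (zpowers_le.2 (mul_mem (mul_mem
        (mem_sup_right hv) (mem_sup_left hy)) (inv_mem (mem_sup_right hv))))
    have hBV : B ≤ 𝓝(V) := hBH.trans (sup_le hA (le_norm_self V))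
    have hAB : A ≤ B ⊔ V := by
      refine h.le.trans (sup_le (zpowers_le.2 (mem_sup_left hxB)) (zpowers_le.2 ?_))
      rw [show a * x * a⁻¹ = v⁻¹ * (v * (a * x * a⁻¹) * v⁻¹) * v by group]
      exact mul_mem (mul_mem (inv_mem (mem_sup_right hv)) (mem_sup_left hyB)) (mem_sup_right hv)
    have hd : B ⊓ V = ⊥ := (hirr _ inf_le_right (hAB.trans (sup_le (norm_inf (le_norm_self B) hBV)
      (norm_of_comm hV.1 inf_le_right)))).resolve_right fun e => hno v hv (hB ▸ e.ge.trans inf_le_left)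
    have hRV : A ⊔ V ≤ 𝓝(R ⊔ V) := sup_le (norm_sup hRn hA) (le_norm_of_le le_sup_right)
    have h1 : (B ⊓ (R ⊔ V)) ⊔ V = R ⊔ V := by
      rw [← sup_inf_of_le_right hBV le_sup_right]
      exact inf_eq_right.2 (sup_le (hR.trans hAB) le_sup_right)
    have h2 : ♯(B ⊓ (R ⊔ V)) = ♯R := by
      have e1 := card_sup_of_disjoint (inf_le_left.trans hBV : B ⊓ (R ⊔ V) ≤ _)
        (BG.eq_bot_mono (inf_le_inf_right _ inf_le_left) hd)
      rw [h1, card_sup_of_disjoint (hR.trans hA) (BG.eq_bot_mono (inf_le_inf_right _ hR) hAV)] at e1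
      exact (Nat.eq_of_mul_eq_mul_right (card_pos' V) e1).symm
    obtain ⟨w, hw, h3⟩ := coprime_conj_le (hR.trans hA) hcop (inf_le_right : B ⊓ (R ⊔ V) ≤ _)
      (h2 ▸ hcop) (Or.inr (Or.inr (solv_of_comm hV.1)))
    have h4 : cj w (B ⊓ (R ⊔ V)) = R := eq_of_le_of_card_eq h3 (by rw [card_cj, h2])
    have h5' : cj w B ≤ A := by
      have e1 : cj w B ≤ 𝓝(R) := h4 ▸ norm_cj w (norm_inf (le_norm_self B) (hBH.trans hRV))
      have e2 : cj w B ≤ A ⊔ V := cj_le_of_mem (mem_sup_right hw) hBH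
      have := le_inf e2 e1
      rwa [sup_inf_of_le_left hA hRn, hNR, sup_bot_eq] at this
    have hcm : ∀ u ∈ V, ∀ z ∈ A, u * z * u⁻¹ ∈ A → u ∈ V ⊓ 𝓒₁(z) := fun u hu z hz h' => by
      refine ⟨hu, mem_cent1.2 ?_⟩
      have : u * z * u⁻¹ * z⁻¹ ∈ A ⊓ V := ⟨A.mul_mem h' (A.inv_mem hz), by
        rw [mul_assoc, mul_assoc, ← mul_assoc z]
        exact mul_mem hu (conj_mem_of_norm hA hz (inv_mem hu))⟩
      rw [hAV, mem_bot] at this
      calc u * z = u * z * u⁻¹ * z⁻¹ * (z * u) := by group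
        _ = _ := by rw [this, one_mul]
    have m1 := hcm w hw x hx (h5' (conj_mem_cj.2 hxB))
    have m2 := hcm (w * v) (mul_mem hw hv) _ hy (by
      have := h5' (conj_mem_cj.2 hyB)
      rwa [show w * (v * (a * x * a⁻¹) * v⁻¹) * w⁻¹ = w * v * (a * x * a⁻¹) * (w * v)⁻¹ by group]
        at this)
    rw [show v = w⁻¹ * (w * v) by group]
    exact mul_mem (mem_sup_left (inv_mem m1)) (mem_sup_right m2)
  have e : V ⊓ 𝓒₁(a * x * a⁻¹) = cj a (V ⊓ 𝓒₁(x)) := by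
    rw [cj_inf, cj_cent1, cj_of_mem_norm (hA ha)]
  have h1 := Nat.le_of_dvd (Nat.mul_pos (card_pos' _) (card_pos' _)) (card_sup_dvd
    (A := V ⊓ 𝓒₁(x)) (N := V ⊓ 𝓒₁(a * x * a⁻¹)) (inf_le_left.trans (norm_of_comm hV.1 inf_le_left)))
  have h2 := card_le_of_le' (show V ≤ _ from key)
  rw [e, card_cj, ← e, ← sq] at h1
  omega

theorem exists_gen' {r : ℕ} {K : Subgroup G} (h5 : 5 ≤ p) (hq : q.Prime) (hK : IsPi {q} K)
    (hA : A ≤ 𝓝(K)) (hs : Group.IsSolvable A) (hR : R ≤ A) (hRn : A ≤ 𝓝(R))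
    (hRr : IsPi {r} R) (hrq : r ≠ q) (hnc : ¬ K ≤ 𝓒(R)) {x a : G} (hxp : x ^ p = 1) (ha : a ∈ A)
    (h : A = zpowers x ⊔ zpowers (a * x * a⁻¹)) :
    ∃ Q, Q ≤ K ∧ A ≤ 𝓝(Q) ∧ ¬ Q ≤ 𝓒(R) ∧
      ∃ v ∈ Q, A ⊔ Q = zpowers x ⊔ zpowers (v * a * x * (v * a)⁻¹) := by
  obtain ⟨Q, hQK, c⟩ := HH.exists_crit_of_pi hq hK hA hR hRn (hK.coprime_ne hRr hrq.symm) hnc
  refine ⟨Q, hQK, c.norm, c.nc, ?_⟩
  have hx : x ∈ A := zpowers_le.1 (h ▸ le_sup_left)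
  have hy : a * x * a⁻¹ ∈ A := zpowers_le.1 (h ▸ le_sup_right)
  have nA := c.norm_phi
  have nQ := le_norm_Phi Q
  obtain ⟨v', hv', h1⟩ := exists_gen (V := Q /ᵍ Phi Q) (A := A /ᵍ Phi Q) (R := R /ᵍ Phi Q) h5 hq
    ((elem_quo_iff nQ).2 ⟨der_le_Phi hq c.pi, fun y hy => pow_mem_Phi hq c.pi hy⟩)
    (norm_quo _ c.norm) (solv_quo _ hs)
    (fun U hU hn => by
      rcases (qpre_le nQ (Phi_le Q) hU).lt_or_eq with e | e
      · exact Or.inl (qpre_eq_self_iff.1 (le_antisymm (c.le_phi e (norm_qpre nA hn)) (le_qpre U)))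
      · exact Or.inr (by rw [← quo_mpre U, e]))
    (quo_mono _ hR) (norm_quo _ hRn) (hRr.mim _) hrq
    (fun e => (Phi_lt c.ne_bot).not_ge (c.comm_eq.ge.trans (comm_le_of_quo_cent nQ (hR.trans nA) e)))
    (x := mel (qh _) x) (a := mel (qh _) a) (by rw [← mel_pow _ (nA hx), hxp, mel_one])
    (mel_mem_mim _ ha)
    (by
      rw [← mel_conj _ (nA ha) (nA hx), ← mim_zpowers _ (nA hx), ← mim_zpowers _ (nA hy),
        ← mim_sup _ (zpowers_le.2 (nA hx)) (zpowers_le.2 (nA hy)), ← h])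
  obtain ⟨v, hv, rfl⟩ := (mem_mim_of_le nQ).1 hv'
  have hva : v * a ∈ 𝓝(Phi Q) := mul_mem (nQ hv) (nA ha)
  have hz : v * a * x * (v * a)⁻¹ ∈ 𝓝(Phi Q) := mul_mem (mul_mem hva (nA hx)) (inv_mem hva)
  rw [← mel_mul _ (nQ hv) (nA ha), ← mel_conj _ hva (nA hx), ← mim_zpowers _ (nA hx),
    ← mim_zpowers _ hz, ← mim_sup _ (zpowers_le.2 (nA hx)) (zpowers_le.2 hz)] at h1
  obtain ⟨B, hB⟩ : ∃ B, B = zpowers x ⊔ zpowers (v * a * x * (v * a)⁻¹) := ⟨_, rfl⟩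
  rw [← hB] at h1
  have nB : B ≤ 𝓝(Phi Q) := hB ▸ sup_le (zpowers_le.2 (nA hx)) (zpowers_le.2 hz)
  have h2 : Q ≤ B := by
    have := le_inf ((quo_le_quo_iff' nQ nB).1 h1) le_rfl
    rw [sup_inf_of_le_right nB (Phi_le Q)] at this
    exact (Phi_nongen inf_le_right this).ge.trans inf_le_left
  have e0 : v * a * x * (v * a)⁻¹ = v * (a * x * a⁻¹) * v⁻¹ := by group
  have hxB : x ∈ B := zpowers_le.1 (hB ▸ le_sup_left)
  have hyB : v * (a * x * a⁻¹) * v⁻¹ ∈ B := e0 ▸ zpowers_le.1 (hB ▸ le_sup_right)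
  refine ⟨v, hv, hB ▸ le_antisymm (sup_le (h.le.trans
    (sup_le (zpowers_le.2 hxB) (zpowers_le.2 ?_))) h2) ?_⟩
  · rw [show a * x * a⁻¹ = v⁻¹ * (v * (a * x * a⁻¹) * v⁻¹) * v by group]
    exact mul_mem (mul_mem (inv_mem (h2 hv)) hyB) (h2 hv)
  · rw [hB, e0]
    exact sup_le (zpowers_le.2 (mem_sup_left hx)) (zpowers_le.2 (mul_mem (mul_mem
      (mem_sup_right hv) (mem_sup_left hy)) (inv_mem (mem_sup_right hv))))

/-- nilpotency of `F(A) V` from the commuting of coprime cores -/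
theorem nil_fit_sup (hV : Group.IsNilpotent V) (hA : A ≤ 𝓝(V))
    (h : ∀ q r K, q.Prime → r.Prime → r ≠ q → K ≤ V → IsPi {q} K → A ≤ 𝓝(K) → K ≤ 𝓒(𝓞({r}, A))) :
    Group.IsNilpotent ↥(𝓕(A) ⊔ V) := by
  have hF : 𝓕(A) ≤ 𝓝(V) := (fit_le A).trans hA
  refine nil_of_le (fit_nil (𝓕(A) ⊔ V)) (sup_le (fit_le_of_core fun r hr _ => ?_)
    (le_fit hV le_sup_right (sup_le hF (le_norm_self V))))
  have h1 : 𝓞({r}ᶜ, V) ≤ 𝓒(𝓞({r}, A)) := by
    refine (fit_eq_self (nil_of_le hV (core_le {r}ᶜ V))).ge.trans ?_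
    refine fit_le_of_core fun q hq hd => h q r _ hq hr ?_ ((core_le _ _).trans (core_le _ _))
      (core_pi _ _) (norm_core _ (norm_core _ hA))
    rintro rfl
    exact (isPi_compl_iff hr).1 ((core_pi _ V).of_le (fit_le _)) hd
  have hT : IsPi {r} (𝓞({r}, A) ⊔ 𝓞({r}, V)) :=
    (core_pi _ _).sup (core_pi _ _) (norm_core _ ((core_le _ _).trans hA))
  refine le_sup_left.trans ((le_core hT (sup_le ((core_p_le_fit hr A).trans le_sup_left)
    ((core_le _ _).trans le_sup_right)) (sup_le ((fit_le A).trans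
      (norm_sup (le_norm_core _ _) (norm_core _ hA))) ?_)).trans (core_p_le_fit hr _))
  exact (nil_core_sup {r} hV).ge.trans (sup_le (le_norm_of_le le_sup_right)
    (norm_of_cent (le_cent_sup h1 (cent_symm (core_cent_core _ _)))))

end CA.FusFlv
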