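import Mathlib

/-!
The limit, as `t → ∞`, of the conjugates `(1 + t x) A (1 - t x)` of a subspace `A` of an algebra,
for `x * x = 0` (Glauberman's replacement construction).
-/

set_option autoImplicit false

namespace CA.FusGlb

open Polynomial

variable {F R : Type*} [Field F] [Ring R] [Algebra F R]

/-- polynomials all of whose coefficients lie in `A` -/
def polys (A : Submodule F R) : Submodule F R[X] where
  carrier := {f | ∀ n, f.coeff n ∈ A}
  add_mem' := fun {f g} hf hg n => by rw [coeff_add]; exact A.add_mem (hf n) (hg n)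
  zero_mem' := fun n => by rw [coeff_zero]; exact A.zero_mem
  smul_mem' := fun c f hf n => by rw [coeff_smul]; exact A.smul_mem c (hf n)

theorem mem_polys {A : Submodule F R} {f : R[X]} : f ∈ polys A ↔ ∀ n, f.coeff n ∈ A := Iff.rfl

theorem polys_mul_X {A : Submodule F R} {f : R[X]} (hf : f ∈ polys A) : f * X ∈ polys A := by
  intro n
  cases n with
  | zero => rw [coeff_mul_X_zero]; exact A.zero_mem
  | succ n => rw [coeff_mul_X]; exact hf n

theorem polys_mul_X_pow {A : Submodule F R} {f : R[X]} (hf : f ∈ polys A) (k : ℕ) :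
    f * X ^ k ∈ polys A := by
  induction k with
  | zero => simpa using hf
  | succ k ih => rw [pow_succ, ← mul_assoc]; exact polys_mul_X ih

theorem polys_derivative {A : Submodule F R} {f : R[X]} (hf : f ∈ polys A) :
    derivative f ∈ polys A := by
  intro n
  rw [coeff_derivative]
  have : f.coeff (n + 1) * ((n : R) + 1) = (n + 1) • f.coeff (n + 1) := by
    rw [nsmul_eq_mul, Nat.cast_add, Nat.cast_one]
    exact ((Nat.cast_commute n _).add_left (Commute.one_left _)).eq.symm
  rw [this]; exact nsmul_mem (hf _) _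

theorem polys_ind {A B : Submodule F R} (φ : R[X] →+ R[X])
    (hX : ∀ f k, φ (f * X ^ k) = φ f * X ^ k) (h : ∀ a ∈ A, φ (C a) ∈ polys B) {f : R[X]}
    (hf : f ∈ polys A) : φ f ∈ polys B := by
  rw [f.as_sum_range_C_mul_X_pow, map_sum]
  refine Submodule.sum_mem _ fun i _ => ?_
  rw [hX]; exact polys_mul_X_pow (h _ (hf i)) i

theorem polys_mul_zero {A B : Submodule F R} (h : ∀ a ∈ A, ∀ b ∈ B, a * b = 0) {f g : R[X]}
    (hf : f ∈ polys A) (hg : g ∈ polys B) : f * g = 0 := by
  ext n
  rw [coeff_mul, coeff_zero]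
  exact Finset.sum_eq_zero fun c _ => h _ (hf _) _ (hg _)

/-- `1 + x t` -/
noncomputable def PP (x : R) : R[X] := 1 + C x * X

theorem PP_mul_neg {x : R} (hx : x * x = 0) : PP x * PP (-x) = 1 := by
  have h : C x * X * (C x * X) = 0 := by
    rw [mul_assoc, ← mul_assoc X, X_mul, ← mul_assoc, ← mul_assoc, ← C_mul, hx, C_0, zero_mul, zero_mul]
  simp only [PP, C_neg, neg_mul, mul_add, add_mul, one_mul, mul_one, mul_neg, h]
  abel

theorem PP_neg_mul {x : R} (hx : x * x = 0) : PP (-x) * PP x = 1 := by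
  have := PP_mul_neg (x := -x) (by rw [neg_mul_neg, hx])
  rwa [neg_neg] at this

theorem natDegree_PP (x : R) : (PP x).natDegree ≤ 1 := by
  refine natDegree_add_le_of_degree_le (by simp) ?_
  exact (natDegree_C_mul_le _ _).trans natDegree_X_le

/-- conjugation by `1 + x t` -/
noncomputable def cj (F : Type*) [Field F] [Algebra F R] (x : R) : R[X] →ₗ[F] R[X] where
  toFun f := PP x * f * PP (-x)
  map_add' f g := by rw [mul_add, add_mul]
  map_smul' c f := by simp only [RingHom.id_apply, mul_smul_comm, smul_mul_assoc]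

theorem cj_apply (x : R) (f : R[X]) : cj F x f = PP x * f * PP (-x) := rfl

theorem cj_mul_X_pow (x : R) (f : R[X]) (k : ℕ) : cj F x (f * X ^ k) = cj F x f * X ^ k := by
  simp only [cj_apply, mul_assoc]
  rw [X_pow_mul]

theorem cj_injective {x : R} (hx : x * x = 0) : Function.Injective (cj F x) := by
  intro f g h
  have e : ∀ f : R[X], f = PP (-x) * cj F x f * PP x := fun f => by
    rw [cj_apply, ← mul_assoc, ← mul_assoc, PP_neg_mul hx, one_mul, mul_assoc, PP_neg_mul hx, mul_one]
  rw [e f, e g, h]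

/-- leading coefficients in degree `d` -/
def limd (x : R) (A : Submodule F R) (d : ℕ) : Submodule F R where
  carrier := {c | ∃ f ∈ polys A, (cj F x f).natDegree ≤ d ∧ (cj F x f).coeff d = c}
  add_mem' := by
    rintro _ _ ⟨f, hf, df, rfl⟩ ⟨g, hg, dg, rfl⟩
    refine ⟨f + g, add_mem hf hg, ?_, ?_⟩
    · rw [map_add]; exact natDegree_add_le_of_degree_le df dg
    · rw [map_add, coeff_add]
  zero_mem' := ⟨0, zero_mem _, by simp, by simp⟩
  smul_mem' := by
    rintro c _ ⟨f, hf, df, rfl⟩
    refine ⟨c • f, Submodule.smul_mem _ c hf, ?_, ?_⟩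
    · rw [map_smul]; exact (natDegree_smul_le _ _).trans df
    · rw [map_smul, coeff_smul]

theorem limd_mono (x : R) (A : Submodule F R) : Monotone (limd x A) := by
  refine monotone_nat_of_le_succ fun d => ?_
  rintro _ ⟨f, hf, df, rfl⟩
  have e := cj_mul_X_pow (F := F) x f 1
  rw [pow_one] at e
  refine ⟨f * X, polys_mul_X hf, ?_, ?_⟩
  · rw [e]; exact natDegree_mul_le.trans (Nat.add_le_add df natDegree_X_le)
  · rw [e, coeff_mul_X]

/-- the limit subspace -/
def lim (x : R) (A : Submodule F R) : Submodule F R := ⨆ d, limd x A d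

theorem mem_lim {x : R} {A : Submodule F R} {c : R} :
    c ∈ lim x A ↔ ∃ d, ∃ f ∈ polys A, (cj F x f).natDegree ≤ d ∧ (cj F x f).coeff d = c :=
  Submodule.mem_iSup_of_directed _ (limd_mono x A).directed_le

theorem lim_mul {x : R} (hx : x * x = 0) {A B : Submodule F R}
    (h : ∀ a ∈ A, ∀ b ∈ B, a * b = 0) : ∀ a ∈ lim x A, ∀ b ∈ lim x B, a * b = 0 := by
  intro a ha b hb
  obtain ⟨d, f, hf, df, rfl⟩ := mem_lim.1 ha
  obtain ⟨e, g, hg, dg, rfl⟩ := mem_lim.1 hb
  rw [← coeff_mul_add_eq_of_natDegree_le df dg]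
  have : cj F x f * cj F x g = PP x * (f * (PP (-x) * PP x) * g) * PP (-x) := by
    simp only [cj_apply, mul_assoc]
  rw [this, PP_neg_mul hx, mul_one, polys_mul_zero h hf hg, mul_zero, zero_mul, coeff_zero]

theorem cj_C (x a : R) :
    cj F x (C a) = C a + C (x * a - a * x) * X ^ 1 - C (x * a * x) * X ^ 2 := by
  have h1 : C x * X * C a = C (x * a) * X := by rw [mul_assoc, X_mul, ← mul_assoc, C_mul]
  have h2 : C (x * a) * X * (C x * X) = C (x * a * x) * X ^ 2 := by
    rw [mul_assoc, ← mul_assoc X, X_mul, ← mul_assoc, ← mul_assoc, ← C_mul, mul_assoc, sq]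
  have h3 : C a * (C x * X) = C (a * x) * X := by rw [← mul_assoc, C_mul]
  simp only [cj_apply, PP, C_neg, neg_mul, mul_add, add_mul, one_mul, mul_one, mul_neg, h1, h2, h3,
    C_sub, sub_mul, pow_one]
  abel

theorem C_mem_polys {A : Submodule F R} {a : R} (ha : a ∈ A) : C a ∈ polys A := by
  intro n
  rw [coeff_C]
  split_ifs
  · exact ha
  · exact A.zero_mem

theorem lim_le {x : R} {A L : Submodule F R} (h0 : A ≤ L) (h1 : ∀ a ∈ A, x * a - a * x ∈ L)
    (h2 : ∀ a ∈ A, x * a * x ∈ L) : lim x A ≤ L := by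
  intro c hc
  obtain ⟨d, f, hf, -, rfl⟩ := mem_lim.1 hc
  have := polys_ind (B := L) (cj F x).toAddMonoidHom (cj_mul_X_pow (F := F) x) (fun a ha => by
    show cj F x (C a) ∈ _
    rw [cj_C]
    exact sub_mem (add_mem (C_mem_polys (h0 ha)) (polys_mul_X_pow (C_mem_polys (h1 a ha)) _))
      (polys_mul_X_pow (C_mem_polys (h2 a ha)) _)) hf
  exact this d

theorem lim_ad {x : R} (hx : x * x = 0) {A : Submodule F R} {c : R} (hc : c ∈ lim x A) :
    x * c - c * x ∈ lim x A := by
  obtain ⟨d, f, hf, df, rfl⟩ := mem_lim.1 hc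
  have h1 : C x * PP x = C x := by
    rw [PP, mul_add, mul_one, ← mul_assoc, ← C_mul, hx, C_0, zero_mul, add_zero]
  have h2 : PP (-x) * C x = C x := by
    rw [PP, add_mul, one_mul, mul_assoc, X_mul, ← mul_assoc, ← C_mul, neg_mul, hx, neg_zero, C_0,
      zero_mul, add_zero]
  have d1 : ∀ y : R, derivative (PP y) = C y := fun y => by simp [PP]
  have e : cj F x (-derivative f) =
      C x * cj F x f - cj F x f * C x - derivative (cj F x f) := by
    simp only [cj_apply, derivative_mul, d1, C_neg]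
    rw [← mul_assoc, ← mul_assoc, h1, mul_assoc (PP x * f), h2]
    simp only [mul_neg, neg_mul, add_mul]
    abel
  refine mem_lim.2 ⟨d, -derivative f, neg_mem (polys_derivative hf), ?_, ?_⟩
  · rw [e]
    refine (natDegree_sub_le _ _).trans (max_le ((natDegree_sub_le _ _).trans (max_le ?_ ?_)) ?_)
    · exact (natDegree_C_mul_le _ _).trans df
    · exact (natDegree_mul_C_le _ _).trans df
    · exact (natDegree_derivative_le _).trans ((Nat.sub_le _ _).trans df)
  · rw [e, coeff_sub, coeff_sub, coeff_C_mul, coeff_mul_C, coeff_derivative,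
      coeff_eq_zero_of_natDegree_lt (Nat.lt_succ_of_le df), zero_mul, sub_zero]

theorem lim_cj_self (h2 : (2 : F) ≠ 0) {x : R} (hx : x * x = 0) {A : Submodule F R} {c : R}
    (hc : c ∈ lim x A) : (1 + x) * c * (1 - x) ∈ lim x A := by
  have h1 := lim_ad hx hc
  have h3 := lim_ad hx h1
  have e : (1 + x) * c * (1 - x) =
      c + (x * c - c * x) + (2 : F)⁻¹ • (x * (x * c - c * x) - (x * c - c * x) * x) := by
    have : x * (x * c - c * x) - (x * c - c * x) * x = (2 : F) • (-(x * c * x)) := by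
      rw [two_smul, mul_sub, sub_mul, ← mul_assoc x x, hx, zero_mul, mul_assoc c, hx, mul_zero,
        mul_assoc]
      abel
    rw [this, smul_smul, inv_mul_cancel₀ h2, one_smul]
    noncomm_ring
  rw [e]
  exact add_mem (add_mem hc h1) (Submodule.smul_mem _ _ h3)

theorem interp (h2 : (2 : F) ≠ 0) (h3 : (3 : F) ≠ 0) {A : Submodule F R} {c0 c1 c2 c3 c4 : R}
    (h : ∀ t : ℤ, c0 + t • c1 + t ^ 2 • c2 + t ^ 3 • c3 + t ^ 4 • c4 ∈ A) :
    c0 ∈ A ∧ c1 ∈ A ∧ c2 ∈ A ∧ c3 ∈ A ∧ c4 ∈ A := by
  have canc : ∀ (n : ℕ) (y : R), (n : F) ≠ 0 → (n : ℤ) • y ∈ A → y ∈ A := fun n y hn hy => by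
    have : y = (n : F)⁻¹ • ((n : ℤ) • y) := by
      rw [natCast_zsmul, ← Nat.cast_smul_eq_nsmul F, smul_smul, inv_mul_cancel₀ hn, one_smul]
    rw [this]; exact A.smul_mem _ hy
  have h12 : ((12 : ℕ) : F) ≠ 0 := by
    have : ((12 : ℕ) : F) = 2 * 2 * 3 := by norm_num
    rw [this]; exact mul_ne_zero (mul_ne_zero h2 h2) h3
  have h24 : ((24 : ℕ) : F) ≠ 0 := by
    have : ((24 : ℕ) : F) = 2 * 2 * 2 * 3 := by norm_num
    rw [this]; exact mul_ne_zero (mul_ne_zero (mul_ne_zero h2 h2) h2) h3
  have comb : ∀ a b c d e : ℤ, _ := fun a b c d e =>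
    add_mem (add_mem (add_mem (add_mem (zsmul_mem (h 0) a) (zsmul_mem (h 1) b))
      (zsmul_mem (h (-1)) c)) (zsmul_mem (h 2) d)) (zsmul_mem (h (-2)) e)
  refine ⟨?_, canc 12 _ h12 ?_, canc 24 _ h24 ?_, canc 12 _ h12 ?_, canc 24 _ h24 ?_⟩
  · simpa using h 0
  · convert comb 0 8 (-8) (-1) 1 using 1
    module
  · convert comb (-30) 16 16 (-1) (-1) using 1
    module
  · convert comb 0 (-2) 2 1 (-1) using 1
    module
  · convert comb 6 (-4) (-4) 1 1 using 1
    module

theorem conj_C (x a : R) :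
    PP (-x) * C a * PP x = C a + C (a * x - x * a) * X ^ 1 + C (-(x * a * x)) * X ^ 2 := by
  have h1 : C x * X * C a = C (x * a) * X := by rw [mul_assoc, X_mul, ← mul_assoc, C_mul]
  have h2 : C (x * a) * X * (C x * X) = C (x * a * x) * X ^ 2 := by
    rw [mul_assoc, ← mul_assoc X, X_mul, ← mul_assoc, ← mul_assoc, ← C_mul, mul_assoc, sq]
  have h3 : C a * (C x * X) = C (a * x) * X := by rw [← mul_assoc, C_mul]
  simp only [PP, C_neg, neg_mul, mul_add, add_mul, one_mul, mul_one, mul_neg, h1, h2, h3,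
    C_sub, sub_mul, pow_one]
  abel

theorem CX_mul (a b c : R) (i j : ℕ) :
    C a * X ^ i * C b * (C c * X ^ j) = C (a * b * c) * X ^ (i + j) := by
  rw [mul_assoc (C a), X_pow_mul, ← mul_assoc, ← mul_assoc, mul_assoc (C a * C b), X_pow_mul,
    ← mul_assoc, mul_assoc, ← pow_add, C_mul, C_mul]

theorem lim_conj (h2 : (2 : F) ≠ 0) (h3 : (3 : F) ≠ 0) {x : R} (hx : x * x = 0)
    {A : Submodule F R} {g g' : R}
    (h : ∀ t : ℤ, ∀ a ∈ A, (1 - t • x) * g * (1 + t • x) * a * ((1 - t • x) * g' * (1 + t • x)) ∈ A)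
    {c : R} (hc : c ∈ lim x A) : g * c * g' ∈ lim x A := by
  obtain ⟨d, f, hf, df, rfl⟩ := mem_lim.1 hc
  let Y : R[X] := PP (-x) * C g * PP x
  let Y' : R[X] := PP (-x) * C g' * PP x
  let φ : R[X] →+ R[X] := (AddMonoidHom.mulRight Y').comp (AddMonoidHom.mulLeft Y)
  have hφ : ∀ f, φ f = Y * f * Y' := fun f => rfl
  have hY : φ f ∈ polys A := by
    refine polys_ind φ (fun f k => ?_) (fun a ha => ?_) hf
    · simp only [hφ, mul_assoc]
      rw [X_pow_mul]
    · obtain ⟨g1, hg1⟩ : ∃ y, y = g * x - x * g := ⟨_, rfl⟩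
      obtain ⟨g2, hg2⟩ : ∃ y, y = -(x * g * x) := ⟨_, rfl⟩
      obtain ⟨k1, hk1⟩ : ∃ y, y = g' * x - x * g' := ⟨_, rfl⟩
      obtain ⟨k2, hk2⟩ : ∃ y, y = -(x * g' * x) := ⟨_, rfl⟩
      have ex : ∀ (t : ℤ) (y : R), (1 - t • x) * y * (1 + t • x) =
          y + t • (y * x - x * y) + t ^ 2 • (-(x * y * x)) := fun t y => by
        simp only [mul_add, sub_mul, mul_sub, one_mul, mul_one, smul_mul_assoc, mul_smul_comm]
        module
      obtain ⟨m0, m1, m2, m3, m4⟩ := interp h2 h3 (A := A) (c0 := g * a * g')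
        (c1 := g * a * k1 + g1 * a * g') (c2 := g * a * k2 + g1 * a * k1 + g2 * a * g')
        (c3 := g1 * a * k2 + g2 * a * k1) (c4 := g2 * a * k2) (fun t => by
          have := h t a ha
          rw [ex, ex, ← hg1, ← hg2, ← hk1, ← hk2] at this
          convert this using 1
          simp only [mul_add, add_mul, smul_mul_assoc, mul_smul_comm]
          module)
      have e : φ (C a) = C (g * a * g') * X ^ 0 + C (g * a * k1 + g1 * a * g') * X ^ 1 +
          C (g * a * k2 + g1 * a * k1 + g2 * a * g') * X ^ 2 +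
          C (g1 * a * k2 + g2 * a * k1) * X ^ 3 + C (g2 * a * k2) * X ^ 4 := by
        have e1 : Y = C g * X ^ 0 + C g1 * X ^ 1 + C g2 * X ^ 2 := by
          rw [hg1, hg2, pow_zero, mul_one]; exact conj_C x g
        have e2 : Y' = C g' * X ^ 0 + C k1 * X ^ 1 + C k2 * X ^ 2 := by
          rw [hk1, hk2, pow_zero, mul_one]; exact conj_C x g'
        rw [hφ, e1, e2]
        simp only [add_mul, mul_add, CX_mul, C_add]
        abel
      rw [e]
      exact add_mem (add_mem (add_mem (add_mem (polys_mul_X_pow (C_mem_polys m0) _)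
        (polys_mul_X_pow (C_mem_polys m1) _)) (polys_mul_X_pow (C_mem_polys m2) _))
        (polys_mul_X_pow (C_mem_polys m3) _)) (polys_mul_X_pow (C_mem_polys m4) _)
  have e : cj F x (φ f) = C g * cj F x f * C g' := by
    have : cj F x (φ f) = (PP x * PP (-x)) * C g * (PP x * f * PP (-x)) * C g' *
        (PP x * PP (-x)) := by
      simp only [cj_apply, hφ, Y, Y', mul_assoc]
    rw [this, PP_mul_neg hx, one_mul, mul_one, cj_apply]
  refine mem_lim.2 ⟨d, φ f, hY, ?_, ?_⟩
  · rw [e]
    exact (natDegree_mul_C_le _ _).trans ((natDegree_C_mul_le _ _).trans df)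
  · rw [e, coeff_mul_C, coeff_C_mul]

/-- polynomials of degree `< n` -/
noncomputable def dlt (F : Type*) [Field F] [Algebra F R] (n : ℕ) : Submodule F R[X] :=
  (degreeLT R n).restrictScalars F

theorem mem_dlt {n : ℕ} {f : R[X]} : f ∈ dlt F n ↔ f.degree < n := mem_degreeLT

theorem mem_dlt' {n : ℕ} {f : R[X]} : f ∈ dlt F (n + 1) ↔ f.natDegree ≤ n := by
  rw [mem_dlt, degree_lt_iff_coeff_zero, natDegree_le_iff_coeff_eq_zero]
  rfl

instance dlt_fin [Module.Finite F R] (n : ℕ) : Module.Finite F (dlt (R := R) F n) := by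
  have e : dlt (R := R) F n ≃ₗ[F] (Fin n → R) := ((degreeLTEquiv R n).restrictScalars F)
  exact Module.Finite.equiv e.symm

theorem finrank_inf_dlt [Module.Finite F R] (W : Submodule F R[X]) (L : Submodule F R)
    (h : ∀ m ∈ W, ∀ d, m.natDegree ≤ d → m.coeff d ∈ L) (n : ℕ) :
    Module.finrank F ↥(W ⊓ dlt F n) ≤ n * Module.finrank F L := by
  induction n with
  | zero =>
    have : W ⊓ dlt F 0 = ⊥ := by
      rw [eq_bot_iff]
      rintro m ⟨-, hm⟩
      have := mem_dlt.1 hm
      rw [Nat.cast_zero, Nat.WithBot.lt_zero_iff, degree_eq_bot] at this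
      exact this
    rw [this]; simp
  | succ n ih =>
    haveI : ∀ k, Module.Finite F ↥(W ⊓ dlt F k) := fun k =>
      Module.Finite.of_injective (Submodule.inclusion (inf_le_right : W ⊓ dlt F k ≤ _))
        (Submodule.inclusion_injective _)
    let φ : ↥(W ⊓ dlt F (n + 1)) →ₗ[F] R :=
      ((lcoeff R n).restrictScalars F).comp (W ⊓ dlt F (n + 1)).subtype
    have hφ : ∀ m, φ m = (m : R[X]).coeff n := fun m => rfl
    have hdeg : ∀ m : ↥(W ⊓ dlt F (n + 1)), (m : R[X]).natDegree ≤ n := fun m =>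
      mem_dlt'.1 m.2.2
    have h1 : Module.finrank F (LinearMap.range φ) ≤ Module.finrank F L := by
      refine Submodule.finrank_mono ?_
      rintro _ ⟨m, rfl⟩
      exact h _ m.2.1 _ (hdeg m)
    have h2 : Module.finrank F (LinearMap.ker φ) ≤ Module.finrank F ↥(W ⊓ dlt F n) := by
      rw [← Submodule.finrank_map_subtype_eq]
      refine Submodule.finrank_mono ?_
      rintro _ ⟨m, hm, rfl⟩
      refine ⟨m.2.1, mem_dlt.2 ?_⟩
      rw [degree_lt_iff_coeff_zero]
      intro k hk
      rcases eq_or_lt_of_le hk with rfl | hk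
      · exact hm
      · exact coeff_eq_zero_of_natDegree_lt ((hdeg m).trans_lt hk)
    have := LinearMap.finrank_range_add_finrank_ker φ
    rw [Nat.succ_mul]
    omega

theorem finrank_le_lim [Module.Finite F R] {x : R} (hx : x * x = 0) (A : Submodule F R) :
    Module.finrank F A ≤ Module.finrank F (lim x A) := by
  have key : ∀ d : ℕ, d * Module.finrank F A ≤ (d + 2 + 1) * Module.finrank F (lim x A) := by
    intro d
    refine le_trans ?_ (finrank_inf_dlt ((polys A).map (cj F x)) (lim x A) ?_ (d + 2 + 1))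
    · haveI : Module.Finite F ↥((polys A).map (cj F x) ⊓ dlt F (d + 2 + 1)) :=
        Module.Finite.of_injective (Submodule.inclusion inf_le_right)
          (Submodule.inclusion_injective _)
      let s : (Fin d → A) →ₗ[F] R[X] :=
        ∑ i : Fin d, ((monomial (i : ℕ) : R →ₗ[R] R[X]).restrictScalars F).comp
          (A.subtype.comp (LinearMap.proj i))
      have hs : ∀ a, s a = ∑ i : Fin d, monomial (i : ℕ) (a i : R) := fun a => by
        simp [s]
      have hsc : ∀ a (i : Fin d), (s a).coeff i = a i := fun a i => by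
        rw [hs, finset_sum_coeff, Finset.sum_eq_single i]
        · simp
        · intro j _ hj
          rw [coeff_monomial, if_neg fun e => hj (Fin.ext e)]
        · simp
      have hsd : ∀ a, (s a).natDegree ≤ d := fun a => by
        rw [hs]
        exact natDegree_sum_le_of_forall_le _ _ fun i _ => (natDegree_monomial_le _).trans i.2.le
      have hmem : ∀ a, cj F x (s a) ∈ (polys A).map (cj F x) ⊓ dlt F (d + 2 + 1) := fun a => by
        refine ⟨⟨s a, ?_, rfl⟩, mem_dlt'.2 ?_⟩
        · rw [hs]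
          refine Submodule.sum_mem _ fun i _ => ?_
          rw [← C_mul_X_pow_eq_monomial]
          exact polys_mul_X_pow (C_mem_polys (a i).2) _
        · rw [cj_apply]
          have h1 := natDegree_PP x
          have h2 := natDegree_PP (-x)
          have h3 := hsd a
          have h4 := natDegree_mul_le (p := PP x * s a) (q := PP (-x))
          have h5 := natDegree_mul_le (p := PP x) (q := s a)
          omega
      let ψ : (Fin d → A) →ₗ[F] ↥((polys A).map (cj F x) ⊓ dlt F (d + 2 + 1)) :=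
        ((cj F x).comp s).codRestrict _ hmem
      have hψ : Function.Injective ψ := by
        intro a b hab
        have : s a = s b := cj_injective (F := F) hx (congrArg Subtype.val hab)
        funext i
        exact Subtype.ext (by rw [← hsc, ← hsc, this])
      have := LinearMap.finrank_le_finrank_of_injective hψ
      rwa [Module.finrank_pi_fintype, Finset.sum_const, Finset.card_univ, Fintype.card_fin,
        smul_eq_mul] at this
    · rintro _ ⟨f, hf, rfl⟩ e he
      exact mem_lim.2 ⟨e, f, hf, he, rfl⟩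
  by_contra hlt
  push Not at hlt
  have := key (3 * Module.finrank F (lim x A) + 1)
  nlinarith

end CA.FusGlb
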