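import Cfsg.Agent.Lib.Loc.H8Wie

/-!
Point stabilizers of primitive groups with an alternating or symmetric subconstituent (Knapp), part 1.
-/

set_option autoImplicit false

namespace CA.FusKn

open Subgroup Cfsg CA.Amb CA.AmbSyl CA.AmbCore CA.AmbRes CA.AmbChar CA.AmbWC CA.AmbFs CA.H8TW CA.H8Wie MulAction Equiv
open scoped commutatorElement

section perm
variable {β : Type*} [Fintype β] [DecidableEq β]

theorem not_le_cent (h : 5 ≤ Nat.card β) : ¬ alternatingGroup β ≤ 𝐂 (alternatingGroup β) := fun k => by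
  have c := alternatingGroup.center_eq_bot (α := β) (by omega)
  have := alternatingGroup.isSimpleGroup h
  have : center (alternatingGroup β) = ⊤ :=
    eq_top_iff.2 fun x _ => mem_center_iff.2 fun y => Subtype.ext (k x.2 y y.2)
  rw [c] at this
  exact bot_ne_top this

theorem alt_ne_bot (h : 5 ≤ Nat.card β) : alternatingGroup β ≠ ⊥ := fun k => not_le_cent h (k.le.trans bot_le)

theorem cent_alt (h : 5 ≤ Nat.card β) : 𝐂 (alternatingGroup β) = ⊥ := by
  by_contra k
  exact not_le_cent h (Perm.alternatingGroup_le_of_normal h ((nontrivial_iff_ne_bot _).2 k))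

theorem alt_le (h : 5 ≤ Nat.card β) {N : Subgroup (Perm β)} (h1 : alternatingGroup β ≤ 𝐍 N) (h0 : N ≠ ⊥) :
    alternatingGroup β ≤ N := by
  have := alternatingGroup.isSimpleGroup h
  rcases (normal_subgroupOf_of_norm h1).eq_bot_or_eq_top with e | e
  · refine (h0 (le_bot_iff.1 (cent_alt h ▸ ?_))).elim
    refine commutator_eq_bot_iff'.1 (eq_bot_iff.2 ?_)
    rw [subgroupOf_eq_bot, disjoint_iff] at e
    rw [← e]
    exact le_inf (commutator_le_right_of_norm h1) (commutator_le_left_of_norm norm_of_normal)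
  · exact subgroupOf_eq_top.1 e

theorem not_pgroup (h : 5 ≤ Nat.card β) {r : ℕ} (hr : r.Prime) : ¬ IsPGroup r (alternatingGroup β) := fun k => by
  have := Fact.mk hr
  have := alternatingGroup.isSimpleGroup h
  have c := k.center_nontrivial
  rw [alternatingGroup.center_eq_bot (α := β) (by omega)] at c
  exact not_nontrivial _ c

theorem fact_lt {d : ℕ} (h : Nat.card β = d) (h3 : 3 ≤ d) : (d - 1).factorial < Nat.card (alternatingGroup β) := by
  have : Nontrivial β := Finite.one_lt_card_iff_nontrivial.1 (by omega)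
  have a := two_mul_nat_card_alternatingGroup (α := β)
  rw [Nat.card_perm, h, ← Nat.mul_factorial_pred (show d ≠ 0 by omega)] at a
  have := Nat.factorial_pos (d - 1)
  nlinarith

theorem exists_ext {γ : Type*} {i : β} (f : γ ≃ {x // x ≠ i}) {σ : Perm β} (h : σ i = i) :
    ∃ τ : Perm γ, τ.extendDomain f = σ := by
  have k : ∀ x, σ x ≠ i ↔ x ≠ i := fun x => not_congr ⟨fun e => σ.injective (e.trans h.symm), fun e => e ▸ h⟩
  refine ⟨f.symm.permCongr (σ.subtypePerm k), Equiv.ext fun x => ?_⟩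
  by_cases e : x = i
  · rw [Perm.extendDomain_apply_not_subtype (p := fun x => x ≠ i) _ _ (not_not.2 e), e, h]
  · rw [Perm.extendDomain_apply_subtype (p := fun x => x ≠ i) _ _ e]
    simp

end perm

variable {G : Type*} [Group G] {β : Type*} [Fintype β] [DecidableEq β]

/-- the image of `A ⊓ M` -/
abbrev im {M : Subgroup G} {P : Type*} [Group P] (φ : M →* P) (A : Subgroup G) : Subgroup P := (A.subgroupOf M).map φ

/-- the kernel, as a subgroup of `G` -/
def kr {M : Subgroup G} {P : Type*} [Group P] (φ : M →* P) : Subgroup G := φ.ker.map M.subtype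

section
variable {M : Subgroup G} {P : Type*} [Group P] {φ : M →* P}

theorem kr_le : kr φ ≤ M := map_subtype_le _
theorem norm_kr : M ≤ 𝐍 (kr φ) := norm_map_subtype _
theorem kr_sub : (kr φ).subgroupOf M = φ.ker := comap_map_eq_self_of_injective M.subtype_injective _
theorem mem_kr {x : M} : (x : G) ∈ kr φ ↔ φ x = 1 := by rw [← mem_subgroupOf, kr_sub, MonoidHom.mem_ker]

theorem im_eq_bot {A : Subgroup G} (h : A ≤ M) : im φ A = ⊥ ↔ A ≤ kr φ := by
  rw [Subgroup.map_eq_bot_iff]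
  exact ⟨fun k x hx => (mem_kr (x := ⟨x, h hx⟩)).2 (k hx), fun k x hx => mem_kr.1 (k hx)⟩

theorem im_top : im φ M = φ.range := by rw [im, subgroupOf_self, MonoidHom.range_eq_map]

theorem rel_kr {A : Subgroup G} (h : A ≤ M) : (kr φ).relIndex A = Nat.card (im φ A) := by
  rw [← relIndex_subgroupOf h, kr_sub, relIndex_ker]

theorem rel_kr' : (kr φ).relIndex M = Nat.card φ.range := by rw [rel_kr le_rfl, im_top]

theorem im_mono {A B : Subgroup G} (h : A ≤ B) : im φ A ≤ im φ B := map_mono (subgroupOf_mono M h)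

theorem mem_im {A : Subgroup G} {y : P} : y ∈ im φ A ↔ ∃ x : M, (x : G) ∈ A ∧ φ x = y := Iff.rfl

end

variable {M : Subgroup G} {φ : M →* Perm β}

theorem dich (h : 5 ≤ Nat.card β) {A B : Subgroup G} (hA : A ≤ M) (hB : B ≤ 𝐍 A) (hb : alternatingGroup β ≤ im φ B) :
    A ≤ kr φ ∨ alternatingGroup β ≤ im φ A := by
  by_cases k : im φ A = ⊥
  · exact .inl ((im_eq_bot hA).1 k)
  · exact .inr (alt_le h (hb.trans (norm_map φ (norm_comap M.subtype hB))) k)

theorem dich' (h : 5 ≤ Nat.card β) {A : Subgroup G} (hA : A ≤ M) (hB : M ≤ 𝐍 A) (hb : alternatingGroup β ≤ φ.range) :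
    A ≤ kr φ ∨ alternatingGroup β ≤ im φ A := dich h hA hB (im_top (φ := φ) ▸ hb)

/-- no proper normal subgroup of index below `n` -/
def PP (n : ℕ) (H : Subgroup G) : Prop := ∀ L : Subgroup G, H ≤ 𝐍 L → L.relIndex H < n → H ≤ L

theorem PP.cj {n : ℕ} {H : Subgroup G} (h : PP n H) (g : G) : PP n (cj g H) := fun L h1 h2 => by
  refine cj_le_iff.2 (h _ ?_ ?_)
  · rw [← cj_normalizer]; exact cj_le_iff.1 h1
  · rwa [← relIndex_cj g, cj_cj_inv]

variable [Finite G]

theorem exists_PP (h : 5 ≤ Nat.card β) {A : Subgroup G} (hA : A ≤ M) (ha : alternatingGroup β ≤ im φ A) :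
    ∃ H ≤ A, H ≠ ⊥ ∧ PP (Nat.card (alternatingGroup β)) H := by
  obtain ⟨H, ⟨a, b⟩, m⟩ := WellFounded.has_min (wellFounded_lt (α := Subgroup G))
    {H | H ≤ A ∧ alternatingGroup β ≤ im φ H} ⟨A, le_rfl, ha⟩
  refine ⟨H, a, fun e => alt_ne_bot h (le_bot_iff.1 (b.trans ((im_eq_bot (a.trans hA)).2 (e.le.trans bot_le)).le)),
    fun L h1 h2 => ?_⟩
  rcases dich h (inf_le_right.trans (a.trans hA)) (norm_inf h1 le_normalizer) b with e | e
  · have := relIndex_le_of_le_left (L := H) e (relIndex_ne_zero _ _)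
    rw [inf_relIndex_right, rel_kr (a.trans hA)] at this
    exact absurd (card_le_of_le b) (by omega)
  · by_contra k
    exact m _ ⟨inf_le_right.trans a, e⟩ (lt_of_le_of_ne inf_le_right fun c => k (c.ge.trans inf_le_left))

theorem PP.le_cor {M D H : Subgroup G} {d n : ℕ} (h : PP n H) (hD : D ≤ M) (e : D.relIndex M = d)
    (hn : (d - 1).factorial < n) (hH : H ≤ D) : H ≤ cor M D :=
  h _ ((hH.trans hD).trans (norm_cor M D)) (((relIndex_le_of_le_right hH (relIndex_ne_zero _ _)).trans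
    (Nat.le_of_dvd (Nat.factorial_pos _) (e ▸ cor_rel hD))).trans_lt hn)

theorem bot_of_norm {M M' X : Subgroup G} {d : ℕ} (W : WD M M' d) (h : X ≤ M) (h1 : M ≤ 𝐍 X) (h2 : M' ≤ 𝐍 X) :
    X = ⊥ := by_contra fun k => W.n2 (h2.trans (W.p1 X k h h1))

theorem PP.eq_bot {M M' H : Subgroup G} {d n : ℕ} (W : WD M M' d) (hn : (d - 1).factorial < n) (h : PP n H)
    (hH : H ≤ M ⊓ M') : H = ⊥ := by
  let Y : Subgroup G := ⨆ K : {K : Subgroup G // K ≤ M ⊓ M' ∧ PP n K}, K.1
  have k : ∀ L, M ⊓ M' ≤ L → (M ⊓ M').relIndex L = d → L ≤ 𝐍 Y := fun L h1 h2 =>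
    le_normalizer_iff_cj.2 fun g hg => by
      rw [cj_iSup]
      exact iSup_le fun K => le_iSup_of_le (f := fun K : {K : Subgroup G // K ≤ M ⊓ M' ∧ PP n K} => K.1)
        ⟨_, (cj_le_of_le (K.2.2.le_cor h1 h2 hn K.2.1) (norm_cor _ _ hg)).trans (cor_le _ _), K.2.2.cj g⟩ le_rfl
  have := bot_of_norm W (X := Y) (iSup_le fun K => K.2.1.trans inf_le_left) (k M inf_le_left W.e1)
    (k M' inf_le_right W.e2)
  exact le_bot_iff.1 (this ▸ le_iSup (fun K : {K : Subgroup G // K ≤ M ⊓ M' ∧ PP n K} => K.1) ⟨H, hH, h⟩)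

theorem sw {M' K' : Subgroup G} {d : ℕ} (W : WD M M' d) {g : G} (hg : M' = cj g M) (hd : Nat.card β = d) (h5 : 5 ≤ d)
    (ha : alternatingGroup β ≤ φ.range) (h1 : K' ≤ M ⊓ M') (h2 : M' ≤ 𝐍 K') : K' ≤ cj g (kr φ) := by
  have l : cj g⁻¹ K' ≤ M := le_cj_iff.1 (hg ▸ h1.trans inf_le_right)
  rcases dich' (hd ▸ h5) l (by rw [← cj_normalizer]; exact cj_le_iff.1 (hg ▸ h2)) ha with e | e
  · exact le_cj_iff.2 e
  · obtain ⟨H, a, b, c⟩ := exists_PP (hd ▸ h5) l e
    exact (b (cj_eq_bot.1 ((c.cj g).eq_bot W (fact_lt hd (by omega)) ((cj_le_iff.2 a).trans h1)))).elim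

theorem alt_paired {M' : Subgroup G} {d : ℕ} (W : WD M M' d) (hd : Nat.card β = d) (h5 : 5 ≤ d)
    (ha : alternatingGroup β ≤ φ.range) {φ' : M' →* Perm β} (h1 : kr φ' ≤ M ⊓ M') :
    alternatingGroup β ≤ φ'.range := by
  obtain ⟨g, hg⟩ := W.cg
  have a := relIndex_le_of_le_left (L := M') (sw W hg hd h5 ha h1 norm_kr) (relIndex_ne_zero _ _)
  rw [rel_kr'] at a
  have b : (cj g (kr φ)).relIndex M' = Nat.card φ.range := by rw [hg, relIndex_cj, rel_kr']
  have c := card_le_of_le ha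
  have : Nontrivial β := Finite.one_lt_card_iff_nontrivial.1 (by omega)
  have e := two_mul_nat_card_alternatingGroup (α := β)
  have f := φ'.range.index_mul_card
  refine Perm.alternatingGroup_le_of_index_le_two (Nat.le_of_mul_le_mul_right ?_ (Nat.card_pos (α := φ'.range)))
  omega

end CA.FusKn
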