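import Cfsg.Agent.Lib.Fus.FusKn

/-!
Point stabilizers of primitive groups with an alternating or symmetric subconstituent (Knapp), part 2.
-/

set_option autoImplicit false

namespace CA.FusKn

open Subgroup Cfsg CA.Amb CA.AmbSyl CA.AmbCore CA.AmbRes CA.AmbChar CA.AmbWC CA.AmbFs CA.H8TW CA.H8Wie MulAction Equiv
open scoped commutatorElement

variable {G : Type*} [Group G] {β γ : Type*} [Fintype β] [DecidableEq β] [Fintype γ] [DecidableEq γ]

/-- the action of `M` on a suborbit together with the action of the point stabilizer `D` on the other points -/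
structure PD (M D : Subgroup G) (φ : M →* Perm β) (θ : D →* Perm γ) : Prop where
  le : D ≤ M
  a1 : alternatingGroup β ≤ φ.range
  a2 : alternatingGroup γ ≤ θ.range
  k : kr θ = kr φ
  sg : ∀ x : D, Perm.sign (θ x) = Perm.sign (φ (inclusion le x))
  tr : ∀ C, alternatingGroup β ≤ im φ C → ∀ m ∈ M, ∃ c ∈ C, c⁻¹ * m ∈ D

theorem exists_PD {M D : Subgroup G} {φ : M →* Perm β} (h3 : 3 ≤ Nat.card β) (hD : D ≤ M) {i : β}
    (f : γ ≃ {x // x ≠ i}) (st : ∀ m : M, φ m i = i ↔ (m : G) ∈ D) (ha : alternatingGroup β ≤ φ.range) :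
    ∃ θ : D →* Perm γ, PD M D φ θ := by
  choose t ht using fun x : D => exists_ext f ((st (inclusion hD x)).2 x.2)
  have inj := Perm.extendDomainHom_injective f
  let θ : D →* Perm γ := MonoidHom.mk' t fun x y => inj (by
    rw [map_mul]; simp only [Perm.extendDomainHom_apply, ht, map_mul])
  have hθ : ∀ x, (θ x).extendDomain f = φ (inclusion hD x) := ht
  refine ⟨θ, hD, ha, fun τ hτ => ?_, le_antisymm (fun x hx => ?_) fun x hx => ?_, fun x => ?_, fun C hC m hm => ?_⟩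
  · obtain ⟨m, hm⟩ := ha (show τ.extendDomain f ∈ _ by
      rw [Perm.mem_alternatingGroup, Perm.sign_extendDomain]; exact hτ)
    have : (m : G) ∈ D := (st m).1 (by
      rw [hm, Perm.extendDomain_apply_not_subtype (p := fun x => x ≠ i) _ _ (not_not.2 rfl)])
    exact ⟨⟨m, this⟩, inj ((hθ _).trans hm)⟩
  · have a := kr_le hx
    have b := (mem_kr (x := ⟨x, a⟩)).1 hx
    refine (mem_kr (x := inclusion hD ⟨x, a⟩)).2 ?_
    rw [← hθ, b, Perm.extendDomain_one]
  · have a := kr_le hx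
    have b := (mem_kr (x := ⟨x, a⟩)).1 hx
    have c : x ∈ D := (st ⟨x, a⟩).1 (by rw [b]; rfl)
    exact (mem_kr (x := ⟨x, c⟩)).2 (Perm.extendDomain_eq_one_iff.1 ((hθ _).trans b))
  · rw [← hθ, Perm.sign_extendDomain]
  · have := alternatingGroup.isPretransitive_of_three_le_card β h3
    obtain ⟨σ, hσ⟩ := exists_smul_eq (alternatingGroup β) i (φ ⟨m, hm⟩ i)
    obtain ⟨c, c1, c2⟩ := mem_im.1 (hC σ.2)
    refine ⟨c, c1, (st (c⁻¹ * ⟨m, hm⟩)).1 ?_⟩
    rw [map_mul, map_inv, Perm.mul_apply, Perm.inv_eq_iff_eq, c2]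
    exact hσ.symm

variable [Finite G] {M M' D : Subgroup G} {d : ℕ} {φ : M →* Perm β} {θ : D →* Perm γ} {φ' : M' →* Perm β}
  {θ' : D →* Perm γ}

omit [Finite G] in
theorem PD.kle (P : PD M D φ θ) : kr φ ≤ D := P.k ▸ kr_le

theorem core0 (W : WD M M' d) (hD : D = M ⊓ M') (P : PD M D φ θ) (h5 : 5 ≤ Nat.card γ) {r : ℕ} (hr : r.Prime) :
    pCoreOf r D = ⊥ := by
  subst hD
  refine W.core_eq_bot hr (le_trans ?_ (le_cor kr_le norm_kr P.kle))
  rcases dich' h5 (pCoreOf_le r _) (norm_pCoreOf r _) P.a2 with e | e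
  · exact P.k ▸ e
  · exact (not_pgroup h5 hr ((((isPGroup_pCoreOf r _).comap_subtype).map θ).to_le e)).elim

theorem FL0 (W : WD M M' d) (hD : D = M ⊓ M') (P : PD M D φ θ) (h5 : 5 ≤ Nat.card γ) {K : Subgroup G} (h1 : K ≤ D)
    (h2 : D ≤ 𝐍 K) : FL K = ⊥ :=
  le_bot_iff.1 (FL_le_of fun _ hs => (pCoreOf_le_of_norm h1 h2).trans (core0 W hD P h5 hs).le)

theorem cent1 (W : WD M M' d) (hD : D = M ⊓ M') (P : PD M D φ θ) (P' : PD M' D φ' θ') (h5 : 5 ≤ Nat.card γ)
    (h5' : 5 ≤ Nat.card β) (h0 : kr φ ≠ ⊥) (hc : Nat.card (EL (kr φ')) = Nat.card (EL (kr φ))) :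
    alternatingGroup β ≤ im φ (M ⊓ 𝐂 (kr φ)) := by
  have n := P.le.trans (norm_kr (φ := φ))
  have n' := P'.le.trans (norm_kr (φ := φ'))
  refine (dich' h5' inf_le_left (norm_inf le_normalizer (norm_centralizer norm_kr)) P.a1).resolve_left fun c => ?_
  have s : ∀ J, CA.Comp.Cp J (kr φ') → CA.Comp.Cp J D := fun J hJ => hJ.trans (SN.toS (SN.of_norm P'.kle n'))
  have e : EL (kr φ') ≤ EL (kr φ) := EL_le_iff.2 fun J hJ => by
    have := ((s J hJ).le_or_le_centralizer (SN.toS (SN.of_norm P.kle n))).elim id fun k =>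
      (le_inf ((s J hJ).le.trans P.le) k).trans c
    exact ((s J hJ).mono this P.kle).le_map_layer
  have e2 := eq_of_le_of_card_ge e hc.ge
  have e3 := bot_of_norm W ((EL_le _).trans kr_le) (norm_EL (norm_kr (φ := φ))) (e2 ▸ norm_EL (norm_kr (φ := φ')))
  have f := inf_cent_FS_le (kr φ)
  rw [FS_eq, e3, FL0 W hD P h5 P.kle n, bot_sup_eq, centralizer_bot, inf_top_eq] at f
  exact h0 (le_bot_iff.1 f)

omit [Finite G] in
theorem normX (P : PD M D φ θ) (P' : PD M' D φ' θ') (h : alternatingGroup β ≤ im φ (M ⊓ 𝐂 (kr φ))) :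
    M ≤ 𝐍 (kr φ ⊓ kr φ') := fun m hm => by
  obtain ⟨c, c1, c2⟩ := P.tr _ h m hm
  rw [← mul_inv_cancel_left c m]
  exact mul_mem (norm_of_centralizer (inf_le_right.trans (centralizer_anti inf_le_left)) c1)
    (norm_inf (P.le.trans norm_kr) (P'.le.trans norm_kr) c2)

theorem exists_psi (W : WD M M' d) (hD : D = M ⊓ M') (P : PD M D φ θ) (P' : PD M' D φ' θ') (hd : Nat.card β = d)
    (h5 : 5 ≤ Nat.card γ) (h5' : 5 ≤ d) (h0 : kr φ ≠ ⊥) :
    ∃ ψ : M →* Perm γ, Function.Injective (φ.prod ψ) ∧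
      (alternatingGroup β).prod (alternatingGroup γ) ≤ (φ.prod ψ).range ∧
      (φ.range ≤ alternatingGroup β → ψ.range ≤ alternatingGroup γ) := by
  obtain ⟨g, hg⟩ := W.cg
  have e : kr φ' = cj g (kr φ) := le_antisymm (sw W hg hd h5' P.a1 (hD ▸ P'.kle) norm_kr)
    (cj_le_iff.2 (sw W.symm (g := g⁻¹) (by rw [hg, cj_inv_cj]) hd h5' P'.a1 (inf_comm M M' ▸ hD ▸ P.kle) norm_kr))
  have hc : Nat.card (EL (kr φ')) = Nat.card (EL (kr φ)) := by rw [e, ← cj_EL, card_cj]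
  have c1 := cent1 W hD P P' h5 (hd ▸ h5') h0 hc
  have c2 := cent1 W.symm (hD.trans (inf_comm _ _)) P' P h5 (hd ▸ h5') (by rw [e]; exact mt cj_eq_bot.1 h0) hc.symm
  have x0 : kr φ ⊓ kr φ' = ⊥ := bot_of_norm W (inf_le_left.trans kr_le) (normX P P' c1)
    (inf_comm (kr φ') _ ▸ normX P' P c2)
  have n := P.le.trans (norm_kr (φ := φ))
  have aK : alternatingGroup γ ≤ im θ' (kr φ) := (dich' h5 P.kle n P'.a2).resolve_left fun k =>
    h0 (le_bot_iff.1 (x0 ▸ le_inf le_rfl (P'.k ▸ k)))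
  have l : D ⊓ 𝐂 (kr φ) ≤ kr θ' := (im_eq_bot inf_le_left).1 (le_bot_iff.1 (cent_alt h5 ▸
    le_trans ?_ (centralizer_anti aK)))
  swap
  · rintro _ ⟨x, hx, rfl⟩ _ ⟨y, hy, rfl⟩
    rw [← map_mul, ← map_mul]
    exact congrArg θ' (Subtype.ext (hx.2 y hy))
  let C : Subgroup M := (𝐂 (kr φ)).subgroupOf M
  have : C.Normal := normal_subgroupOf_of_norm (norm_centralizer norm_kr)
  let π : D →* M ⧸ C := (QuotientGroup.mk' C).comp (inclusion P.le)
  have dec : ∀ m : M, ∃ c ∈ C, ∃ x : D, m = c * inclusion P.le x := fun m => by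
    obtain ⟨c, h1, h2⟩ := P.tr _ c1 m m.2
    exact ⟨⟨c, h1.1⟩, h1.2, ⟨_, h2⟩, Subtype.ext (mul_inv_cancel_left c (m : G)).symm⟩
  have hπ : Function.Surjective π := fun q => by
    obtain ⟨m, rfl⟩ := QuotientGroup.mk'_surjective C q
    obtain ⟨c, h1, x, rfl⟩ := dec m
    refine ⟨x, ?_⟩
    rw [map_mul, QuotientGroup.mk'_apply C c, (QuotientGroup.eq_one_iff c).2 h1, one_mul]
    rfl
  have kπ : π.ker ≤ θ'.ker := fun x hx =>
    mem_kr.1 (l ⟨x.2, (QuotientGroup.eq_one_iff (inclusion P.le x)).1 hx⟩)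
  let ψ : M →* Perm γ := (π.liftOfSurjective hπ ⟨θ', kπ⟩).comp (QuotientGroup.mk' C)
  have p1 : ∀ x : D, ψ (inclusion P.le x) = θ' x := fun x =>
    π.liftOfRightInverse_comp_apply _ (Function.rightInverse_surjInv hπ) ⟨θ', kπ⟩ x
  have p2 : ∀ c ∈ C, ψ c = 1 := fun c hc => by
    simp only [ψ, MonoidHom.comp_apply]
    rw [QuotientGroup.mk'_apply C c, (QuotientGroup.eq_one_iff c).2 hc, map_one]
  refine ⟨ψ, (injective_iff_map_eq_one _).2 fun m hm => ?_, fun y hy => ?_, fun h => ?_⟩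
  · have a : (m : G) ∈ kr φ := mem_kr.2 (congrArg Prod.fst hm)
    have b : θ' ⟨m, P.kle a⟩ = 1 := (p1 _).symm.trans (congrArg Prod.snd hm)
    have b' := mem_kr.2 b
    have : (m : G) ∈ kr φ ⊓ kr φ' := mem_inf.2 ⟨a, P'.k.le b'⟩
    rw [x0] at this
    exact Subtype.ext (mem_bot.1 this)
  · obtain ⟨c, h1, h2⟩ := mem_im.1 (c1 hy.1)
    obtain ⟨x, h3, h4⟩ := mem_im.1 (aK hy.2)
    refine ⟨c * inclusion P.le x, Prod.ext ?_ ?_⟩
    · change φ _ = _
      rw [map_mul, h2, (mem_kr (x := inclusion P.le x)).1 h3, mul_one]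
    · change ψ _ = _
      rw [map_mul, p2 c h1.2, p1, h4, one_mul]
  · have r1 : θ.range ≤ alternatingGroup γ := by
      rintro _ ⟨x, rfl⟩
      rw [Perm.mem_alternatingGroup, P.sg]
      exact h ⟨_, rfl⟩
    have r2 : Nat.card θ'.range = Nat.card θ.range := by
      have a := card_mul_relIndex P.kle
      have b := card_mul_relIndex P'.kle
      rw [← rel_kr', ← rel_kr', P.k, P'.k]
      rw [e, card_cj, ← e, ← a] at b
      exact Nat.eq_of_mul_eq_mul_left Nat.card_pos b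
    have r3 := eq_of_le_of_card_ge P'.a2 (r2.le.trans (card_le_of_le r1))
    rintro _ ⟨m, rfl⟩
    obtain ⟨c, h1, x, rfl⟩ := dec m
    rw [map_mul, p2 c h1, p1, one_mul, r3]
    exact ⟨x, rfl⟩

omit [Finite G] in
theorem tri {R : Subgroup (Perm β × Perm γ)} (h : (alternatingGroup β).prod (alternatingGroup γ) ≤ R)
    (h1 : ∃ y ∈ R, Perm.sign y.1 = -1) :
    R = ⊤ ∨ R = (⊤ : Subgroup (Perm β)).prod (alternatingGroup γ) ∨
      R = (Perm.sign.comp (MonoidHom.fst (Perm β) (Perm γ)) * Perm.sign.comp (MonoidHom.snd (Perm β) (Perm γ))).ker := by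
  have k : ∀ y ∈ R, ∀ z : Perm β × Perm γ, Perm.sign z.1 = Perm.sign y.1 → Perm.sign z.2 = Perm.sign y.2 → z ∈ R :=
    fun y hy z a b => by
      rw [← mul_inv_cancel_left y z]
      refine mul_mem hy (h ⟨?_, ?_⟩)
      · change Perm.sign (y.1⁻¹ * z.1) = 1
        rw [map_mul, map_inv, a, inv_mul_cancel]
      · change Perm.sign (y.2⁻¹ * z.2) = 1
        rw [map_mul, map_inv, b, inv_mul_cancel]
  obtain ⟨y, y1, y2⟩ := h1
  have o := k 1 R.one_mem
  simp only [Prod.fst_one, Prod.snd_one, map_one] at o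
  by_cases c : ∃ w ∈ R, Perm.sign w.1 = 1 ∧ Perm.sign w.2 = -1
  · obtain ⟨w, w1, w2, w3⟩ := c
    refine .inl (eq_top_iff.2 fun z _ => ?_)
    have m := k _ (mul_mem y1 w1) z
    simp only [Prod.fst_mul, Prod.snd_mul, map_mul, y2, w2, w3] at m
    rcases Int.units_eq_one_or (Perm.sign z.1) with a | a <;> rcases Int.units_eq_one_or (Perm.sign z.2) with b | b
    · exact o z a b
    · exact k w w1 z (a.trans w2.symm) (b.trans w3.symm)
    all_goals
      rcases Int.units_eq_one_or (Perm.sign y.2) with e | e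
      all_goals first
        | exact k y y1 z (a.trans y2.symm) (b.trans e.symm)
        | exact m (by rw [a]; rfl) (by rw [b, e]; rfl)
  have c' : ∀ w ∈ R, Perm.sign w.1 = 1 → Perm.sign w.2 = 1 := fun w w1 w2 =>
    (Int.units_eq_one_or _).resolve_right fun e => c ⟨w, w1, w2, e⟩
  have c2 : ∀ w ∈ R, Perm.sign w.1 = -1 → Perm.sign w.2 = Perm.sign y.2 := fun w w1 w2 => by
    have := c' _ (mul_mem (inv_mem y1) w1) (by rw [Prod.fst_mul, Prod.fst_inv, map_mul, map_inv, y2, w2]; rfl)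
    rw [Prod.snd_mul, Prod.snd_inv, map_mul, map_inv, inv_mul_eq_one] at this
    exact this.symm
  rcases Int.units_eq_one_or (Perm.sign y.2) with e | e
  · refine .inr (.inl (le_antisymm (fun w hw => ?_) fun z hz => ?_))
    · exact ⟨trivial, (Int.units_eq_one_or (Perm.sign w.1)).elim (c' w hw) fun a => (c2 w hw a).trans e⟩
    · exact (Int.units_eq_one_or (Perm.sign z.1)).elim (fun a => o z a hz.2) fun a =>
        k y y1 z (a.trans y2.symm) (Eq.trans hz.2 e.symm)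
  · refine .inr (.inr (le_antisymm (fun w hw => ?_) fun z hz => ?_))
    · change Perm.sign w.1 * Perm.sign w.2 = 1
      rcases Int.units_eq_one_or (Perm.sign w.1) with a | a
      · rw [a, c' w hw a, one_mul]
      · rw [a, c2 w hw a, e]; rfl
    · change Perm.sign z.1 * Perm.sign z.2 = 1 at hz
      rcases Int.units_eq_one_or (Perm.sign z.1) with a | a
      · exact o z a (by rwa [a, one_mul] at hz)
      · refine k y y1 z (a.trans y2.symm) ?_
        rw [a, neg_one_mul, neg_eq_iff_eq_neg] at hz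
        rw [hz, e]

theorem final (W : WD M M' d) (hD : D = M ⊓ M') (P : PD M D φ θ) (P' : PD M' D φ' θ') (hd : Nat.card β = d)
    (h5 : 5 ≤ Nat.card γ) (h5' : 5 ≤ d) (h0 : kr φ ≠ ⊥) :
    (φ.range.index = 2 ∧ Nonempty (M ≃* alternatingGroup β × alternatingGroup γ)) ∨
    (φ.range = ⊤ ∧ (Nonempty (M ≃* Perm β × Perm γ) ∨ Nonempty (M ≃* Perm β × alternatingGroup γ) ∨
      Nonempty (M ≃* (Perm.sign.comp (MonoidHom.fst (Perm β) (Perm γ)) *
        Perm.sign.comp (MonoidHom.snd (Perm β) (Perm γ))).ker))) := by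
  obtain ⟨ψ, h1, h2, h3⟩ := exists_psi W hD P P' hd h5 h5' h0
  have : Nontrivial β := Finite.one_lt_card_iff_nontrivial.1 (by omega)
  let e := MonoidHom.ofInjective h1
  by_cases c : φ.range ≤ alternatingGroup β
  · refine .inl ⟨by rw [le_antisymm c P.a1, alternatingGroup.index_eq_two], ⟨e.trans ((MulEquiv.subgroupCongr
      (le_antisymm ?_ h2)).trans (Subgroup.prodEquiv _ _))⟩⟩
    rintro _ ⟨m, rfl⟩
    exact ⟨c ⟨m, rfl⟩, h3 c ⟨m, rfl⟩⟩
  · have t : φ.range = ⊤ := by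
      have := index_dvd_of_le P.a1
      rw [alternatingGroup.index_eq_two, Nat.dvd_prime Nat.prime_two] at this
      exact index_eq_one.1 (this.resolve_right fun k => c (Perm.eq_alternatingGroup_of_index_eq_two k).le)
    obtain ⟨_, ⟨m, rfl⟩, hm⟩ := SetLike.not_le_iff_exists.1 c
    refine .inr ⟨t, (tri h2 ⟨_, ⟨m, rfl⟩, (Int.units_eq_one_or _).resolve_left hm⟩).imp
      (fun k => ⟨e.trans ((MulEquiv.subgroupCongr k).trans topEquiv)⟩) (Or.imp
      (fun k => ⟨e.trans ((MulEquiv.subgroupCongr k).trans ((Subgroup.prodEquiv _ _).trans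
        (topEquiv.prodCongr (MulEquiv.refl _))))⟩) fun k => ⟨e.trans (MulEquiv.subgroupCongr k)⟩)⟩

end CA.FusKn
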