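import Cfsg.Agent.Lib.Fus.FusGlb

/-!
Quadratic offenders normalized by all quadratic elements (`p ≥ 5`).
-/

set_option autoImplicit false
set_option linter.unusedSectionVars false

namespace CA.FusLynd

open CA.FusGlb

section ring

variable {F R : Type*} [Field F] [Ring R] [Algebra F R]

theorem three_id (h2 : (2 : F) ≠ 0) {a b d : R} (aa : a * a = 0) (bb : b * b = 0) (dd : d * d = 0)
    (p1 : a * (a * b - b * a) = 0) (p2 : b * (a * b - b * a) = 0)
    (q1 : a * (a * d - d * a) = 0) (q2 : d * (a * d - d * a) = 0)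
    (r1 : b * (b * d - d * b) = 0) (r2 : d * (b * d - d * b) = 0)
    (pq : (a * b - b * a) * (a * d - d * a) = 0) (pr : (a * b - b * a) * (b * d - d * b) = 0)
    (qr : (a * d - d * a) * (b * d - d * b) = 0)
    (cc : (a + b + d) * (a + b + d) = 0) :
    1 + (a + b + d) = (1 + a) * (1 + b) * (1 + d) * ((1 + -((2 : F)⁻¹ • (a * b - b * a))) *
      (1 + -((2 : F)⁻¹ • (a * d - d * a))) * (1 + -((2 : F)⁻¹ • (b * d - d * b)))) := by
  have aa' : ∀ y, a * (a * y) = 0 := fun y => by rw [← mul_assoc, aa, zero_mul]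
  have bb' : ∀ y, b * (b * y) = 0 := fun y => by rw [← mul_assoc, bb, zero_mul]
  have dd' : ∀ y, d * (d * y) = 0 := fun y => by rw [← mul_assoc, dd, zero_mul]
  have aba : a * (b * a) = 0 := by rwa [mul_sub, aa', zero_sub, neg_eq_zero] at p1
  have bab : b * (a * b) = 0 := by rwa [mul_sub, bb', sub_zero] at p2
  have ada : a * (d * a) = 0 := by rwa [mul_sub, aa', zero_sub, neg_eq_zero] at q1
  have dad : d * (a * d) = 0 := by rwa [mul_sub, dd', sub_zero] at q2
  have bdb : b * (d * b) = 0 := by rwa [mul_sub, bb', zero_sub, neg_eq_zero] at r1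
  have dbd : d * (b * d) = 0 := by rwa [mul_sub, dd', sub_zero] at r2
  have c2 : a * b + b * a + a * d + d * a + b * d + d * b = 0 := by
    rw [← cc]; simp only [mul_add, add_mul, aa, bb, dd]; abel
  obtain ⟨w, hw⟩ : ∃ w, a * (b * d) = w := ⟨_, rfl⟩
  have adb : a * (d * b) = -w := by
    have := congrArg (a * ·) c2
    simp only [mul_add, aa', aba, ada, hw, mul_zero, zero_add] at this
    exact (neg_eq_of_add_eq_zero_right this).symm
  have bad : b * (a * d) = -w := by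
    have := congrArg (· * d) c2
    simp only [add_mul, mul_assoc, dd, dad, dbd, hw, mul_zero, zero_mul, add_zero] at this
    exact (neg_eq_of_add_eq_zero_right this).symm
  have dab : d * (a * b) = w := by
    have := congrArg (· * b) c2
    simp only [add_mul, mul_assoc, bb, bab, bdb, adb, mul_zero, zero_mul, add_zero, zero_add] at this
    exact (neg_add_eq_zero.1 this).symm
  have bda : b * (d * a) = w := by
    have := congrArg (b * ·) c2
    simp only [mul_add, bb', bab, bdb, bad, mul_zero, zero_add, add_zero] at this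
    exact (neg_add_eq_zero.1 this).symm
  have dba : d * (b * a) = -w := by
    have := congrArg (d * ·) c2
    simp only [mul_add, dd', dad, dbd, dab, mul_zero, add_zero] at this
    exact (neg_eq_of_add_eq_zero_right this).symm
  have wa : w * a = 0 := by rw [← hw, mul_assoc, mul_assoc, bda, ← hw, aa']
  have wb : w * b = 0 := by rw [← hw, mul_assoc, mul_assoc, bdb, mul_zero]
  have wd : w * d = 0 := by rw [← hw, mul_assoc, mul_assoc, dd, mul_zero, mul_zero]
  obtain ⟨s, hs⟩ : ∃ s, s = a * b + a * d + b * d := ⟨_, rfl⟩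
  have e1 : (1 + -((2 : F)⁻¹ • (a * b - b * a))) * (1 + -((2 : F)⁻¹ • (a * d - d * a))) *
      (1 + -((2 : F)⁻¹ • (b * d - d * b))) = 1 - s := by
    have : s = (2 : F)⁻¹ • ((a * b - b * a) + (a * d - d * a) + (b * d - d * b)) := by
      have : (a * b - b * a) + (a * d - d * a) + (b * d - d * b) = (2 : F) • s := by
        rw [two_smul, hs, ← sub_eq_zero, ← neg_eq_zero, ← c2]; abel
      rw [this, smul_smul, inv_mul_cancel₀ h2, one_smul]
    rw [this]
    generalize a * b - b * a = p at *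
    generalize a * d - d * a = q at *
    generalize b * d - d * b = r at *
    simp only [mul_add, add_mul, one_mul, mul_one, neg_mul, mul_neg, smul_mul_assoc, mul_smul_comm,
      pq, pr, qr, smul_zero, neg_zero, add_zero, smul_add, zero_mul]
    abel
  have e2 : (1 + a) * (1 + b) * (1 + d) = 1 + (a + b + d) + s + w := by
    rw [hs, ← hw]; noncomm_ring
  have e3 : (a + b + d) * s = w := by
    rw [hs]
    simp only [mul_add, add_mul, aa', bb', hw, bab, bad, dab, dad, dbd]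
    abel
  have e4 : w * s = 0 := by
    rw [hs]; simp only [mul_add, ← mul_assoc, wa, wb, zero_mul, add_zero]
  have e5 : s * s = 0 := by
    have h1 : a * s = w := by rw [hs]; simp only [mul_add, aa', hw, zero_add]
    have h2 : b * s = -w := by rw [hs]; simp only [mul_add, bb', bab, bad, zero_add, add_zero]
    have h3 : d * s = w := by rw [hs]; simp only [mul_add, dab, dad, dbd, add_zero]
    have h4 : a * w = 0 := by rw [← hw, aa']
    have h5 : b * w = 0 := by rw [← bda, bb']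
    nth_rewrite 1 [hs]
    simp only [add_mul, mul_assoc, h2, h3, mul_neg, h4, h5, neg_zero, add_zero]
  rw [e1, e2, mul_sub, mul_one]
  simp only [add_mul, one_mul, e4, e5]
  rw [← add_mul, ← add_mul, e3]
  abel

theorem one_add_mem (h2 : (2 : F) ≠ 0) {A B D : Submodule F R} (S : Submonoid R)
    (hA : ∀ x ∈ A, ∀ y ∈ A, x * y = 0) (hB : ∀ x ∈ B, ∀ y ∈ B, x * y = 0)
    (hD : ∀ x ∈ D, ∀ y ∈ D, x * y = 0)
    (sA : ∀ x ∈ A, 1 + x ∈ S) (sB : ∀ x ∈ B, 1 + x ∈ S) (sD : ∀ x ∈ D, 1 + x ∈ S)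
    (AB : ∀ x ∈ A, ∀ y ∈ B, x * y - y * x ∈ A ⊓ B) (AD : ∀ x ∈ A, ∀ y ∈ D, x * y - y * x ∈ A ⊓ D)
    (BD : ∀ x ∈ B, ∀ y ∈ D, x * y - y * x ∈ B ⊓ D) {c : R} (hc : c ∈ A ⊔ B ⊔ D) (cc : c * c = 0) :
    1 + c ∈ S := by
  obtain ⟨y, hy, d, hd, rfl⟩ := Submodule.mem_sup.1 hc
  obtain ⟨a, ha, b, hb, rfl⟩ := Submodule.mem_sup.1 hy
  obtain ⟨p1, p2⟩ := AB a ha b hb
  obtain ⟨q1, q2⟩ := AD a ha d hd
  obtain ⟨r1, r2⟩ := BD b hb d hd
  rw [three_id h2 (hA a ha a ha) (hB b hb b hb) (hD d hd d hd) (hA _ ha _ p1) (hB _ hb _ p2)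
    (hA _ ha _ q1) (hD _ hd _ q2) (hB _ hb _ r1) (hD _ hd _ r2) (hA _ p1 _ q1) (hB _ p2 _ r1)
    (hD _ q2 _ r2) cc]
  exact S.mul_mem (S.mul_mem (S.mul_mem (sA a ha) (sB b hb)) (sD d hd))
    (S.mul_mem (S.mul_mem (sA _ (neg_mem (A.smul_mem _ p1))) (sA _ (neg_mem (A.smul_mem _ q1))))
      (sB _ (neg_mem (B.smul_mem _ r1))))

theorem half_mem (h2 : (2 : F) ≠ 0) {A : Submodule F R} {y : R} (h : y + y ∈ A) : y ∈ A := by
  have : y = (2 : F)⁻¹ • (y + y) := by rw [← two_smul F, smul_smul, inv_mul_cancel₀ h2, one_smul]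
  rw [this]; exact A.smul_mem _ h

end ring

section fix

variable {F W : Type*} [Field F] [AddCommGroup W] [Module F W]

/-- common kernel -/
def fixS (A : Submodule F (Module.End F W)) : Submodule F W where
  carrier := {w | ∀ a ∈ A, a w = 0}
  add_mem' := fun {v w} hv hw a ha => by rw [map_add, hv a ha, hw a ha, add_zero]
  zero_mem' := fun a _ => map_zero a
  smul_mem' := fun c w hw a ha => by rw [map_smul, hw a ha, smul_zero]

/-- right annihilator -/
def ann (A : Submodule F (Module.End F W)) : Submodule F (Module.End F W) where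
  carrier := {r | ∀ a ∈ A, a * r = 0}
  add_mem' := fun {v w} hv hw a ha => by rw [mul_add, hv a ha, hw a ha, add_zero]
  zero_mem' := fun a _ => mul_zero a
  smul_mem' := fun c w hw a ha => by rw [mul_smul_comm, hw a ha, smul_zero]

theorem finrank_ann [Module.Finite F W] (A : Submodule F (Module.End F W)) :
    Module.finrank F (ann A) = Module.finrank F W * Module.finrank F (fixS A) := by
  let e : ann A ≃ₗ[F] (W →ₗ[F] fixS A) :=
    { toFun := fun r => (r : Module.End F W).codRestrict (fixS A)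
        fun w a ha => LinearMap.congr_fun (r.2 a ha) w
      map_add' := fun _ _ => rfl
      map_smul' := fun _ _ => rfl
      invFun := fun f => ⟨(fixS A).subtype ∘ₗ f, fun a ha => LinearMap.ext fun w => (f w).2 a ha⟩
      left_inv := fun _ => rfl
      right_inv := fun _ => rfl }
  rw [e.finrank_eq, Module.finrank_linearMap]

theorem finrank_fixS_lim [Module.Finite F W] {x : Module.End F W} (hx : x * x = 0)
    (A : Submodule F (Module.End F W)) :
    Module.finrank F (fixS A) ≤ Module.finrank F (fixS (lim x A)) := by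
  have h1 := finrank_le_lim hx (ann A)
  have h2 : lim x (ann A) ≤ ann (lim x A) := fun r hr a ha =>
    lim_mul hx (A := A) (B := ann A) (fun a ha b hb => hb a ha) a ha r hr
  have h3 := h1.trans (Submodule.finrank_mono h2)
  rw [finrank_ann, finrank_ann] at h3
  rcases Nat.eq_zero_or_pos (Module.finrank F W) with h | h
  · have := Submodule.finrank_le (fixS A)
    omega
  · exact Nat.le_of_mul_le_mul_left h3 h

theorem card_le_of_finrank {F U U' : Type*} [Field F] [Finite F] [AddCommGroup U] [Module F U]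
    [AddCommGroup U'] [Module F U'] [Module.Finite F U] [Module.Finite F U']
    (h : Module.finrank F U ≤ Module.finrank F U') : Nat.card U ≤ Nat.card U' := by
  rw [Module.natCard_eq_pow_finrank (K := F), Module.natCard_eq_pow_finrank (K := F) (V := U')]
  exact Nat.pow_le_pow_right Nat.card_pos h

end fix

section grp

variable {p : ℕ} [Fact p.Prime] {G W : Type*} [Group G] [AddCommGroup W] [Module (ZMod p) W]
  (ρ : G →* Module.End (ZMod p) W)

/-- quadratic subgroup -/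
def Quad (E : Subgroup G) : Prop := ∀ a ∈ E, ∀ b ∈ E, (ρ a - 1) * (ρ b - 1) = 0

variable {ρ}

theorem inv_of_sq {u : G} {x : Module.End (ZMod p) W} (h : ρ u = 1 + x) (hx : x * x = 0) :
    ρ u⁻¹ = 1 - x := by
  have h1 : (1 + x) * (1 - x) = 1 := by rw [mul_sub, mul_one, add_mul, one_mul, hx]; abel
  calc ρ u⁻¹ = ρ u⁻¹ * ((1 + x) * (1 - x)) := by rw [h1, mul_one]
    _ = 1 - x := by rw [← h, ← mul_assoc, ← map_mul, inv_mul_cancel, map_one, one_mul]

theorem zpow_of_sq {u : G} {x : Module.End (ZMod p) W} (h : ρ u = 1 + x) (hx : x * x = 0) (t : ℤ) :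
    ρ (u ^ t) = 1 + t • x := by
  induction t using Int.induction_on with
  | zero => simp
  | succ n ih =>
    rw [zpow_add_one, map_mul, ih, h, add_smul, one_smul, mul_add, mul_one, add_mul, one_mul,
      smul_mul_assoc, hx, smul_zero]
    abel
  | pred n ih =>
    rw [zpow_sub_one, map_mul, ih, inv_of_sq h hx, sub_smul, one_smul, mul_sub, mul_one, add_mul,
      one_mul, smul_mul_assoc, hx, smul_zero]
    abel

/-- the subspace `ρ E - 1` -/
def sub {E : Subgroup G} (hE : Quad ρ E) : Submodule (ZMod p) (Module.End (ZMod p) W) :=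
  AddSubgroup.toZModSubmodule p
    { carrier := {r | ∃ e ∈ E, ρ e = 1 + r}
      add_mem' := by
        rintro r s ⟨e, he, hr⟩ ⟨f, hf, hs⟩
        have := hE e he f hf
        rw [hr, hs, add_sub_cancel_left, add_sub_cancel_left] at this
        refine ⟨e * f, E.mul_mem he hf, ?_⟩
        rw [map_mul, hr, hs, mul_add, mul_one, add_mul, one_mul, this]
        abel
      zero_mem' := ⟨1, E.one_mem, by simp⟩
      neg_mem' := by
        rintro r ⟨e, he, hr⟩
        have := hE e he e he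
        rw [hr, add_sub_cancel_left] at this
        exact ⟨e⁻¹, E.inv_mem he, by rw [inv_of_sq hr this, sub_eq_add_neg]⟩ }

theorem mem_sub {E : Subgroup G} {hE : Quad ρ E} {r : Module.End (ZMod p) W} :
    r ∈ sub hE ↔ ∃ e ∈ E, ρ e = 1 + r := Iff.rfl

theorem sub_zz {E : Subgroup G} (hE : Quad ρ E) : ∀ x ∈ sub hE, ∀ y ∈ sub hE, x * y = 0 := by
  rintro x ⟨e, he, hx⟩ y ⟨f, hf, hy⟩
  have := hE e he f hf
  rwa [hx, hy, add_sub_cancel_left, add_sub_cancel_left] at this

theorem card_sub (hρ : Function.Injective ρ) {E : Subgroup G} (hE : Quad ρ E) :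
    Nat.card E = Nat.card (sub hE) := by
  refine Nat.card_congr (Equiv.ofBijective (fun e => ⟨ρ e - 1, e, e.2, by abel⟩) ⟨?_, ?_⟩)
  · intro e f h
    exact Subtype.ext (hρ (sub_left_injective (congrArg Subtype.val h)))
  · rintro ⟨r, e, he, hr⟩
    exact ⟨⟨e, he⟩, Subtype.ext (by show ρ e - 1 = r; rw [hr, add_sub_cancel_left])⟩

theorem conj_sub {E E' : Subgroup G} {hE : Quad ρ E} {hE' : Quad ρ E'} {g : G}
    (hg : ∀ e ∈ E, g * e * g⁻¹ ∈ E') {b : Module.End (ZMod p) W} (hb : b ∈ sub hE) :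
    ρ g * b * ρ g⁻¹ ∈ sub hE' := by
  obtain ⟨e, he, hb⟩ := hb
  refine ⟨_, hg e he, ?_⟩
  rw [map_mul, map_mul, hb, mul_add, add_mul, mul_one, ← map_mul, mul_inv_cancel, map_one]

theorem bracket_sub (h2 : (2 : ZMod p) ≠ 0) {E E' : Subgroup G} {hE : Quad ρ E} {hE' : Quad ρ E'}
    (h : ∀ g ∈ E, ∀ e ∈ E', g * e * g⁻¹ ∈ E') {a b : Module.End (ZMod p) W} (ha : a ∈ sub hE)
    (hb : b ∈ sub hE') : a * b - b * a ∈ sub hE' := by
  have aa := sub_zz hE a ha a ha
  obtain ⟨g, hg, ha⟩ := ha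
  have h1 := conj_sub (hE := hE') (hE' := hE') (h g hg) hb
  have h3 := conj_sub (hE := hE') (hE' := hE') (h g⁻¹ (E.inv_mem hg)) hb
  rw [inv_inv] at h3
  rw [ha, inv_of_sq ha aa] at h1 h3
  refine half_mem h2 ?_
  convert sub_mem h1 h3 using 1
  noncomm_ring

theorem bracket_inf (h2 : (2 : ZMod p) ≠ 0) {E E' : Subgroup G} {hE : Quad ρ E} {hE' : Quad ρ E'}
    (h : ∀ g ∈ E, ∀ e ∈ E', g * e * g⁻¹ ∈ E') (h' : ∀ g ∈ E', ∀ e ∈ E, g * e * g⁻¹ ∈ E) :
    ∀ a ∈ sub hE, ∀ b ∈ sub hE', a * b - b * a ∈ sub hE ⊓ sub hE' := fun a ha b hb =>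
  ⟨by rw [← neg_sub]; exact neg_mem (bracket_sub h2 h' hb ha), bracket_sub h2 h ha hb⟩

/-- the subgroup `ρ⁻¹ (1 + L)` -/
def grp (ρ : G →* Module.End (ZMod p) W) (L : Submodule (ZMod p) (Module.End (ZMod p) W))
    (hL : ∀ x ∈ L, ∀ y ∈ L, x * y = 0) : Subgroup G where
  carrier := {g | ρ g - 1 ∈ L}
  mul_mem' := fun {g h} hg hh => by
    have := hL _ hg _ hh
    have e : ρ (g * h) - 1 = (ρ g - 1) + (ρ h - 1) + (ρ g - 1) * (ρ h - 1) := by
      rw [map_mul]; noncomm_ring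
    show ρ (g * h) - 1 ∈ L
    rw [e, this, add_zero]; exact add_mem hg hh
  one_mem' := by show ρ 1 - 1 ∈ L; rw [map_one, sub_self]; exact L.zero_mem
  inv_mem' := fun {g} hg => by
    show ρ g⁻¹ - 1 ∈ L
    rw [inv_of_sq (x := ρ g - 1) (by abel) (hL _ hg _ hg), sub_sub_cancel_left]
    exact neg_mem hg

theorem grp_conj {L : Submodule (ZMod p) (Module.End (ZMod p) W)}
    {hL : ∀ x ∈ L, ∀ y ∈ L, x * y = 0} {g : G} (h : ∀ c ∈ L, ρ g * c * ρ g⁻¹ ∈ L) :
    ∀ e ∈ grp ρ L hL, g * e * g⁻¹ ∈ grp ρ L hL := fun e he => by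
  show ρ (g * e * g⁻¹) - 1 ∈ L
  convert h _ he using 1
  rw [mul_sub, sub_mul, mul_one, ← map_mul ρ g g⁻¹, mul_inv_cancel, map_one, map_mul, map_mul]

/-- the offender measure -/
noncomputable def ms {E : Subgroup G} (hE : Quad ρ E) : ℕ := Nat.card E * Nat.card (fixS (sub hE))

theorem repl (hp : 5 ≤ p) [Finite W] (hρ : Function.Injective ρ) {E K : Subgroup G}
    (hE : Quad ρ E) (hEK : E ≤ K) (hK : ∀ g ∈ K, ∀ e ∈ E, g * e * g⁻¹ ∈ E) {u : G}
    (hu : (ρ u - 1) * (ρ u - 1) = 0) (huK : u ∈ (Subgroup.normalizer (K : Set G) : Subgroup G)) :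
    ∃ (E' : Subgroup G) (hE' : Quad ρ E'), Nat.card E ≤ Nat.card E' ∧ ms hE ≤ ms hE' ∧
      (∀ g ∈ K, ∀ e ∈ E', g * e * g⁻¹ ∈ E') ∧ ∀ e ∈ E', u * e * u⁻¹ ∈ E' := by
  have hne : ∀ n : ℕ, 0 < n → n < 5 → (n : ZMod p) ≠ 0 := fun n h0 h5 h =>
    absurd (Nat.le_of_dvd h0 ((ZMod.natCast_eq_zero_iff n p).1 h)) (by omega)
  have h2 : (2 : ZMod p) ≠ 0 := by exact_mod_cast hne 2 (by norm_num) (by norm_num)
  have h3 : (3 : ZMod p) ≠ 0 := by exact_mod_cast hne 3 (by norm_num) (by norm_num)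
  haveI : Module.Finite (ZMod p) W := Module.Finite.of_finite
  obtain ⟨x, hx⟩ : ∃ x, x = ρ u - 1 := ⟨_, rfl⟩
  rw [← hx] at hu
  have hux : ρ u = 1 + x := by rw [hx]; abel
  have hL := lim_mul hu (sub_zz hE)
  have hq : Quad ρ (grp ρ _ hL) := fun a ha b hb => hL _ ha _ hb
  -- conjugates of `E`
  have cjE : ∀ v ∈ (Subgroup.normalizer (K : Set G) : Subgroup G), Quad ρ (E.map (MulAut.conj v).toMonoidHom) ∧
      E.map (MulAut.conj v).toMonoidHom ≤ K ∧ ∀ g ∈ K, ∀ e ∈ E.map (MulAut.conj v).toMonoidHom,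
        g * e * g⁻¹ ∈ E.map (MulAut.conj v).toMonoidHom := fun v hv => by
    refine ⟨?_, ?_, ?_⟩
    · rintro _ ⟨a, ha, rfl⟩ _ ⟨b, hb, rfl⟩
      have e : ∀ a : G, ρ ((MulAut.conj v).toMonoidHom a) - 1 = ρ v * (ρ a - 1) * ρ v⁻¹ := fun a => by
        rw [mul_sub, sub_mul, mul_one, ← map_mul ρ v v⁻¹, mul_inv_cancel, map_one, ← map_mul,
          ← map_mul]
        rfl
      rw [e, e]
      calc _ = ρ v * ((ρ a - 1) * (ρ v⁻¹ * ρ v) * (ρ b - 1)) * ρ v⁻¹ := by simp only [mul_assoc]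
        _ = 0 := by rw [← map_mul, inv_mul_cancel, map_one, mul_one, hE a ha b hb, mul_zero, zero_mul]
    · rintro _ ⟨a, ha, rfl⟩
      exact (Subgroup.mem_normalizer_iff.1 hv a).1 (hEK ha)
    · rintro g hg _ ⟨a, ha, rfl⟩
      refine ⟨_, hK (v⁻¹ * g * v) ((Subgroup.mem_normalizer_iff''.1 hv g).1 hg) a ha, ?_⟩
      simp only [MulEquiv.coe_toMonoidHom, MulAut.conj_apply]
      group
  obtain ⟨q1, l1, n1⟩ := cjE u huK
  obtain ⟨q2, l2, n2⟩ := cjE u⁻¹ (Subgroup.inv_mem _ huK)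
  have hle : lim x (sub hE) ≤ sub hE ⊔ sub q1 ⊔ sub q2 := by
    have m0 : ∀ a ∈ sub hE, a ∈ sub hE ⊔ sub q1 ⊔ sub q2 := fun a ha =>
      Submodule.mem_sup_left (Submodule.mem_sup_left ha)
    have m1 : ∀ a ∈ sub hE, (1 + x) * a * (1 - x) ∈ sub hE ⊔ sub q1 ⊔ sub q2 := fun a ha => by
      rw [← hux, ← inv_of_sq hux hu]
      exact Submodule.mem_sup_left (Submodule.mem_sup_right
        (conj_sub (hE' := q1) (g := u) (fun e he => ⟨e, he, rfl⟩) ha))
    have m2 : ∀ a ∈ sub hE, (1 - x) * a * (1 + x) ∈ sub hE ⊔ sub q1 ⊔ sub q2 := fun a ha => by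
      rw [← hux, ← inv_of_sq hux hu]
      have := conj_sub (hE' := q2) (g := u⁻¹) (fun e he => ⟨e, he, rfl⟩) ha
      rw [inv_inv] at this
      exact Submodule.mem_sup_right this
    refine lim_le m0 (fun a ha => half_mem h2 ?_) (fun a ha => half_mem h2 ?_)
    · convert sub_mem (m1 a ha) (m2 a ha) using 1
      noncomm_ring
    · convert sub_mem (sub_mem (add_mem (m0 a ha) (m0 a ha)) (m1 a ha)) (m2 a ha) using 1
      noncomm_ring
  have hsub : sub hq = lim x (sub hE) := by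
    ext c
    constructor
    · rintro ⟨e, he, hc⟩
      have : ρ e - 1 ∈ lim x (sub hE) := he
      rwa [hc, add_sub_cancel_left] at this
    · intro hc
      have hS : ∀ {D : Subgroup G} (hD : Quad ρ D), ∀ y ∈ sub hD, 1 + y ∈ MonoidHom.mrange ρ := by
        rintro D hD y ⟨e, -, he⟩
        exact ⟨e, he⟩
      obtain ⟨g, hg⟩ := one_add_mem h2 (MonoidHom.mrange ρ) (sub_zz hE) (sub_zz q1) (sub_zz q2)
        (hS hE) (hS q1) (hS q2)
        (bracket_inf h2 (fun g hg => n1 g (hEK hg)) (fun g hg => hK g (l1 hg)))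
        (bracket_inf h2 (fun g hg => n2 g (hEK hg)) (fun g hg => hK g (l2 hg)))
        (bracket_inf h2 (fun g hg => n2 g (l1 hg)) (fun g hg => n1 g (l2 hg)))
        (hle hc) (hL c hc c hc)
      refine ⟨g, ?_, hg⟩
      show ρ g - 1 ∈ lim x (sub hE)
      rwa [hg, add_sub_cancel_left]
  have c1 : Nat.card E ≤ Nat.card (grp ρ _ hL) := by
    rw [card_sub hρ hE, card_sub hρ hq, hsub]
    exact card_le_of_finrank (finrank_le_lim hu _)
  refine ⟨_, hq, c1, ?_, fun g hg => grp_conj fun c hc => ?_, grp_conj fun c hc => ?_⟩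
  · refine Nat.mul_le_mul c1 ?_
    rw [hsub]
    exact card_le_of_finrank (finrank_fixS_lim hu _)
  · refine lim_conj h2 h3 hu (fun t a ha => ?_) hc
    have e1 := zpow_of_sq hux hu t
    have e2 := zpow_of_sq hux hu (-t)
    rw [neg_smul, ← sub_eq_add_neg, zpow_neg] at e2
    have := conj_sub (hE := hE) (hE' := hE) (hK ((u ^ t)⁻¹ * g * u ^ t)
      ((Subgroup.mem_normalizer_iff''.1 (Subgroup.zpow_mem _ huK t) g).1 hg)) ha
    rw [mul_inv_rev, mul_inv_rev, inv_inv, ← mul_assoc] at this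
    simpa only [map_mul, e1, e2] using this
  · rw [inv_of_sq hux hu, hux]
    exact lim_cj_self h2 hu hc

theorem exists_normal (hp : 5 ≤ p) [Finite W] [Finite G] (hG : IsPGroup p G)
    (hρ : Function.Injective ρ) {E : Subgroup G} (hE : Quad ρ E) :
    ∃ (A : Subgroup G) (hA : Quad ρ A), Nat.card E ≤ Nat.card A ∧ ms hE ≤ ms hA ∧
      ∀ u : G, (ρ u - 1) * (ρ u - 1) = 0 → ∀ e ∈ A, u * e * u⁻¹ ∈ A := by
  classical
  let Q : Set G := {u | (ρ u - 1) * (ρ u - 1) = 0}
  let k : Subgroup G → Subgroup G := fun H => Subgroup.closure (Q ∩ H)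
  let 𝒜 : Set (Subgroup G) := {A | ∃ hA : Quad ρ A, Nat.card E ≤ Nat.card A ∧ ms hE ≤ ms hA}
  obtain ⟨A, ⟨hA, a1, a2⟩, hmax⟩ := Set.exists_max_image 𝒜
    (fun A => Nat.card (k (Subgroup.normalizer (A : Set G)))) (Set.toFinite _) ⟨E, hE, le_rfl, le_rfl⟩
  refine ⟨A, hA, a1, a2, ?_⟩
  obtain ⟨K, hK⟩ : ∃ K, K = k (Subgroup.normalizer (A : Set G)) := ⟨_, rfl⟩
  have kle : ∀ H, k H ≤ H := fun H => (Subgroup.closure_le _).2 Set.inter_subset_right
  have hKN : K ≤ Subgroup.normalizer (A : Set G) := hK ▸ kle _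
  have hAK : A ≤ K := fun a ha => hK ▸ Subgroup.subset_closure ⟨hA a ha a ha, Subgroup.le_normalizer ha⟩
  have hKQ : K = k K := le_antisymm
    (by
      nth_rewrite 1 [hK]
      exact Subgroup.closure_mono fun y hy => ⟨hy.1, hK ▸ Subgroup.subset_closure hy⟩) (kle K)
  have key : ∀ u ∈ Q, u ∈ Subgroup.normalizer (K : Set G) → u ∈ K := by
    intro u hu huK
    obtain ⟨A', hA', b1, b2, b3, b4⟩ := repl hp hρ hA hAK
      (fun g hg e he => (Subgroup.mem_normalizer_iff.1 (hKN hg) e).1 he) hu huK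
    have h1 : K ≤ k (Subgroup.normalizer (A' : Set G)) := by
      rw [hKQ]
      exact Subgroup.closure_mono fun y hy => ⟨hy.1, Subgroup.mem_normalizer_fintype (b3 y hy.2)⟩
    have h2 := hmax A' ⟨hA', a1.trans b1, a2.trans b2⟩
    rw [← hK] at h2
    rw [Subgroup.eq_of_le_of_card_ge h1 h2]
    exact Subgroup.subset_closure ⟨hu, Subgroup.mem_normalizer_fintype b4⟩
  have hKN' : k (Subgroup.normalizer (K : Set G)) = K := le_antisymm
    ((Subgroup.closure_le _).2 fun y hy => key y hy.1 hy.2)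
    (by
      nth_rewrite 1 [hKQ]
      exact Subgroup.closure_mono fun y hy => ⟨hy.1, Subgroup.le_normalizer hy.2⟩)
  have hQ : ∀ g : G, ∀ u ∈ Q, g * u * g⁻¹ ∈ Q := fun g u hu => by
    have e : ρ (g * u * g⁻¹) - 1 = ρ g * (ρ u - 1) * ρ g⁻¹ := by
      rw [mul_sub, sub_mul, mul_one, ← map_mul ρ g g⁻¹, mul_inv_cancel, map_one, map_mul, map_mul]
    show (ρ _ - 1) * (ρ _ - 1) = 0
    rw [e]
    calc _ = ρ g * ((ρ u - 1) * (ρ g⁻¹ * ρ g) * (ρ u - 1)) * ρ g⁻¹ := by simp only [mul_assoc]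
      _ = 0 := by rw [← map_mul, inv_mul_cancel, map_one, mul_one, hu, mul_zero, zero_mul]
  have hN : (Subgroup.normalizer (K : Set G) : Subgroup G) = ⊤ := by
    haveI := hG.isNilpotent
    refine (normalizerCondition_iff_only_full_group_self_normalizing.1
      Group.normalizerCondition_of_isNilpotent) _ (le_antisymm ?_ Subgroup.le_normalizer)
    intro g hg
    refine Subgroup.mem_normalizer_fintype fun y hy => ?_
    have hy' : y ∈ k (Subgroup.normalizer (K : Set G)) := hKN'.symm ▸ hy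
    show g * y * g⁻¹ ∈ K
    rw [← hKN']
    refine Subgroup.closure_induction (p := fun y _ => g * y * g⁻¹ ∈ k (Subgroup.normalizer (K : Set G)))
      (fun y hy => Subgroup.subset_closure
        ⟨hQ g y hy.1, (Subgroup.mem_normalizer_iff.1 hg y).1 hy.2⟩) ?_ ?_ ?_ hy'
    · simp
    · intro a b _ _ ha hb
      have := Subgroup.mul_mem _ ha hb
      rwa [conj_mul] at this
    · intro a _ ha
      have := Subgroup.inv_mem _ ha
      rwa [conj_inv] at this
  intro u hu e he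
  exact (Subgroup.mem_normalizer_iff.1 (hKN (key u hu (hN ▸ Subgroup.mem_top u))) e).1 he

end grp

end CA.FusLynd
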