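import Cfsg.Agent.Lib.Fus.FusGe

/-!
Fusion systems over `p`-groups with an abelian subgroup of index `p`.
-/

namespace CA.Fus

open Cfsg Subgroup CA.AmbSyl CA.AmbCore CA.AmbRes CA.AmbChar Relation
open Cfsg.FusionSystem (normalizerIn centralizerIn)
open scoped commutatorElement

variable {Ω : Type*} [Group Ω] {S P Q R T U V W A B C Z E N : Subgroup Ω} {F : FusionSystem S} {f g k : Ω → Ω} {p : ℕ}
  {s t a b x z : Ω}

/-- The second centre in the ambient group. -/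
abbrev z2 (S : Subgroup Ω) : Subgroup Ω := (Subgroup.upperCentralSeries S 2).map S.subtype

theorem z2_le (S : Subgroup Ω) : z2 S ≤ S := map_subtype_le _

theorem mem_z2 : a ∈ z2 S ↔ a ∈ S ∧ ∀ s ∈ S, ⁅a, s⁆ ∈ zc S := by
  have h : ∀ a s : S, ⁅a, s⁆ ∈ Subgroup.upperCentralSeries S 1 ↔ ⁅(a : Ω), (s : Ω)⁆ ∈ zc S := fun a s => by
    rw [Subgroup.upperCentralSeries_one, zc, ← Amb.map_subtype_center]
    exact (mem_map_iff_mem S.subtype_injective).symm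
  refine ⟨?_, fun ⟨ha, h1⟩ => ⟨⟨a, ha⟩, Subgroup.mem_upperCentralSeries_succ_iff.2 fun s => (h _ s).2 (h1 s s.2), rfl⟩⟩
  rintro ⟨a, ha, rfl⟩
  exact ⟨a.2, fun s hs => (h a ⟨s, hs⟩).1 (Subgroup.mem_upperCentralSeries_succ_iff.1 ha _)⟩

theorem zc_le_z2 (S : Subgroup Ω) : zc S ≤ z2 S := fun a ha => mem_z2.2 ⟨ha.1, fun s hs => by
  rw [commutatorElement_eq_one_iff_mul_comm.2 (zc_comm ha hs).symm]; exact one_mem _⟩

theorem z2_dif (ha : a ∈ z2 S) (hs : s ∈ S) : s⁻¹ * (a * s * a⁻¹) ∈ zc S := by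
  rw [inv_mul_conj, ← commutatorElement_inv]; exact inv_mem ((mem_z2.1 ha).2 _ (inv_mem hs))

theorem not_le_zc (h : ¬ IsMulCommutative S) : ¬ S ≤ zc S := fun e =>
  h (PGBasic.isMulCommutative_iff.2 fun _ ha _ hb => zc_comm (e hb) ha)

theorem comm_of_le_zc (h : U ≤ zc S) (hx : x ∈ S) : IsMulCommutative ↥(U ⊔ zpowers x) :=
  have : IsMulCommutative U := PGBasic.isMulCommutative_iff.2 fun _ ha _ hb => zc_comm (h hb) (h ha).1
  PGBasic.isMulCommutative_sup_zpowers fun _ hc => (zc_comm (h hc) hx).symm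

/-- `[x⁻¹, a]`. -/
def ph (x a : Ω) : Ω := x⁻¹ * (a * x * a⁻¹)

theorem ph_eq_one : ph x a = 1 ↔ a * x = x * a := by
  rw [ph, inv_mul_eq_one, eq_comm, mul_inv_eq_iff_eq_mul]

theorem relIndex_of_card {n : ℕ} [Finite V] (hU : U ≤ V) (h : Nat.card U * n = Nat.card V) : U.relIndex V = n :=
  have := fin_le hU
  Nat.eq_of_mul_eq_mul_left Nat.card_pos ((Amb.card_mul_relIndex hU).trans h.symm)

/-- `A` is an abelian subgroup of index `p` of the nonabelian `p`-group `S`. -/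
structure AbI (p : ℕ) (S A : Subgroup Ω) : Prop where
  pg : IsPGroup p S
  le : A ≤ S
  ab : IsMulCommutative A
  idx : A.relIndex S = p
  na : ¬ S ≤ zc S

variable [hp : Fact p.Prime] [Finite S]

namespace AbI
variable (h : AbI p S A)
include h

omit hp [Finite S] in
theorem comm (ha : a ∈ A) (hb : b ∈ A) : a * b = b * a := PGBasic.isMulCommutative_iff.1 h.ab a ha b hb

theorem norm : S ≤ normalizer (A : Set Ω) := norm_of_index_p h.pg h.le h.idx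

omit [Finite S] in
theorem sup (hx : x ∈ S) (hx' : x ∉ A) : A ⊔ zpowers x = S :=
  PGBasic.sup_zpowers_eq_of_relIndex_prime hp.out h.idx h.le hx hx'

theorem dec (hx : x ∈ S) (hx' : x ∉ A) (hs : s ∈ S) : ∃ a ∈ A, ∃ m : ℤ, s = a * x ^ m :=
  (PGBasic.mem_sup_zpowers (h.norm hx)).1 ((h.sup hx hx').ge hs)

theorem mem_zc (hx : x ∈ S) (hx' : x ∉ A) (ha : a ∈ A) (e : a * x = x * a) : a ∈ zc S := ⟨h.le ha, fun s hs => by
  obtain ⟨b, hb, m, rfl⟩ := h.dec hx hx' hs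
  rw [mul_assoc, ← (Commute.zpow_right e m).eq, ← mul_assoc, h.comm hb ha, mul_assoc]⟩

theorem zc_le : zc S ≤ A := fun z hz => by_contra fun e => h.na fun a ha => ⟨ha, fun b hb => by
  have := h.ab
  have := PGBasic.isMulCommutative_sup_zpowers (A := A) (x := z) fun c hc => zc_comm hz (h.le hc)
  rw [h.sup hz.1 e] at this
  exact PGBasic.isMulCommutative_iff.1 this b hb a ha⟩

theorem pow_mem (hx : x ∈ S) (hx' : x ∉ A) : x ^ p ∈ zc S :=
  h.mem_zc hx hx' (pow_mem_of_index h.pg h.le h.idx hx) (Commute.pow_self x p)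

theorem ph_mem (hx : x ∈ S) (ha : a ∈ A) : ph x a ∈ A := inv_mul_conj_mem' (h.norm hx) ha

theorem hom (hx : x ∈ S) : HomOn A (ph x) := fun a ha b hb => by
  have := h.comm (h.ph_mem hx hb) (inv_mem ha)
  simp only [ph] at this ⊢
  rw [mul_assoc x⁻¹ (a * x * a⁻¹), mul_assoc (a * x), ← this]; group

theorem pre_bot (hx : x ∈ S) (hx' : x ∉ A) (hB : B ≤ A) (hZ : zc S ≤ B) : ((h.hom hx).mono hB).pre ⊥ = zc S :=
  le_antisymm (fun _ ha => h.mem_zc hx hx' (hB ha.1) (ph_eq_one.1 ha.2))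
    fun _ ha => ⟨hZ ha, ph_eq_one.2 (zc_comm ha hx).symm⟩

theorem card_eq (hx : x ∈ S) (hx' : x ∉ A) (hB : B ≤ A) (hZ : zc S ≤ B) :
    Nat.card B = Nat.card (img (ph x) B) * Nat.card (zc S) := by
  rw [((h.hom hx).mono hB).card_eq_mul, h.pre_bot hx hx' hB hZ]

theorem img_eq (hx : x ∈ S) (hx' : x ∉ A) : img (ph x) A = ⁅S, S⁆ := by
  refine le_antisymm (img_le_iff.2 fun a ha => inv_mul_conj_mem hx (h.le ha)) ?_
  have h1 : img (ph x) A ≤ A := img_le_iff.2 fun a ha => h.ph_mem hx ha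
  have := fin_le (h1.trans h.le)
  have e : closure ((A : Set Ω) ∪ {x⁻¹}) = S := by
    rw [Subgroup.closure_union, closure_eq, ← zpowers_eq_closure, zpowers_inv, h.sup hx hx']
  have hn : S ≤ normalizer (img (ph x) A : Set Ω) := (h.sup hx hx').ge.trans (sup_le
    (fun a ha => mem_normalizer_of_maps fun b hb => by rwa [h.comm ha (h1 hb), mul_inv_cancel_right])
    (zpowers_le.2 (mem_normalizer_of_maps fun b hb => by
      obtain ⟨a, ha, rfl⟩ := (h.hom hx).mem_img.1 hb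
      convert mem_img_of_mem (ph x) (conj_mem_of_norm (h.norm hx) ha) using 1
      simp only [ph]; group)))
  rw [← e]
  refine H7Reg.der_closure_le (e ▸ hn) fun u hu v hv => ?_
  rcases hu with hu | rfl <;> rcases hv with hv | rfl
  · rw [commutatorElement_eq_one_iff_mul_comm.2 (h.comm hu hv)]; exact one_mem _
  · rw [← commutatorElement_inv, ← inv_mul_conj]; exact inv_mem (mem_img_of_mem (ph x) hu)
  · rw [← inv_mul_conj]; exact mem_img_of_mem (ph x) hv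
  · simp

theorem der_le : ⁅S, S⁆ ≤ A := by
  obtain ⟨x, hx, hx'⟩ := SetLike.not_le_iff_exists.1 (show ¬ S ≤ A from fun e =>
    hp.out.one_lt.ne' (h.idx ▸ relIndex_eq_one.2 e))
  exact h.img_eq hx hx' ▸ img_le_iff.2 fun a ha => h.ph_mem hx ha

theorem dif_mem (hx : x ∈ S) (hx' : x ∉ A) (ha : a ∈ A) (e : ph x a ∈ zc S) (hs : s ∈ S) :
    s⁻¹ * (a * s * a⁻¹) ∈ zpowers (ph x a) := by
  obtain ⟨b, hb, m, rfl⟩ := h.dec hx hx' hs
  rw [conj_dif_mul (by rw [h.comm ha hb, mul_inv_cancel_right]), conj_dif_zpow (zc_comm e hx)]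
  exact zpow_mem_zpowers _ _

theorem mem_z2_iff (hx : x ∈ S) (hx' : x ∉ A) (ha : a ∈ A) : a ∈ z2 S ↔ ph x a ∈ zc S :=
  ⟨fun e => z2_dif e hx, fun e => mem_z2.2 ⟨h.le ha, fun s hs => by
    have := zpowers_le.2 e (h.dif_mem hx hx' ha e (inv_mem hs))
    rw [inv_mul_conj, inv_inv] at this
    rw [← commutatorElement_inv]; exact inv_mem this⟩⟩

theorem img_z2 (hx : x ∈ S) (hx' : x ∉ A) : img (ph x) (A ⊓ z2 S) = zc S ⊓ ⁅S, S⁆ :=
  le_antisymm (img_le_iff.2 fun a ha => ⟨z2_dif ha.2 hx, inv_mul_conj_mem hx (h.le ha.1)⟩) fun r hr => by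
    obtain ⟨a, ha, rfl⟩ := (h.hom hx).mem_img.1 ((h.img_eq hx hx').ge hr.2)
    exact mem_img_of_mem _ ⟨ha, (h.mem_z2_iff hx hx' ha).2 hr.1⟩

theorem card_z2 (hx : x ∈ S) (hx' : x ∉ A) : (zc S).relIndex (A ⊓ z2 S) = Nat.card ↥(zc S ⊓ ⁅S, S⁆) :=
  have := fin_le (inf_le_left.trans h.le : A ⊓ z2 S ≤ S)
  relIndex_of_card (le_inf h.zc_le (zc_le_z2 S)) (by
    rw [h.card_eq hx hx' inf_le_left (le_inf h.zc_le (zc_le_z2 S)), h.img_z2 hx hx', mul_comm])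

theorem ess (hF : F.IsSaturated p) (l : Lr F p S P) (hPA : P ≠ A) : ∃ x ∈ P, x ∉ A ∧
    P.relIndex (normalizerIn S P) = p ∧ Nat.card ↥(zc S ⊓ ⁅S, S⁆) = p ∧
      ((P = zc S ⊔ zpowers x ∧ ZT F p P) ∨ (P = A ⊓ z2 S ⊔ zpowers x ∧ F.autGroup P ≤ stabA P (zc S))) := by
  have hS := h.pg
  have := fin_le l.le
  obtain ⟨x, hx, hx'⟩ := SetLike.not_le_iff_exists.1 (show ¬ P ≤ A from fun e =>
    hPA (le_antisymm e fun a ha => l.cent (h.le ha) fun b hb => h.comm (e hb) ha))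
  have hxS := l.le hx
  have hZ := l.zc_lt.le
  have hd : ∀ t ∈ normalizerIn S P, ∃ a ∈ A, a ∈ normalizerIn S P ∧ ∃ m : ℤ, t = a * x ^ m := fun t ht => by
    obtain ⟨a, ha, m, rfl⟩ := h.dec hxS hx' ht.1
    exact ⟨a, ha, (mul_mem_cancel_right (zpow_mem (le_normIn l.le hx) m)).1 ht, m, rfl⟩
  have hP : P = P ⊓ A ⊔ zpowers x := le_antisymm (fun q hq => by
    obtain ⟨a, ha, m, rfl⟩ := h.dec hxS hx' (l.le hq)
    exact mul_mem (mem_sup_left ⟨(mul_mem_cancel_right (zpow_mem hx m)).1 hq, ha⟩)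
      (mem_sup_right (zpow_mem_zpowers x m))) (sup_le inf_le_left (zpowers_le.2 hx))
  have hidx : ∀ s ∈ normalizerIn S P, s ∉ P → s ^ p ∈ P → normalizerIn S P ≤ P ⊔ zpowers s →
      P.relIndex (normalizerIn S P) = p := fun s hs h1 h2 h3 => by
    rw [le_antisymm h3 (sup_le (le_normIn l.le) (zpowers_le.2 hs))]
    exact PGBasic.relIndex_sup_zpowers hp.out hs.2 h1 h2
  refine ⟨x, hx, hx', ?_⟩
  by_cases e : P ⊓ A ≤ zc S
  · have hP' : P = zc S ⊔ zpowers x := le_antisymm (hP.le.trans (sup_le_sup_right e _)) (sup_le hZ (zpowers_le.2 hx))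
    obtain ⟨s, hs, hs', hsp, hN, h1, y, a, b, C, h2, t⟩ := l.ztype hS hF hP' (h.pow_mem hxS hx')
    have hab : P ≤ centralizer (P : Set Ω) := have : IsMulCommutative P := hP' ▸ comm_of_le_zc le_rfl hxS; le_centralizer P
    have h3 : x⁻¹ * (s * x * s⁻¹) ∈ zc S := comm_of_index_p hS hZ l.le (hP' ▸ PGBasic.relIndex_sup_zpowers hp.out
      (norm_of_le_zc le_rfl hxS) (fun e => hx' (h.zc_le e)) (h.pow_mem hxS hx')) hs.1 (norm_of_le_zc le_rfl hs.1) hs.2 x hx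
    have h4 : zpowers a = zc S ⊓ ⁅S, S⁆ := h2 ▸ le_antisymm (zpowers_le.2 ⟨h3, inv_mul_conj_mem hxS hs.1⟩) fun r hr => by
      obtain ⟨c, hc, rfl⟩ := ((h.hom hxS).mono inf_le_left).mem_img.1 ((h.img_z2 hxS hx').ge hr)
      obtain ⟨q, hq, m, rfl⟩ := (PGBasic.mem_sup_zpowers hs.2).1 (hN ⟨h.le hc.1, mem_normalizer_of_maps fun q hq => by
        simpa using mul_mem hq (hZ (z2_dif hc.2 (l.le hq)))⟩)
      rw [ph, show q * s ^ m * x * (q * s ^ m)⁻¹ = q * (s ^ m * x * (s ^ m)⁻¹) * q⁻¹ by group,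
        ← hab hq _ (conj_mem_of_norm (zpow_mem hs m).2 hx), mul_inv_cancel_right, dif_zpow_left (zc_comm h3 hs.1)]
      exact zpow_mem_zpowers _ _
    exact ⟨hidx s hs hs' hsp hN, by rw [← h4, Nat.card_zpowers, orderOf_eq_prime t.pa t.ne], .inl ⟨hP', hZ, s, y, a, b, C,
      fun q hq => ⟨h1 q hq, fun e => zc_conj e hs.1⟩, h4, t⟩⟩
  have hZ0 : zc S ≤ P ⊓ A := le_inf hZ h.zc_le
  have hn0 : x ∈ normalizer ((P ⊓ A : Subgroup Ω) : Set Ω) := Amb.norm_inf le_normalizer (l.le.trans h.norm) hx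
  have hi0 : (P ⊓ A).relIndex P = p := by
    nth_rewrite 2 [hP]
    exact PGBasic.relIndex_sup_zpowers hp.out hn0 (fun e => hx' e.2) (hZ0 (h.pow_mem hxS hx'))
  obtain ⟨a₀, ha₀, ha1, ha2, ha3⟩ : ∃ a ∈ A, a ∈ normalizerIn S P ∧ a ∉ P ∧ a ^ p ∈ P := by
    obtain ⟨s, hs, hn, hs', -⟩ := l.exists_norm hS
    obtain ⟨a, h1, h2, m, rfl⟩ := hd s ⟨hs, hn⟩
    obtain ⟨n, hn⟩ := isPGroup_iff_mem.1 hS a h2.1
    obtain ⟨j, h3, h4⟩ := PGBasic.exists_pow_not_mem (fun e => hs' (mul_mem e (zpow_mem hx m))) (k := n) (hn ▸ one_mem P)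
    exact ⟨_, Subgroup.pow_mem _ h1 _, Subgroup.pow_mem _ h2 _, h3, h4⟩
  have hph : ∀ a ∈ A, a ∈ normalizerIn S P → ∀ q ∈ P, q⁻¹ * (a * q * a⁻¹) ∈ P ⊓ A := fun a ha hn q hq =>
    mem_inf.2 ⟨mul_mem (inv_mem hq) (conj_mem_of_norm hn.2 hq), inv_mul_conj_mem' (h.norm (l.le hq)) ha⟩
  have := fin_le (inf_le_left : P ⊓ A ≤ P)
  obtain ⟨γ, hγ, y, hy, hy'⟩ : ∃ γ ∈ F.autGroup P, ∃ y ∈ P ⊓ A, act γ y ∉ A := by
    by_contra! e'
    exact ha2 (l.mem_of_two hS ha1.1 ha1.2 (fun γ hγ => mem_stabA_of_maps inf_le_left fun y hy =>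
      ⟨act_mem γ hy.1, e' γ hγ y hy⟩) (hph a₀ ha₀ ha1) fun q _ hq => by rw [h.comm ha₀ hq.2, mul_inv_cancel_right])
  have h1 : img (act γ) (P ⊓ A) ≤ P := (hIso_act γ).img_le inf_le_left
  have hi : (zc S).relIndex (P ⊓ A) = p := by
    have e1 : (img (act γ) (P ⊓ A)).relIndex P = p :=
      relIndex_of_card h1 (by rw [(hIso_act γ).card_img inf_le_left, ← hi0, Amb.card_mul_relIndex inf_le_left])
    have e2 : img (act γ) (P ⊓ A) ⊓ (P ⊓ A) ≤ zc S := fun c hc => by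
      obtain ⟨d, hd, rfl⟩ := ((homOn_act γ).mono inf_le_left).mem_img.1 hc.1
      refine h.mem_zc (l.le (act_mem γ hy.1)) hy' hc.2.2 ?_
      rw [← (homOn_act γ).mul hd.1 hy.1, h.comm hd.2 hy.2, (homOn_act γ).mul hy.1 hd.1]
    refine le_antisymm ((relIndex_le_of_le_left e2 (Amb.relIndex_ne_zero _ _)).trans ?_)
      (Nat.le_of_dvd (Nat.pos_of_ne_zero (Amb.relIndex_ne_zero _ _)) (dvd_relIndex (hS.to_le (inf_le_left.trans l.le)) e))
    rw [inf_relIndex_right, ← e1]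
    exact relIndex_le_of_le_right inf_le_left (Amb.relIndex_ne_zero _ _)
  have hzP : zc P = zc S := le_antisymm (fun c hc => by
    by_cases e' : c ∈ A
    · exact h.mem_zc hxS hx' e' (zc_comm hc hx).symm
    · exact (e fun a ha => h.mem_zc (l.le hc.1) e' ha.2 (zc_comm hc ha.1)).elim)
    fun c hc => ⟨hZ hc, Amb.centralizer_anti l.le hc.2⟩
  have hst : F.autGroup P ≤ stabA P (zc S) := hzP ▸ le_stab_of_top (stabA_zc P)
  have hK : A ⊓ z2 S = P ⊓ A := le_antisymm (fun a ha => ⟨l.mem_of_two hS (h.le ha.1) (mem_normalizer_of_maps fun q hq => by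
      simpa using mul_mem hq (hZ (z2_dif ha.2 (l.le hq)))) hst (fun q hq => z2_dif ha.2 (l.le hq))
      fun q _ hq => zc_conj hq (h.le ha.1), ha.1⟩) fun a ha => ⟨ha.2, (h.mem_z2_iff hxS hx' ha.2).2 (by
        have := inv_mem (comm_of_index_p hS hZ0 (inf_le_left.trans l.le) hi (inv_mem hxS)
          (norm_of_le_zc le_rfl (inv_mem hxS)) (inv_mem hn0) _ (inv_mem ha))
        convert this using 1
        simp only [ph]; group)⟩
  have h2 : ph x a₀ ∉ zc S := fun e => ha2 (hK.le ⟨ha₀, (h.mem_z2_iff hxS hx' ha₀).2 e⟩).1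
  refine ⟨hidx a₀ ha1 ha2 ha3 fun t ht => ?_, by rw [← h.card_z2 hxS hx', hK, hi], .inr ⟨hK ▸ hP, hst⟩⟩
  obtain ⟨a, ha, hn, m, rfl⟩ := hd t ht
  refine mul_mem ?_ (mem_sup_left (zpow_mem hx m))
  have h3 := hph a ha hn x hx
  rw [← PGBasic.sup_zpowers_eq_of_relIndex_prime hp.out hi hZ0 (hph a₀ ha₀ ha1 x hx) h2] at h3
  obtain ⟨c, hc, j, e'⟩ := (PGBasic.mem_sup_zpowers (norm_of_le_zc le_rfl (h.le (h.ph_mem hxS ha₀)))).1 h3
  have h4 := mul_mem ha (inv_mem (zpow_mem ha₀ j))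
  have h5 := (hK.le ⟨h4, (h.mem_z2_iff hxS hx' h4).2 (by
    rw [(h.hom hxS).mul_inv ha (zpow_mem ha₀ j), (h.hom hxS).zpow ha₀, show ph x a = _ from e', mul_inv_cancel_right]
    exact hc)⟩).1
  rw [← inv_mul_cancel_right a (a₀ ^ j)]
  exact mul_mem (mem_sup_left h5) (mem_sup_right (zpow_mem_zpowers _ j))

theorem z2_le_of (hu : ∀ B, B ≤ S → IsMulCommutative B → B.relIndex S = p → B = A)
    (hc : Nat.card ↥(zc S ⊓ ⁅S, S⁆) = p) : z2 S ≤ A := fun x hx => by_contra fun hx' => by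
  have hxS := z2_le S hx
  have h1 : ⁅S, S⁆ ≤ zc S := h.img_eq hxS hx' ▸ img_le_iff.2 fun a ha => by
    rw [ph, inv_mul_conj]; exact (mem_z2.1 (inv_mem hx)).2 a (h.le ha)
  have h2 := h.card_eq hxS hx' le_rfl h.zc_le
  rw [h.img_eq hxS hx', ← inf_eq_right.2 h1, hc] at h2
  have h3 : zc S ⊔ zpowers x ≤ S := sup_le inf_le_left (zpowers_le.2 hxS)
  refine hx' ((hu _ h3 (comm_of_le_zc le_rfl hxS) (relIndex_of_card h3 ?_)).le (mem_sup_right (mem_zpowers x)))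
  rw [PGBasic.card_sup_zpowers hp.out (norm_of_le_zc le_rfl hxS) (fun e => hx' (h.zc_le e)) (h.pow_mem hxS hx'),
    ← Amb.card_mul_relIndex h.le, h.idx, h2, mul_comm p]

theorem relIndex_sup (hc : Nat.card ↥(zc S ⊓ ⁅S, S⁆) = p) : (zc S ⊔ ⁅S, S⁆).relIndex A = p := by
  obtain ⟨x, hx, hx'⟩ := SetLike.not_le_iff_exists.1 (show ¬ S ≤ A from fun e =>
    hp.out.one_lt.ne' (h.idx ▸ relIndex_eq_one.2 e))
  have := fin_le h.le
  refine relIndex_of_card (sup_le h.zc_le h.der_le) ?_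
  rw [h.card_eq hx hx' le_rfl h.zc_le, h.img_eq hx hx', ← hc, mul_comm (Nat.card ↥⁅S, S⁆)]
  exact Amb.card_sup_mul_card_inf (inf_le_left.trans (Amb.norm_commutator le_normalizer le_normalizer))

theorem lcs_not_le (hc : Nat.card ↥(zc S ⊓ ⁅S, S⁆) = p) {m : ℕ} (hm : (zc S).relIndex S = p ^ (m + 2)) :
    ¬ S.lowerCentralSeries m ≤ zc S := fun e => by
  obtain ⟨x, hx, hx'⟩ := SetLike.not_le_iff_exists.1 (show ¬ S ≤ A from fun e =>
    hp.out.one_lt.ne' (h.idx ▸ relIndex_eq_one.2 e))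
  have := fin_le h.le
  have := fin_le h.zc_le
  have key : ∀ k : ℕ, ∃ B, B ≤ A ∧ zc S ≤ B ∧ B ≤ S.lowerCentralSeries k ⊔ zc S ∧ Nat.card A ≤ Nat.card B * p ^ k := fun k => by
    induction k with
    | zero => exact ⟨A, le_rfl, h.zc_le, h.le.trans le_sup_left, by rw [pow_zero, mul_one]⟩
    | succ k ih =>
      obtain ⟨B, h1, h2, h3, h4⟩ := ih
      have h5 : img (ph x) B ≤ A := img_le_iff.2 fun a ha => h.ph_mem hx (h1 ha)
      refine ⟨img (ph x) B ⊔ zc S, sup_le h5 h.zc_le, le_sup_right, sup_le_sup_right (img_le_iff.2 fun a ha => ?_) _,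
        h4.trans ?_⟩
      · obtain ⟨c, hc, u, hu, rfl⟩ := (Amb.mem_sup_of_norm' (H := zc S) (inf_le_left.trans
          (S.self_le_normalizer_lowerCentralSeries k))).1 (h3 ha)
        rw [ph, show c * u * x * (c * u)⁻¹ = c * (u * x * u⁻¹) * c⁻¹ by group, ← zc_comm hu hx, mul_inv_cancel_right]
        exact inv_mul_conj_mem hx hc
      · rw [pow_succ', ← mul_assoc, h.card_eq hx hx' h1 h2, ← Amb.card_sup_mul_card_inf
          ((h5.trans h.le).trans (norm_of_le_zc le_rfl)), ← hc]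
        have := fin_le (inf_le_left : zc S ⊓ ⁅S, S⁆ ≤ _)
        exact Nat.mul_le_mul_right _ (Nat.mul_le_mul_left _ (card_le_of_le (le_inf inf_le_right (inf_le_left.trans
          ((img_mono _ h1).trans (h.img_eq hx hx').le)))))
  obtain ⟨B, -, h2, h3, h4⟩ := key m
  rw [le_antisymm (h3.trans (sup_le e le_rfl)) h2] at h4
  have e1 := Amb.card_mul_relIndex (inf_le_left : zc S ≤ S)
  rw [hm, ← Amb.card_mul_relIndex h.le, h.idx, pow_succ, ← mul_assoc, mul_left_inj' hp.out.ne_zero] at e1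
  rw [← e1] at h4
  exact absurd ((Nat.pow_le_pow_iff_right hp.out.one_lt).1 (Nat.le_of_mul_le_mul_left h4 Nat.card_pos)) (by omega)

theorem main (hF : F.IsSaturated p) (hp2 : p ≠ 2) (hc : F.core = ⊥) (hA : ¬ F.IsEssential p A) :
    (∃ x ∈ S, x ∉ A ∧ F.IsEssential p (zc S ⊔ zpowers x)) ∧ zc S ≤ ⁅S, S⁆ ∧
      ∀ n : ℕ, Nat.card S = p ^ n → 3 ≤ n → S.lowerCentralSeries (n - 2) ≠ ⊥ := by
  have hS := h.pg
  have h1 := fun P (hP : F.IsEssential p P) => h.ess hF (lr_of_ess hS hF hP) (by rintro rfl; exact hA hP)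
  obtain ⟨⟨P, hP, -, s, y, a, b, C, h2, -, t⟩, h3⟩ := center_le_of_zt hS hF hp2 (fun e => h.na (e.le.trans bot_le)) hc
    fun P hP => by
      obtain ⟨x, -, -, -, -, h | h⟩ := h1 P hP
      exacts [.inr h.2, .inl h.2]
  obtain ⟨x, hx, hx', -, h4, h5⟩ := h1 P hP
  refine ⟨⟨x, (essential_lt hS hF hP).le hx, hx', ?_⟩, h3, fun n hn h6 e => ?_⟩
  · rcases h5 with h5 | h5
    · exact h5.1 ▸ hP
    · have h6 := stab_map (h5.2 t.yA) ((h2 a t.aQ).1 t.xa)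
      rw [t.ya, mul_mem_cancel_left ((h2 a t.aQ).1 t.xa), inv_mem_iff] at h6
      exact (t.ne (left_eq_mul.1 (((h2 b t.bQ).2 h6).symm.trans t.xb))).elim
  obtain ⟨m, rfl⟩ : ∃ m, n = m + 3 := ⟨n - 3, by omega⟩
  rw [inf_eq_left.2 h3] at h4
  refine h.lcs_not_le (by rw [inf_eq_left.2 h3, h4]) (m := m) (relIndex_of_card inf_le_left (by rw [h4, hn]; ring))
    (le_inf (S.lowerCentralSeries_antitone (Nat.zero_le m)) (le_centralizer_iff.1 (Amb.commutator_eq_bot_iff'.1 e)))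

end AbI

end CA.Fus
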