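import Cfsg.Agent.Lib.Fus.FusSimp
import Cfsg.Agent.Lib.Lin.SL2Torus
import Cfsg.Agent.Lib.Grp.Two
import Cfsg.Agent.S0261

/-!
Sylow 2-subgroups of `SL₂(q)`, `q` odd, and the wreath subgroup `SL₂(q) ≀ 2` of `Sp₄(q)`.
-/

set_option autoImplicit false

namespace CA.FusSp

open Cfsg Subgroup Matrix CA.SL2Basic CA.SL2Torus CA.AmbSyl CA.Fus QuaternionGroup
open scoped MatrixGroups

variable {F : Type*} [Field F]

theorem tr_zero {u : SL(2, F)} (h : u * u = -1) : u.1.trace = 0 := by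
  have h1 : u.1 * u.1 = -1 := congrArg Subtype.val h
  have h2 := mul_self_eq u.1
  rw [h1, u.2, one_smul] at h2
  have h3 : u.1.trace • u.1 = 0 := by rw [eq_sub_iff_add_eq, neg_add_cancel] at h2; exact h2.symm
  have h4 := congrArg (fun X => (X * u.1) 0 0) h3
  simpa [h1] using h4

theorem conj4 [Finite F] (h2 : (2 : F) ≠ 0) {u v : SL(2, F)} (hu : u * u = -1) (hv : v * v = -1) :
    ∃ x, x * u * x⁻¹ = v :=
  isConj_iff.1 (SS.isConj (fun e => by
    rw [tr_zero hu] at e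
    exact mul_ne_zero h2 h2 (by linear_combination -e)) (by rw [tr_zero hu, tr_zero hv]))

theorem ne_neg (h2 : (2 : F) ≠ 0) (a : SL(2, F)) : a ≠ -a := fun e =>
  neg_one_ne_one h2 (by simpa using (congrArg (· * a⁻¹) e).symm)

theorem cent_ij (h2 : (2 : F) ≠ 0) {i j a : SL(2, F)} (hij : j * i = -(i * j)) (h1 : a * i = i * a)
    (h3 : a * j = j * a) : a = 1 ∨ a = -1 := by
  by_contra! h
  exact ne_neg h2 (i * j) ((C_comm ((NS_iff_ne a).2 h) (mem_C_iff.2 h1.symm) (mem_C_iff.2 h3.symm)).trans hij)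

theorem quat [Finite F] (h2 : (2 : F) ≠ 0) (Q : Sylow 2 SL(2, F)) : ∃ i ∈ (Q : Subgroup SL(2, F)),
    ∃ j ∈ (Q : Subgroup SL(2, F)), i * i = -1 ∧ j * j = -1 ∧ j * i = -(i * j) ∧
    (∀ c ∈ (Q : Subgroup SL(2, F)), c * c = -1 ∨ j * c * (j * c) = -1) ∧
    (normalizer (Q : Set SL(2, F)) ≤ Q ∨ (∀ c ∈ (Q : Subgroup SL(2, F)), c = 1 ∨ c = -1 ∨ c = i ∨ c = -i ∨ c = j ∨
      c = -j ∨ c = i * j ∨ c = -(i * j)) ∧
      ∀ b ∈ normalizer (Q : Set SL(2, F)), b * i * b⁻¹ = i ∨ b * i * b⁻¹ = -i → b ∈ (Q : Subgroup SL(2, F))) := by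
  have := Fintype.ofFinite F
  obtain ⟨k, hk, ⟨e⟩⟩ := Cfsg.Agent.S0261.result (Nat.card_eq_fintype_card (α := F) ▸ odd_card_of_two_ne_zero h2) Q
  obtain ⟨k, rfl⟩ : ∃ l, k = l + 1 := ⟨k - 1, by omega⟩
  let φ : QuaternionGroup (2 ^ (k + 1)) →* SL(2, F) := (Q : Subgroup SL(2, F)).subtype.comp e.symm.toMonoidHom
  have hφ : Function.Injective φ := (subtype_injective _).comp e.symm.injective
  have hm : ∀ c, φ c ∈ (Q : Subgroup SL(2, F)) := fun c => (e.symm c).2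
  have hs : ∀ c ∈ (Q : Subgroup SL(2, F)), ∃ d, φ d = c := fun c hc => ⟨e ⟨c, hc⟩, by simp [φ]⟩
  have hn : φ (a (2 ^ (k + 1) : ℕ)) = -1 := by
    refine eq_neg_one_of_orderOf h2 _ ?_
    rw [orderOf_injective _ hφ, ← xa_sq 0, orderOf_pow' _ two_ne_zero, orderOf_xa]; rfl
  have hx : ∀ t, φ (xa t) * φ (xa t) = -1 := fun t => by rw [← sq, ← map_pow, xa_sq, hn]
  have e2 : ((2 ^ (k + 1) : ℕ) : ZMod (2 * 2 ^ (k + 1))) = 2 ^ k + 2 ^ k := by push_cast; ring
  have hij : φ (xa 0) * φ (a (2 ^ k)) = -(φ (a (2 ^ k)) * φ (xa 0)) := by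
    rw [← mul_neg_one, ← hn, ← map_mul, ← map_mul, ← map_mul, xa_mul_a, a_mul_xa, xa_mul_a, e2]; congr 2; ring
  have ha : ∀ t, φ (a t) ∈ zpowers (φ (a 1)) := fun t =>
    mem_zpowers_iff.2 ⟨(t.val : ℕ), by rw [zpow_natCast, ← map_pow, a_one_pow, ZMod.natCast_zmod_val]⟩
  have hi : ∀ s ∈ (Q : Subgroup SL(2, F)), ∀ t ∈ (Q : Subgroup SL(2, F)), s ∉ zpowers (φ (a 1)) →
      t ∉ zpowers (φ (a 1)) → s * t ∈ zpowers (φ (a 1)) := fun s h1 t h3 h4 h5 => by
    obtain ⟨s | s, rfl⟩ := hs s h1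
    · exact (h4 (ha s)).elim
    obtain ⟨t | t, rfl⟩ := hs t h3
    · exact (h5 (ha t)).elim
    · rw [← map_mul]; exact ha _
  have ho : φ (a 1) ^ 2 ^ (k + 2) = 1 := by rw [← map_pow, pow_succ' 2 (k + 1), a_one_pow_n, map_one]
  have L : ∀ b ∈ normalizer (Q : Set SL(2, F)), b * φ (a 1) * b⁻¹ ∈ zpowers (φ (a 1)) →
      b ∈ (Q : Subgroup SL(2, F)) := fun b hb h => by
    obtain ⟨u, v, hu, hv, rfl, ⟨l, hl⟩, hc⟩ := exists_p_part' (p := 2) hb
    have h1 : u ∈ (Q : Subgroup SL(2, F)) := (sylIn_top Q).le_of_norm' (isPGroup_zpowers hl) le_top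
      (zpowers_le.2 (zpowers_le.2 hb hu)) (mem_zpowers _)
    have h3 : v * φ (a 1) * v⁻¹ ∈ zpowers (φ (a 1)) := by
      have e : v * φ (a 1) * v⁻¹ = u⁻¹ * (u * v * φ (a 1) * (u * v)⁻¹) * u := by group
      rw [e]
      by_cases h4 : u ∈ zpowers (φ (a 1))
      · exact mul_mem (mul_mem (inv_mem h4) h) h4
      · exact hi _ (mul_mem (inv_mem h1) (zpowers_le.2 (hm _) h)) _ h1
          (fun h5 => h4 (inv_mem_iff.1 ((mul_mem_cancel_right h).1 h5))) h4
    have h4 := CA.Two.cent_of_two (isPGroup_zpowers ho) hi hc (zpowers_le.2 hb hv) (by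
      rintro _ ⟨t, rfl⟩
      exact (Commute.zpow_left (mul_inv_eq_iff_eq_mul.1 (CA.Two.conj_eq_of_conj_mem ho h3 hc)).symm t).eq)
    refine mul_mem h1 ?_
    rcases cent_ij h2 hij (h4 _ (hm _)).symm (h4 _ (hm _)).symm with rfl | rfl
    exacts [one_mem _, hn ▸ hm _]
  refine ⟨_, hm (a (2 ^ k)), _, hm (xa 0), by rw [← map_mul, a_mul_a, ← e2, hn], hx 0, hij, fun c hc => ?_, ?_⟩
  · obtain ⟨c | c, rfl⟩ := hs c hc
    · exact Or.inr (by rw [← map_mul]; exact hx _)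
    · exact Or.inl (hx c)
  rcases k with _ | k
  · refine Or.inr ⟨fun c hc => ?_, fun b hb h => L b hb ?_⟩
    · obtain ⟨c, rfl⟩ := hs c hc
      have key : ∀ c : QuaternionGroup (2 ^ (0 + 1)), let n := a (2 ^ (0 + 1) : ℕ); let i := a (2 ^ 0); let j := xa 0
          c = 1 ∨ c = n ∨ c = i ∨ c = i * n ∨ c = j ∨ c = j * n ∨ c = i * j ∨ c = i * j * n := by decide
      simpa only [← hφ.eq_iff, map_mul, hn, mul_neg_one, map_one] using key c
    · rcases h with h | h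
      · rw [show b * φ (a 1) * b⁻¹ = _ from h]; exact ha _
      · rw [show b * φ (a 1) * b⁻¹ = _ from h, ← mul_neg_one, ← hn, ← map_mul]; exact ha _
  · refine Or.inl fun b hb => L b hb ?_
    obtain ⟨c | c, hc⟩ := hs _ ((mem_normalizer_iff.1 hb _).1 (hm (a 1)))
    · exact hc ▸ ha c
    have h3 : φ (a 1) ^ 4 = 1 := by
      have := congrArg (· ^ 4) hc
      simp only [← map_pow, xa_pow_four, map_one, conj_pow] at this
      rw [← map_pow]
      exact conj_eq_one_iff.1 this.symm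
    have h4 := Nat.le_of_dvd (by norm_num) (orderOf_dvd_of_pow_eq_one h3)
    rw [orderOf_injective _ hφ, orderOf_a_one, pow_succ, pow_succ] at h4
    have := Nat.one_le_two_pow (n := k)
    omega

theorem sgn_ij (h2 : (2 : F) ≠ 0) {i j a : SL(2, F)} (hi : i * i = -1) (hij : j * i = -(i * j))
    {U : Subgroup SL(2, F)} (hi' : i ∈ U) (hj : j ∈ U) (h1 : a * i = i * a ∨ a * i = -(i * a))
    (h3 : a * j = j * a ∨ a * j = -(j * a)) : a ∈ U := by
  have key : ∀ c ∈ U, c * a * i = i * (c * a) → c * a * j = j * (c * a) → a ∈ U := fun c hc e1 e2 => by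
    refine (mul_mem_cancel_left hc).1 ?_
    rcases cent_ij h2 hij e1 e2 with e | e <;> rw [e]
    exacts [one_mem _, hi ▸ mul_mem hi' hi']
  have hij' : ∀ x, j * (i * x) = -(i * (j * x)) := fun x => by rw [← mul_assoc, hij, neg_mul, mul_assoc]
  rcases h1 with h1 | h1 <;> rcases h3 with h3 | h3
  · exact key 1 (one_mem _) (by simpa using h1) (by simpa using h3)
  · exact key i hi' (by rw [mul_assoc, h1]) (by rw [mul_assoc, h3, hij', mul_neg])
  · exact key j hj (by rw [mul_assoc, h1, mul_neg, hij', neg_neg]) (by rw [mul_assoc, h3])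
  · exact key (i * j) (mul_mem hi' hj) (by simp only [mul_assoc, h1, mul_neg, hij', neg_neg])
      (by simp only [mul_assoc, h3, mul_neg, hij'])

/-- The block-diagonal matrix on two orthogonal hyperbolic planes. -/
def I (A B : Matrix (Fin 2) (Fin 2) F) : Matrix (Fin 2 ⊕ Fin 2) (Fin 2 ⊕ Fin 2) F :=
  fromBlocks !![A 0 0, 0; 0, B 0 0] !![A 0 1, 0; 0, B 0 1] !![A 1 0, 0; 0, B 1 0] !![A 1 1, 0; 0, B 1 1]

/-- The matrix swapping the two planes. -/
def T (F : Type*) [Field F] : Matrix (Fin 2 ⊕ Fin 2) (Fin 2 ⊕ Fin 2) F := fromBlocks !![0, 1; 1, 0] 0 0 !![0, 1; 1, 0]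

variable {A B C D : Matrix (Fin 2) (Fin 2) F}

theorem I_mul : I A B * I C D = I (A * C) (B * D) := by
  ext (i | i) (j | j) <;> fin_cases i <;> fin_cases j <;> simp [I, mul_apply, Fin.sum_univ_two]

theorem I_tr : (I A B)ᵀ = I Aᵀ Bᵀ := by
  ext (i | i) (j | j) <;> fin_cases i <;> fin_cases j <;> simp [I]

theorem I_one : I (1 : Matrix (Fin 2) (Fin 2) F) 1 = 1 := by
  ext (i | i) (j | j) <;> fin_cases i <;> fin_cases j <;> simp [I]

theorem I_add : I (A + C) (B + D) = I A B + I C D := by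
  ext (i | i) (j | j) <;> fin_cases i <;> fin_cases j <;> simp [I]

theorem I_neg : I (-A) (-B) = -I A B := by
  ext (i | i) (j | j) <;> fin_cases i <;> fin_cases j <;> simp [I]

theorem I_inj (h : I A B = I C D) : A = C ∧ B = D :=
  ⟨ext4 (congrFun₂ h (.inl 0) (.inl 0)) (congrFun₂ h (.inl 0) (.inr 0)) (congrFun₂ h (.inr 0) (.inl 0))
    (congrFun₂ h (.inr 0) (.inr 0)), ext4 (congrFun₂ h (.inl 1) (.inl 1)) (congrFun₂ h (.inl 1) (.inr 1))
    (congrFun₂ h (.inr 1) (.inl 1)) (congrFun₂ h (.inr 1) (.inr 1))⟩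

theorem J_eq : J (Fin 2) F = I !![0, -1; 1, 0] !![0, -1; 1, 0] := by
  ext (i | i) (j | j) <;> fin_cases i <;> fin_cases j <;> simp [I, J]

theorem T_I : T F * I A B = I B A * T F := by
  ext (i | i) (j | j) <;> fin_cases i <;> fin_cases j <;> simp [I, T, mul_apply, Fin.sum_univ_two]

theorem T_T : T F * T F = 1 := by
  ext (i | i) (j | j) <;> fin_cases i <;> fin_cases j <;> simp [T, mul_apply, Fin.sum_univ_two]

theorem T_tr : (T F)ᵀ = T F := by
  ext (i | i) (j | j) <;> fin_cases i <;> fin_cases j <;> simp [T]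

theorem j0 (A : Matrix (Fin 2) (Fin 2) F) : A * !![0, -1; 1, 0] * Aᵀ = A.det • !![0, -1; 1, 0] := by
  ext i j; fin_cases i <;> fin_cases j <;> simp [mul_apply, Fin.sum_univ_two, det_fin_two] <;> ring

theorem I_mem : I A B ∈ symplecticGroup (Fin 2) F ↔ A.det = 1 ∧ B.det = 1 := by
  rw [SymplecticGroup.mem_iff, J_eq, I_tr, I_mul, I_mul, j0, j0]
  refine ⟨fun h => ⟨?_, ?_⟩, fun h => by rw [h.1, h.2, one_smul]⟩
  · simpa using congrFun₂ (I_inj h).1 1 0
  · simpa using congrFun₂ (I_inj h).2 1 0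

theorem eq_I (h2 : (2 : F) ≠ 0) {g : Matrix (Fin 2 ⊕ Fin 2) (Fin 2 ⊕ Fin 2) F} (h : g * I 1 (-1) = I 1 (-1) * g) :
    ∃ A B, g = I A B := by
  have e : I (1 : Matrix (Fin 2) (Fin 2) F) (-1) = diagonal (Sum.elim ![1, -1] ![1, -1]) := by
    ext (i | i) (j | j) <;> fin_cases i <;> fin_cases j <;> simp [I]
  have z : ∀ x : F, x = -x ↔ x = 0 := fun x => ⟨fun e => (mul_eq_zero.1 (by linear_combination e : 2 * x = 0)).resolve_left h2,
    fun e => by rw [e, neg_zero]⟩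
  refine ⟨!![g (.inl 0) (.inl 0), g (.inl 0) (.inr 0); g (.inr 0) (.inl 0), g (.inr 0) (.inr 0)],
    !![g (.inl 1) (.inl 1), g (.inl 1) (.inr 1); g (.inr 1) (.inl 1), g (.inr 1) (.inr 1)], ?_⟩
  have z' : ∀ x : F, -x = x ↔ x = 0 := fun x => eq_comm.trans (z x)
  rw [e] at h
  ext i j
  have := congrFun₂ h i j
  rw [mul_diagonal, diagonal_mul] at this
  rcases i with i | i <;> rcases j with j | j <;> fin_cases i <;> fin_cases j <;>
    first | rfl | simpa [I, z, z'] using this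

/-- `SL₂ × SL₂` inside `Sp₄`. -/
def io (F : Type*) [Field F] : SL(2, F) × SL(2, F) →* symplecticGroup (Fin 2) F where
  toFun x := ⟨I x.1.1 x.2.1, I_mem.2 ⟨x.1.2, x.2.2⟩⟩
  map_one' := Subtype.ext I_one
  map_mul' _ _ := Subtype.ext I_mul.symm

/-- The swap in `Sp₄`. -/
def ta (F : Type*) [Field F] : symplecticGroup (Fin 2) F :=
  ⟨T F, by rw [SymplecticGroup.mem_iff, J_eq, T_I, T_tr, mul_assoc, T_T, mul_one]⟩

variable {a b c d u v : SL(2, F)} {g : symplecticGroup (Fin 2) F}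

theorem io_inj : Function.Injective (io F) := fun _ _ h =>
  Prod.ext (Subtype.ext (I_inj (congrArg Subtype.val h)).1) (Subtype.ext (I_inj (congrArg Subtype.val h)).2)

theorem io_mul : io F (a, b) * io F (c, d) = io F (a * c, b * d) := (map_mul _ _ _).symm

theorem io_inv : (io F (a, b))⁻¹ = io F (a⁻¹, b⁻¹) := (map_inv _ _).symm

theorem ta_io : ta F * io F (a, b) = io F (b, a) * ta F := Subtype.ext T_I

theorem ta_io' : ta F * (io F (a, b) * g) = io F (b, a) * (ta F * g) := by rw [← mul_assoc, ta_io, mul_assoc]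

theorem io_mul' : io F (a, b) * (io F (c, d) * g) = io F (a * c, b * d) * g := by rw [← mul_assoc, io_mul]

theorem ta_ta : ta F * ta F = 1 := Subtype.ext T_T

theorem ta_inv : (ta F)⁻¹ = ta F := inv_eq_of_mul_eq_one_right ta_ta

theorem m1_coe : (io F (-1, -1)).1 = -1 := (I_neg (A := 1) (B := 1)).trans (congrArg _ I_one)

theorem m1_comm (g : symplecticGroup (Fin 2) F) : g * io F (-1, -1) = io F (-1, -1) * g :=
  Subtype.ext (by rw [Submonoid.coe_mul, Submonoid.coe_mul, m1_coe, mul_neg_one, neg_one_mul])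

theorem eq_io (h2 : (2 : F) ≠ 0) (h : g * io F (1, -1) = io F (1, -1) * g) : ∃ a b, g = io F (a, b) := by
  obtain ⟨A, B, e⟩ := eq_I h2 (congrArg Subtype.val h)
  have := I_mem.1 (e ▸ g.2)
  exact ⟨⟨A, this.1⟩, ⟨B, this.2⟩, Subtype.ext e⟩

theorem io_ne (h2 : (2 : F) ≠ 0) : io F (a, b) ≠ io F (c, d) * ta F := fun h => by
  have e : ta F = io F (c⁻¹ * a, d⁻¹ * b) := by rw [← io_mul, h, ← io_inv, inv_mul_cancel_left]
  have := ta_io (F := F) (a := 1) (b := -1)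
  rw [e, io_mul, io_mul] at this
  exact ne_neg h2 _ (by simpa using congrArg Prod.fst (io_inj this))

theorem H_I : (I 1 (-1) + T F) * I A A = I A A * (I 1 (-1) + T F) := by
  rw [add_mul, mul_add, T_I, I_mul, I_mul, one_mul, mul_one, neg_one_mul, mul_neg_one]

theorem H_H : (I 1 (-1) + T F) * (I 1 (-1) + T F) = I ((2 : F) • 1) ((2 : F) • 1) := by
  have : I (-1 : Matrix (Fin 2) (Fin 2) F) 1 = -I 1 (-1) := by rw [← I_neg, neg_neg]
  rw [add_mul, mul_add, mul_add, T_I, T_T, I_mul, two_smul, I_add, one_mul, neg_mul_neg, one_mul, I_one, this, neg_mul]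
  abel

theorem det_one_add (hu : u * u = -1) : (1 + u.1).det = 2 := by
  have h1 := tr_zero hu
  have h3 := det_eq u
  rw [trace_fin_two] at h1
  simp [det_fin_two]
  linear_combination h1 + h3

/-- An element of `Sp₄` conjugating `diag(1, -1)` to the swap. -/
def ga (h2 : (2 : F) ≠ 0) (hu : u * u = -1) : symplecticGroup (Fin 2) F :=
  ⟨I ((2 : F)⁻¹ • (1 + u.1)) ((2 : F)⁻¹ • (1 + u.1)) * (I 1 (-1) + T F), by
    rw [SymplecticGroup.mem_iff, J_eq, transpose_mul, transpose_add, T_tr, I_tr, I_tr, transpose_one, transpose_neg,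
      transpose_one, mul_assoc _ (_ + _), H_I, mul_assoc, mul_assoc, ← mul_assoc (_ + _), H_H, I_mul, I_mul, I_mul,
      smul_one_mul, mul_smul_comm, mul_smul_comm, ← mul_assoc, j0, det_smul, det_one_add hu, smul_smul]
    simp [sq, h2]⟩

theorem ga_z (h2 : (2 : F) ≠ 0) (hu : u * u = -1) : ga h2 hu * io F (1, -1) = ta F * ga h2 hu := Subtype.ext (by
  change I _ _ * _ * I 1 (-1) = T F * (I _ _ * _)
  rw [← mul_assoc, T_I, mul_assoc, mul_assoc, add_mul, mul_add (T F), T_T, I_mul, one_mul, neg_mul_neg, one_mul, I_one,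
    add_comm (T F * _)])

theorem ga_t (h2 : (2 : F) ≠ 0) (hu : u * u = -1) : ga h2 hu * ta F = io F (1, -1) * ga h2 hu := Subtype.ext (by
  change I _ _ * _ * T F = I 1 (-1) * (I _ _ * _)
  rw [← H_I, mul_assoc, ← T_I, ← mul_assoc, ← mul_assoc, add_mul _ (T F), mul_add, T_T, I_mul, one_mul, neg_mul_neg,
    one_mul, I_one, add_comm])

theorem ga_io (h2 : (2 : F) ≠ 0) (hu : u * u = -1) (h : (1 + u.1) * c.1 = d.1 * (1 + u.1)) :
    ga h2 hu * io F (c, c) = io F (d, d) * ga h2 hu := Subtype.ext (by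
  change I _ _ * _ * I c.1 c.1 = I d.1 d.1 * (I _ _ * _)
  rw [mul_assoc, H_I, ← mul_assoc, ← mul_assoc, I_mul, I_mul, smul_mul_assoc, mul_smul_comm, h])

theorem ga_ga (h2 : (2 : F) ≠ 0) (hu : u * u = -1) (hv : v * v = -1)
    (h : c.1 = (2 : F)⁻¹ • ((1 + u.1) * (1 + v.1))) : ga h2 hu * ga h2 hv = io F (c, c) := Subtype.ext (by
  change I _ _ * _ * (I _ _ * _) = I c.1 c.1
  rw [mul_assoc, ← mul_assoc (_ + _), H_I, mul_assoc, H_H, I_mul, I_mul, h, mul_smul_comm, mul_one, smul_smul,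
    mul_inv_cancel₀ h2, one_smul, smul_mul_assoc])

end CA.FusSp
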