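import Cfsg.Agent.Lib.Fus.FusSp1

/-!
The 2-fusion system of `PSp₄(q)`, `q` odd, is simple.
-/

set_option autoImplicit false

namespace CA.FusSp

open Cfsg Subgroup Matrix CA.SL2Basic CA.SL2Torus CA.AmbSyl CA.Fus
open Cfsg.FusionSystem (normalizerIn)
open scoped MatrixGroups commutatorElement

variable {F : Type*} [Field F] {a b c d i j : SL(2, F)} {g g' : symplecticGroup (Fin 2) F} {Q : Subgroup SL(2, F)}

/-- The projection `Sp₄ → PSp₄`. -/
abbrev pr (F : Type*) [Field F] : symplecticGroup (Fin 2) F →* PSp 2 F := QuotientGroup.mk' _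

theorem pr_m1 : pr F (io F (-1, -1)) = 1 := (QuotientGroup.eq_one_iff _).2 (Subgroup.mem_center_iff.2 m1_comm)

theorem pr_eq_one (h2 : (2 : F) ≠ 0) (h : pr F g = 1) : g = 1 ∨ g = io F (-1, -1) := by
  have h1 := Subgroup.mem_center_iff.1 ((QuotientGroup.eq_one_iff _).1 h)
  obtain ⟨a, b, rfl⟩ := eq_io h2 (h1 _).symm
  obtain rfl : b = a := congrArg Prod.fst (io_inj (mul_right_cancel (ta_io.symm.trans (h1 _))))
  rcases (SL2Basic.mem_center_iff b).1 (Subgroup.mem_center_iff.2 fun c =>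
    congrArg Prod.fst (io_inj (io_mul.symm.trans ((h1 (io F (c, 1))).trans io_mul)))) with rfl | rfl
  exacts [Or.inl (map_one _), Or.inr rfl]

theorem pr_eq (h2 : (2 : F) ≠ 0) (h : pr F g = pr F g') : g = g' ∨ g = g' * io F (-1, -1) :=
  (pr_eq_one h2 (g := g'⁻¹ * g) (by rw [map_mul, map_inv, h, inv_mul_cancel])).imp
    (fun e => (inv_mul_eq_one.1 e).symm) inv_mul_eq_iff_eq_mul.1

theorem pr_io (h2 : (2 : F) ≠ 0) (h : pr F (io F (a, b)) = pr F (io F (c, d))) : a = c ∧ b = d ∨ a = -c ∧ b = -d :=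
  (pr_eq h2 h).imp (fun e => Prod.ext_iff.1 (io_inj e)) fun e => by
    simpa using Prod.ext_iff.1 (io_inj (e.trans io_mul))

theorem pr_io' (h2 : (2 : F) ≠ 0) (h : pr F (io F (a, b) * g) = pr F (io F (c, d) * g)) :
    a = c ∧ b = d ∨ a = -c ∧ b = -d :=
  pr_io h2 (mul_right_cancel ((map_mul _ _ _).symm.trans (h.trans (map_mul _ _ _))))

theorem centz (h2 : (2 : F) ≠ 0) (h : pr F g * pr F (io F (1, -1)) = pr F (io F (1, -1)) * pr F g) :
    ∃ a b, g = io F (a, b) ∨ g = io F (a, b) * ta F := by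
  rcases pr_eq h2 ((map_mul _ _ _).trans (h.trans (map_mul _ _ _).symm)) with e | e
  · obtain ⟨a, b, e⟩ := eq_io h2 e
    exact ⟨a, b, Or.inl e⟩
  · obtain ⟨a, b, e⟩ := eq_io h2 (g := g * ta F) (by
      have : io F (-1, 1) = io F (1, -1) * io F (-1, -1) := by rw [io_mul]; simp
      rw [mul_assoc, ta_io, this, ← mul_assoc, ← mul_assoc, e, mul_assoc _ (io F (-1, -1)),
        mul_assoc _ (io F (-1, -1)), io_mul', neg_mul_neg, one_mul, show io F (1, 1) = 1 from map_one _, one_mul, mul_assoc])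
    exact ⟨a, b, Or.inr (by rw [← e, mul_assoc, ta_ta, mul_one])⟩

theorem centR (h2 : (2 : F) ≠ 0) (hi : i * i = -1) (hij : j * i = -(i * j))
    (h : ∀ x ∈ [(i, 1), (j, 1), (1, i), (1, j)], pr F g * pr F (io F x) = pr F (io F x) * pr F g) :
    pr F g = 1 ∨ pr F g = pr F (io F (1, -1)) := by
  have h1 := h (i, 1) (by simp)
  have h3 := h (j, 1) (by simp)
  have h4 := h (1, i) (by simp)
  have h5 := h (1, j) (by simp)
  obtain ⟨a, b, rfl | rfl⟩ := centz h2 (g := g) (by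
    have : io F (1, -1) = io F (1, i) * io F (1, i) := by rw [io_mul, hi, one_mul]
    rw [this, map_mul, ← mul_assoc, h4, mul_assoc, h4, mul_assoc])
  · simp only [← map_mul, Prod.mk_mul_mk, one_mul, mul_one] at h1 h3 h4 h5
    have e : pr F (io F (-1, 1)) = pr F (io F (1, -1)) := by
      rw [← mul_one (pr F (io F (1, -1))), ← pr_m1, ← map_mul, io_mul]; simp
    rcases cent_ij h2 hij ((pr_io h2 h1).resolve_right fun e => ne_neg h2 b e.2).1
      ((pr_io h2 h3).resolve_right fun e => ne_neg h2 b e.2).1 with rfl | rfl <;>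
    rcases cent_ij h2 hij ((pr_io h2 h4).resolve_right fun e => ne_neg h2 _ e.1).2
      ((pr_io h2 h5).resolve_right fun e => ne_neg h2 _ e.1).2 with rfl | rfl
    exacts [Or.inl (map_one ((pr F).comp (io F))), Or.inr rfl, Or.inr e, Or.inl pr_m1]
  · rw [← map_mul, ← map_mul, mul_assoc, ta_io, io_mul', io_mul', mul_one] at h1
    have : i = 1 ∨ i = -1 := (pr_io' h2 h1).imp (fun e => by simpa using e.1.symm) fun e => by
      have := e.1
      rw [← neg_mul, eq_comm, mul_eq_right, neg_eq_iff_eq_neg] at this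
      exact this
    rcases this with rfl | rfl <;> exact (ne_neg h2 1 (by simpa using hi)).elim

/-- The wreath product `Q ≀ 2` inside `Sp₄`. -/
def W (Q : Subgroup SL(2, F)) : Subgroup (symplecticGroup (Fin 2) F) where
  carrier := {g | ∃ a ∈ Q, ∃ b ∈ Q, g = io F (a, b) ∨ g = io F (a, b) * ta F}
  one_mem' := ⟨1, one_mem Q, 1, one_mem Q, Or.inl (map_one _).symm⟩
  mul_mem' := by
    rintro _ _ ⟨a, ha, b, hb, rfl | rfl⟩ ⟨c, hc, d, hd, rfl | rfl⟩
    · exact ⟨_, mul_mem ha hc, _, mul_mem hb hd, Or.inl io_mul⟩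
    · exact ⟨_, mul_mem ha hc, _, mul_mem hb hd, Or.inr io_mul'⟩
    · exact ⟨_, mul_mem ha hd, _, mul_mem hb hc, Or.inr (by rw [mul_assoc, ta_io, io_mul'])⟩
    · exact ⟨_, mul_mem ha hd, _, mul_mem hb hc, Or.inl (by rw [mul_assoc, ta_io', ta_ta, mul_one, io_mul])⟩
  inv_mem' := by
    rintro _ ⟨a, ha, b, hb, rfl | rfl⟩
    · exact ⟨_, inv_mem ha, _, inv_mem hb, Or.inl io_inv⟩
    · exact ⟨_, inv_mem hb, _, inv_mem ha, Or.inr (by rw [_root_.mul_inv_rev, ta_inv, io_inv, ta_io])⟩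

theorem io_W (ha : a ∈ Q) (hb : b ∈ Q) : io F (a, b) ∈ W Q := ⟨a, ha, b, hb, Or.inl rfl⟩

theorem ta_W : ta F ∈ W Q := ⟨1, one_mem Q, 1, one_mem Q, Or.inr (by rw [show io F (1, 1) = 1 from map_one _, one_mul])⟩

theorem W_pg (hQ : IsPGroup 2 Q) : IsPGroup 2 (W Q) := by
  have key : ∀ a ∈ Q, ∀ b ∈ Q, ∃ k : ℕ, io F (a, b) ^ 2 ^ k = 1 := fun a ha b hb => by
    obtain ⟨k, hk⟩ := isPGroup_iff_mem.1 hQ a ha
    obtain ⟨l, hl⟩ := isPGroup_iff_mem.1 hQ b hb
    refine ⟨k + l, ?_⟩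
    rw [← map_pow, Prod.pow_mk, pow_add, pow_mul, hk, mul_comm, pow_mul b, hl, one_pow, one_pow]
    exact map_one _
  refine isPGroup_iff_mem.2 ?_
  rintro _ ⟨a, ha, b, hb, rfl | rfl⟩
  · exact key a ha b hb
  · obtain ⟨k, hk⟩ := key _ (mul_mem ha hb) _ (mul_mem hb ha)
    exact ⟨k + 1, by rw [pow_succ', pow_mul, sq, mul_assoc, ta_io', ta_ta, mul_one, io_mul, hk]⟩

theorem pr_W (h2 : (2 : F) ≠ 0) (hQ : -1 ∈ Q) (h : pr F (io F (a, b)) ∈ (W Q).map (pr F)) : a ∈ Q ∧ b ∈ Q := by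
  obtain ⟨g, hg, e⟩ := h
  have : io F (a, b) ∈ W Q := by
    rcases pr_eq h2 e.symm with e | e <;> rw [e]
    exacts [hg, mul_mem hg (io_W hQ hQ)]
  obtain ⟨c, hc, d, hd, e | e⟩ := this
  · obtain ⟨rfl, rfl⟩ := Prod.ext_iff.1 (io_inj e)
    exact ⟨hc, hd⟩
  · exact (io_ne h2 e).elim

theorem z_cent {x : PSp 2 F} (hx : x ∈ (W Q).map (pr F)) : x * pr F (io F (1, -1)) = pr F (io F (1, -1)) * x := by
  obtain ⟨_, ⟨a, -, b, -, rfl | rfl⟩, rfl⟩ := hx <;> rw [← map_mul (pr F), ← map_mul (pr F)]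
  · rw [io_mul, io_mul]; simp
  · rw [mul_assoc, ta_io, io_mul', io_mul', ← one_mul (pr F (io F (1 * a, _) * _)), ← pr_m1, ← map_mul, io_mul']; simp

theorem eq_z (h2 : (2 : F) ≠ 0) (hi : i * i = -1) (hij : j * i = -(i * j)) (hi' : i ∈ Q) (hj : j ∈ Q) {x : PSp 2 F}
    (h1 : x ≠ 1) (h : ∀ y ∈ (W Q).map (pr F), x * y = y * x) : x = pr F (io F (1, -1)) := by
  obtain ⟨g, rfl⟩ := QuotientGroup.mk'_surjective _ x
  refine (centR h2 hi hij fun x hx => h _ (mem_map_of_mem _ ?_)).resolve_left h1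
  simp only [List.mem_cons, List.not_mem_nil, or_false] at hx
  rcases hx with rfl | rfl | rfl | rfl
  exacts [io_W hi' (one_mem _), io_W hj (one_mem _), io_W (one_mem _) hi', io_W (one_mem _) hj]

variable [Finite F]

theorem io_norm (ha : a ∈ normalizer (Q : Set SL(2, F))) :
    pr F (io F (a, a)) ∈ normalizer (((W Q).map (pr F) : Subgroup (PSp 2 F)) : Set (PSp 2 F)) := by
  refine mem_normalizer_fintype ?_
  rintro _ ⟨_, ⟨c, hc, d, hd, rfl | rfl⟩, rfl⟩ <;> rw [← map_inv, ← map_mul, ← map_mul, io_inv] <;>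
    refine mem_map_of_mem _ ⟨_, conj_mem_of_norm ha hc, _, conj_mem_of_norm ha hd, ?_⟩
  · exact Or.inl (by rw [io_mul, io_mul])
  · exact Or.inr (by rw [io_mul', mul_assoc, ta_io, io_mul'])

theorem norm_W (h2 : (2 : F) ≠ 0) (hi : i * i = -1) (hij : j * i = -(i * j)) (hi' : i ∈ Q) (hj : j ∈ Q) {x : PSp 2 F}
    (hx : x ∈ normalizer (((W Q).map (pr F) : Subgroup (PSp 2 F)) : Set (PSp 2 F))) :
    ∃ a ∈ normalizer (Q : Set SL(2, F)), ∃ s ∈ (W Q).map (pr F), x = pr F (io F (a, a)) * s := by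
  have hQ : -1 ∈ Q := hi ▸ mul_mem hi' hi'
  have hz : x * pr F (io F (1, -1)) * x⁻¹ = pr F (io F (1, -1)) := eq_z h2 hi hij hi' hj (fun e => by
    rcases pr_io h2 ((conj_eq_one_iff.1 e).trans (map_one ((pr F).comp (io F))).symm) with e | e
    exacts [neg_one_ne_one h2 e.2, neg_one_ne_one h2 e.1.symm]) fun y hy => by
    have := z_cent (conj_mem_of_norm (inv_mem hx) hy)
    calc _ = x * (pr F (io F (1, -1)) * (x⁻¹ * y * x⁻¹⁻¹)) * x⁻¹ := by group
      _ = _ := by rw [← this]; group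
  obtain ⟨g, rfl⟩ := QuotientGroup.mk'_surjective _ x
  obtain ⟨a, b, s, hs, rfl⟩ : ∃ a b, ∃ s ∈ W Q, g = io F (a, b) * s := by
    obtain ⟨a, b, e | e⟩ := centz h2 (mul_inv_eq_iff_eq_mul.1 hz)
    exacts [⟨a, b, 1, one_mem _, by rw [e, mul_one]⟩, ⟨a, b, _, ta_W, e⟩]
  rw [map_mul] at hx
  replace hx := (mul_mem_cancel_right (le_normalizer (mem_map_of_mem _ hs))).1 hx
  have ha : a ∈ normalizer (Q : Set SL(2, F)) := mem_normalizer_fintype fun c hc => by
    have := conj_mem_of_norm hx (mem_map_of_mem _ (io_W hc (one_mem Q)))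
    rw [← map_inv, ← map_mul, ← map_mul, io_inv, io_mul, io_mul] at this
    exact (pr_W h2 hQ this).1
  have hb := mul_mem (conj_mem_of_norm hx (mem_map_of_mem _ ta_W)) (mem_map_of_mem (pr F) ta_W)
  rw [← map_inv, ← map_mul, ← map_mul, ← map_mul, io_inv, mul_assoc, mul_assoc, ta_io', ta_ta, mul_one, io_mul] at hb
  refine ⟨a, ha, _, mem_map_of_mem _ (mul_mem (io_W (one_mem Q) (conj_mem_of_norm (inv_mem ha) (pr_W h2 hQ hb).2)) hs), ?_⟩
  rw [← map_mul, io_mul']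
  simp [mul_assoc]

theorem syl_W (h2 : (2 : F) ≠ 0) (hi : i * i = -1) (hij : j * i = -(i * j)) (hi' : i ∈ Q) (hj : j ∈ Q)
    (hQ : SylIn 2 Q ⊤) : SylIn 2 ((W Q).map (pr F)) ⊤ := by
  refine sylIn_of_normalizer ⟨le_inf le_top le_normalizer, (W_pg hQ.pg).map _, fun P hP h1 h3 => le_antisymm ?_ h1⟩
  intro x hx
  obtain ⟨a, ha, s, hs, rfl⟩ := norm_W h2 hi hij hi' hj (h3 hx).2
  obtain ⟨k, hk⟩ := isPGroup_iff_mem.1 hP _ ((mul_mem_cancel_right (h1 hs)).1 hx)
  rw [← map_pow, ← map_pow, Prod.pow_mk] at hk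
  have h4 : a ^ 2 ^ (k + 1) = 1 := by
    rcases pr_io h2 (hk.trans (map_one ((pr F).comp (io F))).symm) with e | e <;> simp [pow_succ, pow_mul, e.1]
  have h5 := hQ.le_of_norm' (isPGroup_zpowers h4) le_top (zpowers_le.2 ha) (mem_zpowers a)
  exact mul_mem (mem_map_of_mem _ (io_W h5 h5)) hs

theorem pcl_W (h2 : (2 : F) ≠ 0) (hi : i * i = -1) (hj2 : j * j = -1) (hij : j * i = -(i * j)) (hi' : i ∈ Q)
    (hj : j ∈ Q) (hQ : SylIn 2 Q ⊤) (hg : ∀ c ∈ Q, c * c = -1 ∨ j * c * (j * c) = -1) (D : Set (PSp 2 F))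
    (h : PCl 2 ⊤ D) (h1 : ∃ x ∈ D, x ≠ 1) : ∀ x ∈ (W Q).map (pr F), x ∈ D := by
  have hS := syl_W h2 hi hij hi' hj hQ
  let N := h.sub hS.pg le_top
  have hN : (W Q).map (pr F) ≤ normalizer (N : Set (PSp 2 F)) := fun x hx => mem_normalizer_fintype fun y hy =>
    ⟨mul_mem (mul_mem hx hy.1) (inv_mem hx), h.conj x trivial y hy.2⟩
  have hz : pr F (io F (1, -1)) ∈ D := by
    obtain ⟨x, hx, h1⟩ := h1
    obtain ⟨k, hk⟩ := (h.le x hx).2
    obtain ⟨y, -, hy⟩ := hS.exists_conj_le (isPGroup_zpowers hk) le_top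
    obtain ⟨⟨e, he⟩, he'⟩ := ne_bot_iff_exists_ne_one.1 (inf_centralizer_ne_bot hS.pg
      (hS.pg.to_le (show N ≤ _ from fun _ h => h.1)) hN (ne_bot_iff_exists_ne_one.2
        ⟨⟨_, hy (Amb.conj_mem_cj.2 (mem_zpowers x)), h.conj y trivial x hx⟩,
          fun e => h1 (conj_eq_one_iff.1 (congrArg Subtype.val e))⟩))
    exact eq_z h2 hi hij hi' hj (fun e => he' (Subtype.ext e)) (fun y hy => (he.2 y hy).symm) ▸ he.1.2
  have ht : pr F (ta F) ∈ D := by
    have := h.conj (pr F (ga h2 hi)) trivial _ hz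
    rwa [← map_mul, ga_z, map_mul, mul_inv_cancel_right] at this
  have hc : ∀ a c d, pr F (io F (a, c)) ∈ D → c * c = -1 → d * d = -1 → pr F (io F (a, d)) ∈ D := fun a c d h1 h3 h4 => by
    obtain ⟨x, rfl⟩ := conj4 h2 h3 h4
    have := h.conj (pr F (io F (1, x))) trivial _ h1
    rwa [← map_inv, ← map_mul, ← map_mul, io_inv, io_mul, io_mul, inv_one, one_mul, mul_one] at this
  have h3 : pr F (io F (i⁻¹, i)) ∈ N := by
    have := h.comm hS.pg le_top (mem_map_of_mem _ ta_W) (mem_map_of_mem _ (io_W hi' (one_mem Q))) ht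
    rw [commutatorElement_def, ← map_inv, ← map_inv, ← map_mul (pr F), ← map_mul (pr F), ← map_mul (pr F), ta_inv, ta_io,
      mul_assoc (io F _), ta_ta, mul_one, io_inv, io_mul, one_mul, inv_one, mul_one] at this
    exact ⟨mem_map_of_mem _ (io_W (inv_mem hi') hi'), this⟩
  have h4 := mul_mem (inv_mem h3) (show pr F (io F (i⁻¹, j)) ∈ N from
    ⟨mem_map_of_mem _ (io_W (inv_mem hi') hj), hc _ _ _ h3.2 hi hj2⟩)
  rw [← map_inv, ← map_mul, io_inv, io_mul, inv_mul_cancel] at h4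
  have h5 : ∀ c ∈ Q, c * c = -1 → pr F (io F (1, c)) ∈ N := fun c h5 h6 =>
    ⟨mem_map_of_mem _ (io_W (one_mem Q) h5), hc _ _ _ h4.2 (by
      have e : i⁻¹ = -i := inv_eq_of_mul_eq_one_right (by rw [mul_neg, hi, neg_neg])
      rw [e, neg_mul, neg_mul_neg, mul_assoc, ← mul_assoc j, hij, neg_mul, mul_assoc, hj2, mul_neg_one, neg_neg, hi]) h6⟩
  have h6 : ∀ c ∈ Q, pr F (io F (1, c)) ∈ N := fun c h6 => (hg c h6).elim (h5 c h6) fun h7 => by
    have := mul_mem (inv_mem (h5 j hj hj2)) (h5 _ (mul_mem hj h6) h7)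
    rwa [← map_inv, ← map_mul, io_inv, io_mul, inv_mul_cancel, inv_mul_cancel_left] at this
  have h7 : ∀ a ∈ Q, ∀ b ∈ Q, pr F (io F (a, b)) ∈ N := fun a ha b hb => by
    have := mul_mem (conj_mem_of_norm (hN (mem_map_of_mem _ ta_W)) (h6 a ha)) (h6 b hb)
    rwa [← map_inv, ← map_mul (pr F), ← map_mul (pr F), ← map_mul (pr F), ta_inv, ta_io, mul_assoc (io F _), ta_ta,
      mul_one, io_mul, mul_one, one_mul] at this
  rintro _ ⟨_, ⟨a, ha, b, hb, rfl | rfl⟩, rfl⟩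
  · exact (h7 a ha b hb).2
  · rw [map_mul]
    exact (mul_mem (h7 a ha b hb) (show _ ∈ N from ⟨mem_map_of_mem _ ta_W, ht⟩)).2

/-- The elementary abelian subgroup of order `16`. -/
def V (i j : SL(2, F)) : Subgroup (PSp 2 F) :=
  closure {pr F (io F (i, i)), pr F (io F (j, j)), pr F (io F (1, -1)), pr F (ta F)}

omit [Finite F] in
theorem pc_V (h2 : (2 : F) ≠ 0) (hi : i * i = -1) (hij : j * i = -(i * j)) : PC 2 ⊤ (V i j) := fun x _ _ h => by
  have h1 : pr F (io F (i, i)) ∈ V i j := subset_closure (by simp)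
  have h3 : pr F (io F (j, j)) ∈ V i j := subset_closure (by simp)
  have h4 : pr F (io F (1, -1)) ∈ V i j := subset_closure (by simp)
  have h5 : pr F (ta F) ∈ V i j := subset_closure (by simp)
  obtain ⟨g, rfl⟩ := QuotientGroup.mk'_surjective _ x
  obtain ⟨a, b, s, rfl, hs, h6, h7⟩ : ∃ a b s, g = io F (a, b) * s ∧ pr F s ∈ V i j ∧ s * ta F = ta F * s ∧
      ∀ c, s * io F (c, c) = io F (c, c) * s := by
    obtain ⟨a, b, e | e⟩ := centz h2 (h _ h4).symm
    exacts [⟨a, b, 1, by rw [e, mul_one], map_one (pr F) ▸ one_mem _, by simp, by simp⟩,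
      ⟨a, b, _, e, h5, rfl, fun _ => ta_io⟩]
  have key : ∀ c, pr F (io F (c, c)) ∈ V i j → a * c = c * a ∨ a * c = -(c * a) := fun c hc => by
    have := h _ hc
    rw [← map_mul, ← map_mul, mul_assoc, h7, io_mul', io_mul'] at this
    exact (pr_io' h2 this.symm).imp And.left And.left
  have ha : pr F (io F (a, a)) ∈ V i j := sgn_ij h2 hi hij
    (U := (V i j).comap ((pr F).comp ((io F).comp ((MonoidHom.id _).prod (MonoidHom.id _))))) h1 h3 (key i h1) (key j h3)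
  have := h _ h5
  rw [← map_mul, ← map_mul, ta_io', mul_assoc, h6] at this
  rw [map_mul]
  refine mul_mem ?_ hs
  rcases pr_io' h2 this with e | e <;> rw [e.1]
  · exact ha
  · have := mul_mem ha h4
    rwa [← map_mul, io_mul, mul_one, mul_neg_one] at this

theorem norm_V {x : PSp 2 F} (h : ∀ y ∈ ({pr F (io F (i, i)), pr F (io F (j, j)), pr F (io F (1, -1)), pr F (ta F)} :
    Set (PSp 2 F)), x * y * x⁻¹ ∈ V i j) : x ∈ normalizer (V i j : Set (PSp 2 F)) :=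
  mem_normalizer_fintype fun _ hy => (closure_le ((V i j).comap (MulAut.conj x).toMonoidHom)).2 h hy

theorem ga_V (h2 : (2 : F) ≠ 0) {u : SL(2, F)} (hu : u * u = -1) (h1 : (1 + u.1) * i.1 = c.1 * (1 + u.1))
    (h3 : (1 + u.1) * j.1 = d.1 * (1 + u.1)) (hc : c ∈ closure {i, j}) (hd : d ∈ closure {i, j}) :
    pr F (ga h2 hu) ∈ normalizer (V i j : Set (PSp 2 F)) := by
  have key : closure {i, j} ≤ (V i j).comap ((pr F).comp ((io F).comp ((MonoidHom.id _).prod (MonoidHom.id _)))) :=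
    (closure_le _).2 (by rintro _ (rfl | rfl) <;> exact subset_closure (by simp))
  refine norm_V ?_
  rintro _ (rfl | rfl | rfl | rfl) <;> rw [← map_mul]
  · rw [ga_io h2 hu h1, map_mul, mul_inv_cancel_right]; exact key hc
  · rw [ga_io h2 hu h3, map_mul, mul_inv_cancel_right]; exact key hd
  · rw [ga_z, map_mul, mul_inv_cancel_right]; exact subset_closure (by simp)
  · rw [ga_t, map_mul, mul_inv_cancel_right]; exact subset_closure (by simp)

theorem simple_PSp4 (h2 : (2 : F) ≠ 0) (S : Sylow 2 (PSp 2 F)) :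
    (groupFusionSystem (S : Subgroup (PSp 2 F))).IsSimple 2 := by
  obtain ⟨Q⟩ : Nonempty (Sylow 2 SL(2, F)) := inferInstance
  obtain ⟨i, hi', j, hj, hi, hj2, hij, hg, hN⟩ := quat h2 Q
  have hS := syl_W h2 hi hij hi' hj (sylIn_top Q)
  refine simple_map hS (simple_of_kf hS (ne_bot_iff_exists_ne_one.2 ⟨⟨_, mem_map_of_mem _ ta_W⟩, fun e => ?_⟩)
    (pcl_W h2 hi hj2 hij hi' hj (sylIn_top Q) hg) fun K hK x hx => ?_) (Subgroup.subtype ⊤)
    (fun x => ⟨⟨x, trivial⟩, rfl⟩) (fun x hx _ => Subtype.ext hx) S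
  · rcases pr_eq_one h2 (congrArg Subtype.val e) with e | e
    · exact io_ne h2 (a := 1) (b := 1) (c := 1) (d := 1) (by rw [e, mul_one])
    · exact io_ne h2 (c := 1) (d := 1) (by rw [← e, show io F (1, 1) = 1 from map_one _, one_mul])
  have hle : (W (Q : Subgroup SL(2, F))).map (pr F) ≤ K _ := fun y hy => by
    obtain ⟨k, hk⟩ := isPGroup_iff_mem.1 hS.pg y hy
    exact hK.mem le_rfl trivial (le_normalizer hy) hk
  obtain ⟨a, ha, s, hs, rfl⟩ := norm_W h2 hi hij hi' hj hx.2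
  refine mul_mem ?_ (hle hs)
  rcases hN with hN | ⟨hQ, hN⟩
  · exact hle (mem_map_of_mem _ (io_W (hN ha) (hN ha)))
  have ei : i.1 * i.1 = -1 := congrArg Subtype.val hi
  have ej : j.1 * j.1 = -1 := congrArg Subtype.val hj2
  have eij : j.1 * i.1 = -(i.1 * j.1) := congrArg Subtype.val hij
  have e1 : (1 + i.1) * i.1 = i.1 * (1 + i.1) := by rw [add_mul, mul_add, one_mul, mul_one]
  have e2 : (1 + j.1) * j.1 = j.1 * (1 + j.1) := by rw [add_mul, mul_add, one_mul, mul_one]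
  have e3 : (1 + i.1) * j.1 = i.1 * j.1 * (1 + i.1) := by
    rw [add_mul, mul_add, one_mul, mul_one, mul_assoc, eij, mul_neg, ← mul_assoc, ei, neg_one_mul, neg_neg, add_comm]
  have e4 : (1 + j.1) * i.1 = -(i.1 * j.1) * (1 + j.1) := by
    rw [add_mul, mul_add, one_mul, mul_one, neg_mul, mul_assoc, ej, mul_neg_one, neg_neg, eij, add_comm]
  let w : SL(2, F) := ⟨(2 : F)⁻¹ • ((1 + i.1) * (1 + j.1)), by
    rw [det_smul, Matrix.det_mul, det_one_add hi, det_one_add hj2, Fintype.card_fin]; field_simp⟩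
  have wj : w * j * w⁻¹ = i * j := mul_inv_eq_iff_eq_mul.2 (Subtype.ext (by
    change (_ • _) * j.1 = i.1 * j.1 * (_ • _)
    rw [smul_mul_assoc, mul_smul_comm, mul_assoc, e2, ← mul_assoc, e3, mul_assoc]))
  have wi : w * i * w⁻¹ = j := mul_inv_eq_iff_eq_mul.2 (Subtype.ext (by
    change (_ • _) * i.1 = j.1 * (_ • _)
    rw [smul_mul_assoc, mul_smul_comm, mul_assoc, e4, ← mul_assoc, mul_neg, ← mul_assoc, e1, mul_assoc i.1, e3,
      ← mul_assoc, ← mul_assoc, ei, neg_one_mul, neg_mul, neg_mul, neg_mul, neg_neg, mul_assoc]))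
  have wk : w * (i * j) * w⁻¹ = i := by
    rw [← conj_mul, wi, wj, ← mul_assoc, hij, neg_mul, mul_assoc, hj2, mul_neg_one, neg_neg]
  have hm : ∀ c ∈ (Q : Subgroup SL(2, F)), -c ∈ (Q : Subgroup SL(2, F)) := fun c hc => by
    simpa [hi] using mul_mem (mul_mem hi' hi') hc
  have wN : w ∈ normalizer (Q : Set SL(2, F)) := mem_normalizer_fintype fun c hc => by
    rcases hQ c hc with rfl | rfl | rfl | rfl | rfl | rfl | rfl | rfl <;>
      simp only [mul_neg, neg_mul, wi, wj, wk, mul_one, mul_inv_cancel, SetLike.mem_coe]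
    exacts [one_mem _, hm _ (one_mem _), hj, hm _ hj, mul_mem hi' hj, hm _ (mul_mem hi' hj), hi', hm _ hi']
  have hV : V i j ≤ (W (Q : Subgroup SL(2, F))).map (pr F) := (closure_le _).2 (by
    rintro _ (rfl | rfl | rfl | rfl) <;> refine mem_map_of_mem _ ?_
    exacts [io_W hi' hi', io_W hj hj, io_W (one_mem _) (hm _ (one_mem _)), ta_W])
  have g8 : ∀ {u : SL(2, F)} (hu : u * u = -1), pr F (ga h2 hu) ^ 2 ^ 2 = 1 := fun {u} hu => by
    rw [pow_succ', pow_mul, sq, ← map_mul, ga_ga h2 hu hu (c := u), ← map_pow, pow_one, sq, io_mul, hu, pr_m1]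
    rw [add_mul, mul_add, mul_add, one_mul, one_mul, mul_one, show u.1 * u.1 = -1 from congrArg Subtype.val hu,
      show 1 + u.1 + (u.1 + -1) = (2 : F) • u.1 by rw [two_smul]; abel, smul_smul, inv_mul_cancel₀ h2, one_smul]
  have mi : i ∈ closure {i, j} := subset_closure (by simp)
  have mj : j ∈ closure {i, j} := subset_closure (by simp)
  let U := (K ((W (Q : Subgroup SL(2, F))).map (pr F))).comap
    ((pr F).comp ((io F).comp ((MonoidHom.id _).prod (MonoidHom.id _))))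
  have hw : w ∈ U := hK.tr hV le_rfl (pc_V h2 hi hij) (by
    have := mul_mem (hK.mem hV trivial (ga_V h2 hi e1 (d := i * j) e3 mi (mul_mem mi mj)) (g8 hi))
      (hK.mem hV trivial (ga_V h2 hj2 (c := j * i) (e4.trans (by rw [← eij]; rfl)) e2 (mul_mem mj mi) mj) (g8 hj2))
    rwa [← map_mul, ga_ga h2 hi hj2 (c := w) rfl] at this) (io_norm wN)
  have hQU : ∀ b ∈ normalizer (Q : Set SL(2, F)), b * i * b⁻¹ = i ∨ b * i * b⁻¹ = -i → b ∈ U := fun b hb h =>
    hle (mem_map_of_mem _ (io_W (hN b hb h) (hN b hb h)))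
  have e5 : ∀ b : SL(2, F), b * a * i * (b * a)⁻¹ = b * (a * i * a⁻¹) * b⁻¹ := fun b => by group
  have e6 : w⁻¹ * j * w⁻¹⁻¹ = i := by rw [← wi]; group
  have e7 : a * i * a⁻¹ * (a * i * a⁻¹) = -1 := by rw [conj_mul, hi]; simp
  change a ∈ U
  rcases hQ _ (conj_mem_of_norm ha hi') with e | e | e | e | e | e | e | e
  · exact (ne_neg h2 1 (by simpa [e] using e7)).elim
  · exact (ne_neg h2 1 (by simpa [e] using e7)).elim
  · exact hQU a ha (Or.inl e)
  · exact hQU a ha (Or.inr e)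
  · exact (mul_mem_cancel_left (inv_mem hw)).1 (hQU _ (mul_mem (inv_mem wN) ha) (Or.inl (by rw [e5, e, e6])))
  · exact (mul_mem_cancel_left (inv_mem hw)).1 (hQU _ (mul_mem (inv_mem wN) ha)
      (Or.inr (by rw [e5, e, mul_neg, neg_mul, e6])))
  · exact (mul_mem_cancel_left hw).1 (hQU _ (mul_mem wN ha) (Or.inl (by rw [e5, e, wk])))
  · exact (mul_mem_cancel_left hw).1 (hQU _ (mul_mem wN ha) (Or.inr (by rw [e5, e, mul_neg, neg_mul, wk])))

end CA.FusSp
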