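import Cfsg.Agent.Lib.Odd.BG4b
import Cfsg.Agent.Lib.Fus.FusPat

/-!
A `3`-group `Q` acting on a normal elementary abelian `2`-group `M` with `[M, Q]` of order four.
-/

set_option autoImplicit false
set_option linter.unusedSectionVars false
set_option linter.style.haveILetI false

namespace CA.FusV4

open Subgroup Cfsg CA.OQuo CA.BG CA.BG4 CA.FusPat
open scoped commutatorElement

variable {G : Type*} [Group G] [Finite G] {p : ℕ} {M Q R W X P U : Subgroup G}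

theorem lt_card_of_fpf (hp : p.Prime) (hR : IsPi {p} R) (hn : R ≤ 𝓝(X)) (h : X ⊓ 𝓒(R) = ⊥) (h1 : X ≠ ⊥) :
    p < ♯X := by
  have := (one_lt_card_iff_ne_bot X).2 h1
  have := Nat.le_of_dvd (by omega) (dvd_card_sub_one hp hR hn h)
  omega

theorem cent_of_small (hp : p.Prime) (hR : IsPi {p} R) (hn : R ≤ 𝓝(X)) (hc : IsMulCommutative X)
    (hX : IsPi {p}ᶜ X) (h : ♯X ≤ p * ♯(X ⊓ 𝓒(R))) : R ≤ 𝓒(X) := by
  have cop := hX.coprime' hR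
  obtain ⟨d1, d2, d3⟩ := coprime_abelian_cent_dprod hn cop hc
  refine cent_symm (comm_eq_bot_iff.1 (by_contra fun h1 => ?_))
  have a1 := lt_card_of_fpf hp hR (le_norm_comm_right X R) (coprime_abel_cent_TI hn cop hc) h1
  have a2 := card_sup_of_disjoint (norm_of_cent (cent_symm d1)) d2
  rw [d3] at a2
  have := card_pos' (X ⊓ 𝓒(R))
  nlinarith

theorem relIndex_cent_dvd16 (hp : p.Prime) (h5 : 5 ≤ p) (hR : IsPi {p} R) (hn : R ≤ 𝓝(W))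
    (hc : IsMulCommutative W) (hW : IsPi {p}ᶜ W) (h : ♯W ≤ 16) : 𝓒(W).relIndex R ∣ p := by
  by_cases h0 : W ≤ 𝓒(R)
  · rw [relIndex_eq_one.2 (cent_symm h0)]; exact one_dvd _
  obtain ⟨w, hw, hw'⟩ := SetLike.not_le_iff_exists.1 h0
  haveI := Fact.mk hp
  have a1 : 𝓒₁(w).relIndex R ≤ (⊥ : Subgroup G).relIndex W :=
    relIndex_le_of_fun (fun s => ⁅w, s⁆) (fun s hs => comm_mem_of_norm' hw (hn hs)) fun s _ s' _ h =>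
      mem_cent1.2 (commutatorElement_eq_one_iff_mul_comm.1 (mem_bot.1 (comm_div_mem (le_norm_bot ⊤ (mem_top s)) h)))
  rw [relIndex_bot_left] at a1
  obtain ⟨j, hj⟩ := PGBasic.exists_relIndex_eq_pow (H := 𝓒₁(w)) (hR.isPGroup hp)
  have a2 : j = 1 := by
    rcases j with _ | _ | j
    · exact absurd (le_cent1_iff.1 (relIndex_eq_one.1 hj)) hw'
    · rfl
    · have : p ^ 2 ≤ p ^ (j + 1 + 1) := Nat.pow_le_pow_right hp.pos (by omega)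
      nlinarith
  rw [a2, pow_one, ← inf_relIndex_left] at hj
  have a3 := norm_of_relIndex hp hR inf_le_left hj
  have a4 : R ≤ 𝓝(W ⊓ 𝓒(R ⊓ 𝓒₁(w))) := norm_inf hn (norm_cent a3)
  have a5 : ¬ ♯(W ⊓ 𝓒(R ⊓ 𝓒₁(w))) ≤ p * _ := fun h' => hw'
    (cent_symm (cent_of_small hp hR a4 (comm_of_le hc inf_le_left) (hW.inf_left _) h')
      ⟨hw, le_cent1_iff.1 inf_le_right⟩)
  have a6 := cent_of_small hp (hR.inf_left _) (inf_le_left.trans hn : R ⊓ 𝓒₁(w) ≤ _) hc hW (by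
    have := card_pos' (W ⊓ 𝓒(R ⊓ 𝓒₁(w)) ⊓ 𝓒(R))
    nlinarith)
  rw [← hj, ← inf_relIndex_left R 𝓒(W)]
  exact relIndex_dvd_of_le_left _ (le_inf inf_le_left a6)

/-- the setting -/
structure Ctx (M Q : Subgroup G) : Prop where
  el : IsElementaryAbelian 2 M
  nM : ⊤ ≤ 𝓝(M)
  pQ : IsPi {3} Q
  card : ♯⁅M, Q⁆ = 4

namespace Ctx

theorem n (c : Ctx M Q) (K : Subgroup G) : K ≤ 𝓝(M) := le_top.trans c.nM
theorem pM (c : Ctx M Q) : IsPi {2} M := isPi_of_expDvd' Nat.prime_two c.el.2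
theorem le (c : Ctx M Q) : ⁅M, Q⁆ ≤ M := comm_le_left (c.n Q)
theorem comm (c : Ctx M Q) (h : X ≤ M) : IsMulCommutative X := comm_of_le c.el.1 h
theorem pi' (c : Ctx M Q) (h : X ≤ M) (h2 : p ≠ 2) : IsPi {p}ᶜ X := (c.pM.of_le h).ne h2.symm

theorem cj (c : Ctx M Q) (x : G) : Ctx M (cj x Q) ∧ ⁅M, cj x Q⁆ = cj x ⁅M, Q⁆ := by
  have e : ⁅M, BG.cj x Q⁆ = BG.cj x ⁅M, Q⁆ := by rw [cj_comm, cj_of_mem_norm (c.nM (mem_top x))]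
  exact ⟨⟨c.el, c.nM, c.pQ.cj x, by rw [e, card_cj, c.card]⟩, e⟩

theorem ti (c : Ctx M Q) : ⁅M, Q⁆ ⊓ 𝓒(Q) = ⊥ :=
  coprime_abel_cent_TI (c.n Q) ((c.pi' le_rfl (by norm_num)).coprime' c.pQ) c.el.1

theorem not_cent (c : Ctx M Q) (h : ⁅M, Q⁆ ≤ W) : ¬ Q ≤ 𝓒(W) := fun h' => by
  have := c.card
  rw [← inf_eq_left.2 (h.trans (cent_symm h')), c.ti, card_bot] at this
  omega

theorem irr (c : Ctx M Q) (h : X ≤ ⁅M, Q⁆) (hn : Q ≤ 𝓝(X)) (h1 : X ≠ ⊥) : X = ⁅M, Q⁆ :=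
  eq_of_le_of_card_le h (c.card ▸ lt_card_of_fpf Nat.prime_three c.pQ hn
    (BG.eq_bot_mono (inf_le_inf_right _ h) c.ti) h1)

theorem le_of_not_cent (c : Ctx M Q) (h : W ≤ M) (hn : Q ≤ 𝓝(W)) (h1 : ¬ Q ≤ 𝓒(W)) : ⁅M, Q⁆ ≤ W :=
  (c.irr (comm_mono h le_rfl) (le_norm_comm_right W Q)
    fun e => h1 (cent_symm (comm_eq_bot_iff.1 e))).ge.trans (comm_le_left hn)

theorem norm (c : Ctx M Q) (h : ⁅M, Q⁆ ≤ W) (h1 : W ≤ M) : Q ≤ 𝓝(W) :=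
  norm_of_comm_le_left ((comm_mono h1 le_rfl).trans h)

theorem card_inf_le (c : Ctx M Q) (h : ¬ ⁅M, Q⁆ ≤ W) : ♯(⁅M, Q⁆ ⊓ W) ≤ 2 := by
  have := card_mul_le_of_lt Nat.prime_two (c.pM.of_le c.le)
    (inf_le_left.lt_of_ne fun e => h (e.ge.trans inf_le_right) : ⁅M, Q⁆ ⊓ W < _)
  rw [c.card] at this
  omega

/-- a `Q`-invariant elementary abelian group of order `27` -/
theorem three (c : Ctx M Q) (hU : El 3 3 U) (hn : Q ≤ 𝓝(U)) : ∃ B, B ≤ U ⊓ 𝓒(⁅M, Q⁆) ∧ El 3 2 B := by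
  have p3 := Nat.prime_three
  have pU := hU.pi p3
  have cop : ∀ {X : Subgroup G}, X ≤ M → (♯X).Coprime ♯U := fun h => (c.pi' h (by norm_num)).coprime' pU
  by_cases h0 : Q ≤ 𝓒(M ⊓ 𝓒(U))
  swap
  · obtain ⟨B, h1, h2⟩ := hU.exists_le p3 (by norm_num : 2 ≤ 3)
    exact ⟨B, le_inf h1 (h1.trans (cent_symm ((c.le_of_not_cent inf_le_left
      (norm_inf (c.n Q) (norm_cent hn)) h0).trans inf_le_right))), h2⟩
  have nM : ⁅M, U⁆ ≤ M := comm_le_left (c.n U)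
  have n1 : U ≤ 𝓝(⁅M, U⁆) := le_norm_comm_right M U
  have n2 : Q ≤ 𝓝(⁅M, U⁆) := norm_comm (c.n Q) hn
  have t1 := coprime_abel_cent_TI (c.n U) (cop le_rfl) c.el.1
  set N := ⁅M, U⁆
  have h1 : ¬ N ≤ 𝓒(Q) := fun h => c.not_cent c.le
    (coprime_cent_prod (c.n U) (cop le_rfl) (Or.inl (pU.isSolvable p3)) ▸ le_cent_sup (cent_symm h) h0)
  obtain ⟨B, b1, b2, b3⟩ : ∃ B, B ≤ U ∧ El 3 2 B ∧ ¬ N ⊓ 𝓒(B) ≤ 𝓒(Q) := by
    by_contra h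
    exact h1 (coprime_elem_gen_cent' p3 hU n1 (cop nM) fun B h2 h3 => by_contra fun h4 => h ⟨B, h2, h3, h4⟩)
  by_cases h2 : Q ≤ 𝓝(B)
  · exact ⟨B, le_inf b1 (cent_symm ((c.le_of_not_cent (inf_le_left.trans nM) (norm_inf n2 (norm_cent h2))
      fun h => b3 (cent_symm h)).trans inf_le_right)), b2⟩
  exfalso
  obtain ⟨x, hx, hx'⟩ := SetLike.not_le_iff_exists.1 h2
  obtain ⟨k, hk⟩ := c.pQ.exists_card p3
  obtain ⟨a, ha, rfl⟩ := exists_sq_eq (A := Q) (hk ▸ Odd.pow (by decide)) hx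
  have ha' : a ∉ 𝓝(B) := fun h => hx' (pow_mem h 2)
  have d : ∀ B₁ B₂ : Subgroup G, B₁ ≤ U → B₂ ≤ U → El 3 2 B₁ → El 3 2 B₂ → B₁ ≠ B₂ →
      N ⊓ 𝓒(B₁) ⊓ 𝓒(B₂) = ⊥ := fun B₁ B₂ h1 h2 h3 h4 h5 => by
    rw [inf_assoc, ← cent_sup, sup_eq_of_relIndex p3 h1 (hU.relIndex_prime p3 h3 h1) h2
      fun h => h5 (h4.eq_of_le h3 h).symm, t1]
  have l : ∀ y ∈ Q, BG.cj y B ≤ U := fun y hy => cj_of_mem_norm (hn hy) ▸ cj_mono y b1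
  have e : ∀ y ∈ Q, BG.cj y (N ⊓ 𝓒(B)) = N ⊓ 𝓒(BG.cj y B) := fun y hy => by
    rw [cj_inf, cj_cent, cj_of_mem_norm (n2 hy)]
  have ha2 := pow_mem ha 2
  have ne1 : B ≠ BG.cj a B := fun h => ha' (mem_norm_iff_cj.2 h.symm)
  have ne2 : B ≠ BG.cj (a ^ 2) B := fun h => hx' (mem_norm_iff_cj.2 h.symm)
  have ne3 : BG.cj a B ≠ BG.cj (a ^ 2) B := fun h => ne1 (by rwa [pow_two, cj_mul, cj_inj] at h)
  have d1 := d _ _ b1 (l a ha) b2 (b2.cj a) ne1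
  have d2 := d _ _ b1 (l _ ha2) b2 (b2.cj _) ne2
  have d3 := d _ _ (l a ha) (l _ ha2) (b2.cj a) (b2.cj _) ne3
  have nu : ∀ B', B' ≤ U → U ≤ 𝓝(N ⊓ 𝓒(B')) := fun B' h => norm_inf n1 (norm_cent (norm_of_comm hU.comm h))
  have nn : ∀ X Y : Subgroup G, X ≤ M → Y ≤ M → X ≤ 𝓝(Y) := fun X Y h1 h2 => h1.trans (norm_of_comm c.el.1 h2)
  have y0 : ∀ B' : Subgroup G, N ⊓ 𝓒(B') ≤ M := fun _ => inf_le_left.trans nM
  have f1 : N ⊓ 𝓒(B) ⊓ (N ⊓ 𝓒(BG.cj a B)) = ⊥ := BG.eq_bot_mono (inf_le_inf_left _ inf_le_right) d1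
  have f2 : (N ⊓ 𝓒(B) ⊔ N ⊓ 𝓒(BG.cj a B)) ⊓ (N ⊓ 𝓒(BG.cj (a ^ 2) B)) = ⊥ := by
    refine BG.eq_bot_mono (inf_le_inf_left _ inf_le_right) ?_
    rw [disjoint_sup_cent ((l _ ha2).trans (nu _ b1)) ((l _ ha2).trans (nu _ (l a ha)))
      (nn _ _ (y0 _) (y0 _)) f1, d2, d3, bot_sup_eq]
  have g1 := card_sup_of_disjoint (nn _ _ (sup_le (y0 _) (y0 _)) (y0 _)) f2
  rw [card_sup_of_disjoint (nn _ _ (y0 _) (y0 _)) f1, ← e _ ha, ← e _ ha2, card_cj, card_cj] at g1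
  have w1 : N ⊓ 𝓒(B) ⊔ ⁅M, Q⁆ ≤ M := sup_le (y0 _) c.le
  have w2 : ∀ y ∈ Q, BG.cj y (N ⊓ 𝓒(B)) ≤ N ⊓ 𝓒(B) ⊔ ⁅M, Q⁆ := fun y hy =>
    cj_of_mem_norm (c.norm le_sup_right w1 hy) ▸ cj_mono y le_sup_left
  have g2 := card_le_of_le' (sup_le (sup_le le_sup_left (w2 _ ha)) (w2 _ ha2))
  have g3 := Nat.le_of_dvd (Nat.mul_pos (card_pos' _) (card_pos' _)) (card_sup_dvd (nn _ _ (y0 B) c.le))
  have g4 := lt_card_of_fpf p3 pU (nu B b1) (BG.eq_bot_mono (inf_le_inf_right _ inf_le_left) t1)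
    fun h => b3 (h ▸ bot_le)
  rw [c.card] at g3
  rw [g1] at g2
  nlinarith

theorem inf_ne_bot (c : Ctx M Q) (hp : p.Prime) (h5 : 5 ≤ p) (hP : IsPi {p} P) (hn : Q ≤ 𝓝(P)) {x : G}
    (hx : x ∈ P) : ⁅M, Q⁆ ⊓ BG.cj x ⁅M, Q⁆ ≠ ⊥ := by
  intro h
  obtain ⟨c', e⟩ := c.cj x
  rw [← e] at h
  have p2 : p ≠ 2 := by omega
  have n' : BG.cj x Q ≤ 𝓝(P) := cj_of_mem hx ▸ norm_cj x hn
  have q' : ∀ q ∈ Q, x * q * x⁻¹ ∈ BG.cj x Q := fun q hq => conj_mem_cj.2 hq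
  have q'' : ∀ y ∈ BG.cj x Q, ∃ q ∈ Q, x * q * x⁻¹ = y := fun y hy => mem_cj'.1 hy
  generalize BG.cj x Q = Q' at *
  have w1 : ⁅M, Q⁆ ⊔ ⁅M, Q'⁆ ≤ M := sup_le c.le c'.le
  have w2 := card_sup_of_disjoint (c.le.trans (norm_of_comm c.el.1 c'.le)) h
  rw [c.card, c'.card] at w2
  have w3 := c.norm le_sup_left w1
  have w4 := c'.norm le_sup_right w1
  set W := ⁅M, Q⁆ ⊔ ⁅M, Q'⁆ with hW
  have r1 : Q ⊔ Q' ≤ 𝓝(P ⊓ (Q ⊔ Q')) := norm_inf (sup_le hn n') le_normalizer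
  have r2 : P ⊓ (Q ⊔ Q') ≤ 𝓝(W) := inf_le_right.trans (sup_le w3 w4)
  have pR : IsPi {p} (P ⊓ (Q ⊔ Q')) := hP.inf_left _
  have r3 : ∀ q ∈ Q, ⁅x, q⁆ ∈ P ⊓ (Q ⊔ Q') := fun q hq => ⟨comm_mem_of_norm' hx (hn hq),
    mul_mem (mem_sup_right (q' q hq)) (mem_sup_left (inv_mem hq))⟩
  set R := P ⊓ (Q ⊔ Q')
  have cop := (c.pi' w1 p2).coprime' pR
  have a0 : ¬ R ≤ 𝓒(W) := fun h0 => by
    have : ⁅⁅M, Q'⁆, Q'⁆ ≤ ⁅M, Q⁆ := commutator_le.2 fun v hv y hy => by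
      obtain ⟨q, hq, rfl⟩ := q'' y hy
      have e1 : ⁅v, x * q * x⁻¹⁆ = ⁅v, ⁅x, q⁆⁆ * (⁅x, q⁆ * ⁅v, q⁆ * ⁅x, q⁆⁻¹) := by
        simp only [commutatorElement_def]; group
      have m1 := commutator_mem_commutator (c'.le hv) hq
      rw [e1, commutatorElement_eq_one_iff_mul_comm.2 (mem_cent.1 (h0 (r3 q hq)) v (mem_sup_right hv)), one_mul,
        ← mem_cent.1 (h0 (r3 q hq)) _ (mem_sup_left m1), mul_inv_cancel_right]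
      exact m1
    exact c'.not_cent le_rfl (cent_symm (comm_eq_bot_iff.1 (BG.eq_bot_mono
      (le_inf this (comm_le_left (le_norm_comm_right M Q'))) h)))
  have a1 : ¬ ♯W ≤ p * _ := fun h' => a0 (cent_of_small hp pR r2 (c.comm w1) (c.pi' w1 p2) h')
  have k : ∀ T : Subgroup G, Ctx M T → T ≤ Q ⊔ Q' → ⁅M, T⁆ ≤ W → ⁅M, T⁆ ≤ ⁅W, R⁆ := fun T t h1 h2 => by
    have b1 := t.norm h2 w1
    refine t.le_of_not_cent ((comm_le_left r2).trans w1) (norm_comm b1 (h1.trans r1)) fun h3 => ?_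
    refine t.not_cent h2 (coprime_cent_prod r2 cop (Or.inl (pR.isSolvable hp)) ▸ le_cent_sup h3
      (by_contra fun h4 => ?_))
    have := card_le_of_le' (t.le_of_not_cent (inf_le_left.trans w1) (norm_inf b1 (norm_cent (h1.trans r1))) h4)
    rw [t.card] at this
    nlinarith
  have a2 := coprime_abel_cent_eq_bot r2 cop (c.comm w1) (le_antisymm (comm_le_left r2)
    (sup_le (k Q c le_sup_left le_sup_left) (k Q' c' le_sup_right le_sup_right)))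
  have a3 := dvd_card_sub_one hp pR r2 a2
  rw [w2] at a3
  have a4 : p = 5 := by
    have := Nat.le_of_dvd (by norm_num) a3
    interval_cases p <;> first | rfl | omega | exact absurd hp (by norm_num)
  have a5 := relIndex_cent_dvd16 hp h5 pR r2 (c.comm w1) (c.pi' w1 p2) w2.le
  have a6 : (R ⊓ 𝓒(W)).relIndex R = p := by
    rw [inf_relIndex_left]
    exact ((Nat.dvd_prime hp).1 a5).resolve_left fun h' => a0 (relIndex_eq_one.1 h')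
  have a7 : ¬ R ⊓ 𝓒(Q) ≤ R ⊓ 𝓒(W) := fun h' => by
    have m1 := card_modEq_cent Nat.prime_three c.pQ (le_sup_left.trans r1)
    have m2 := card_modEq_cent Nat.prime_three c.pQ (norm_inf (le_sup_left.trans r1) (norm_cent w3))
    rw [show R ⊓ 𝓒(W) ⊓ 𝓒(Q) = R ⊓ 𝓒(Q) from
      le_antisymm (inf_le_inf_right _ inf_le_left) (le_inf h' inf_le_right)] at m2
    have m3 := m1.trans m2.symm
    rw [← card_mul_relIndex (inf_le_left : R ⊓ 𝓒(W) ≤ R), a6, a4] at m3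
    have m4 : 3 ∣ ♯(R ⊓ 𝓒(W)) := by unfold Nat.ModEq at m3; omega
    have := pR.inf_left 𝓒(W) 3 Nat.prime_three m4
    simp only [Set.mem_singleton_iff] at this
    omega
  have a8 := sup_eq_of_relIndex hp inf_le_left a6 inf_le_left a7
  have a9 : R ⊓ 𝓒(Q) ≤ 𝓒(⁅M, Q⁆) := cent_of_small hp (pR.inf_left _)
    (norm_comm (c.n _) (inf_le_right.trans (cent_le_norm _))) (c.comm c.le) (c.pi' c.le p2) (by
      have := card_pos' (⁅M, Q⁆ ⊓ 𝓒(R ⊓ 𝓒(Q)))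
      rw [c.card]; nlinarith)
  have := c.card
  rw [BG.eq_bot_mono (le_inf le_sup_left (cent_symm (a8.ge.trans
    (sup_le (inf_le_right.trans (cent_anti le_sup_left)) a9)))) a2, card_bot] at this
  omega

theorem exists_inv (c : Ctx M Q) (hp : p.Prime) (h5 : 5 ≤ p) (hP : IsPi {p} P) (hn : Q ≤ 𝓝(P)) :
    ∃ W, ⁅M, Q⁆ ≤ W ∧ W ≤ M ∧ ♯W ≤ 16 ∧ P ≤ 𝓝(W) := by
  by_cases h : P ≤ 𝓝(⁅M, Q⁆)
  · exact ⟨_, le_rfl, c.le, by rw [c.card]; norm_num, h⟩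
  obtain ⟨x, hx, hx'⟩ := SetLike.not_le_iff_exists.1 h
  have nQ : Q ≤ 𝓝(⁅M, Q⁆) := le_norm_comm_right M Q
  have l : ∀ y, BG.cj y ⁅M, Q⁆ ≤ M := fun y => (c.cj y).2 ▸ (c.cj y).1.le
  have w1 : ⁅M, Q⁆ ⊔ BG.cj x ⁅M, Q⁆ ≤ M := sup_le c.le (l x)
  have w2 := c.norm le_sup_left w1
  have i2 : ∀ y ∈ P, ∀ z ∈ P, BG.cj y ⁅M, Q⁆ ⊓ BG.cj z ⁅M, Q⁆ ≠ ⊥ := fun y hy z hz h' =>
    c.inf_ne_bot hp h5 hP hn (mul_mem (inv_mem hy) hz) (by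
      rw [← cj_eq_bot (g := y), cj_inf, ← cj_mul, mul_inv_cancel_left, h'])
  have nl : ¬ ⁅M, Q⁆ ≤ BG.cj x ⁅M, Q⁆ := fun h' =>
    hx' (mem_norm_iff_cj.2 (eq_of_le_of_card_eq h' (card_cj _ _).symm).symm)
  have key : ∀ y ∈ P, BG.cj y ⁅M, Q⁆ ≤ ⁅M, Q⁆ ⊔ BG.cj x ⁅M, Q⁆ := fun y hy => by_contra fun h' => by
    have d1 := (c.cj y).1.card_inf_le ((c.cj y).2 ▸ h')
    rw [(c.cj y).2] at d1
    have d2 : ∀ Z, Z ≤ ⁅M, Q⁆ ⊔ BG.cj x ⁅M, Q⁆ → BG.cj y ⁅M, Q⁆ ⊓ Z ≠ ⊥ →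
        BG.cj y ⁅M, Q⁆ ⊓ (⁅M, Q⁆ ⊔ BG.cj x ⁅M, Q⁆) ≤ Z := fun Z h1 h2 =>
      (eq_of_le_of_card_le (inf_le_inf_left _ h1)
        (d1.trans ((one_lt_card_iff_ne_bot _).2 h2))).ge.trans inf_le_right
    have d3 := d2 _ le_sup_left (by simpa using i2 y hy 1 (one_mem _))
    have d4 : ∀ q ∈ Q, _ ≤ BG.cj q (BG.cj x ⁅M, Q⁆) := fun q hq =>
      d2 _ (cj_of_mem_norm (w2 hq) ▸ cj_mono q le_sup_right) (by
        have := i2 y hy _ (conj_mem_of_mem_norm (hn hq) hx)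
        rwa [cj_mul, cj_of_mem_norm (nQ (inv_mem hq)), cj_mul] at this)
    have d5 : BG.cj y ⁅M, Q⁆ ⊓ (⁅M, Q⁆ ⊔ BG.cj x ⁅M, Q⁆) ≠ ⊥ :=
      ne_bot_mono (inf_le_inf_left _ le_sup_right) (i2 y hy x hx)
    generalize BG.cj y ⁅M, Q⁆ ⊓ (⁅M, Q⁆ ⊔ BG.cj x ⁅M, Q⁆) = D at *
    have d6 : ∀ q ∈ Q, D = BG.cj q (⁅M, Q⁆ ⊓ BG.cj x ⁅M, Q⁆) := fun q hq =>
      eq_of_le_of_card_le (by rw [cj_inf, cj_of_mem_norm (nQ hq)]; exact le_inf d3 (d4 q hq))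
        (by rw [card_cj]; exact (c.card_inf_le nl).trans ((one_lt_card_iff_ne_bot _).2 d5))
    have d7 := d6 1 (one_mem _)
    rw [cj_one] at d7
    exact nl ((c.irr inf_le_left (le_norm_iff_cj.2 fun q hq => (d6 q hq).symm.trans d7) (d7 ▸ d5)).ge.trans
      inf_le_right)
  refine ⟨_, le_sup_left, w1, ?_, fun y hy => mem_norm_of_cj_le ?_⟩
  · have := Nat.le_of_dvd (Nat.mul_pos (card_pos' _) (card_pos' _))
      (card_sup_dvd (c.le.trans (norm_of_comm c.el.1 (l x))))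
    rwa [card_cj, c.card] at this
  · rw [cj_sup, ← cj_mul]
    exact sup_le (key y hy) (key _ (mul_mem hy hx))

theorem main (c : Ctx M Q) (hs : Group.IsSolvable G) (hp : p.Prime) (h2 : p ≠ 2) (h : PRk p 3 (⊤ : Subgroup G)) :
    ∃ r F B, r.Prime ∧ r ≠ 2 ∧ El r 3 F ∧ B ≤ F ⊓ 𝓒(⁅M, Q⁆) ∧ El r 2 B := by
  have p3 := Nat.prime_three
  obtain ⟨H, hH, hQ⟩ := hall_superset (π := {2}ᶜ) (solv_top ⊤) (c.pQ.ne (by norm_num)) le_top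
  have h1 := (hH.prk hp h2).2 h
  by_cases h3 : PRk 3 3 H
  · obtain ⟨T, hT, hQT⟩ := syl_superset p3 c.pQ hQ
    obtain ⟨U, u1, u2, u3⟩ := rank3_normal_p3Elem p3 (by norm_num) hT.pi (prk_of_syl p3 hT h3)
    obtain ⟨B, b1, b2⟩ := c.three u2 (hQT.trans u3)
    exact ⟨3, U, B, p3, by norm_num, u2, b1, b2⟩
  have h4 : p ≠ 3 := fun e => h3 (e ▸ h1)
  have h5 : 5 ≤ p := by
    have := hp.two_le
    by_contra h'
    interval_cases p <;> first | omega | exact absurd hp (by norm_num)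
  have ho : Odd ♯H := Nat.not_even_iff_odd.1 fun e => hH.pi 2 Nat.prime_two e.two_dvd rfl
  have hc : Hall {3}ᶜ 𝓞({3}ᶜ, H) H := rank2_min_p_complement p3 (solv_top H) ho h3 (Or.inl rfl)
  obtain ⟨P, hP, hn⟩ := coprime_Sylow_exists hp (hQ.trans (le_norm_core _ H)) (hc.pi.coprime' c.pQ)
    (Or.inl (solv_top Q))
  obtain ⟨F, f1, f2⟩ := prk_of_syl hp hP ((hc.prk hp h4).2 h1)
  obtain ⟨W, w1, w2, w3, w4⟩ := c.exists_inv hp h5 hP.pi hn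
  obtain ⟨B, b1, b2⟩ := f2.exists_inf hp
    (relIndex_cent_dvd16 hp h5 (f2.pi hp) (f1.trans w4) (c.comm w2) (c.pi' w2 h2) w3)
  exact ⟨p, F, B, hp, h2, f2, b1.trans (inf_le_inf_left _ (cent_anti w1)), b2⟩

end Ctx

end CA.FusV4
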