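import Cfsg.Agent.Lib.Fus.FusNil
import Cfsg.Agent.Lib.Loc.H6Core2

/-!
Glauberman's alternative for central subgroups normalised by `N(J(S))`, for groups and fusion systems.
-/

namespace CA.Fus

open Cfsg Subgroup CA.AmbSyl CA.AmbCore Relation
open Cfsg.FusionSystem (normalizerIn centralizerIn)
open CA.H6NPC (Fn fn_J)
open CA.H6J (J)
open scoped commutatorElement MatrixGroups Matrix

universe u

variable {Ω Ω' : Type*} [Group Ω] [Group Ω'] {T : Subgroup Ω} {α : MulAut T} {p : ℕ} {a : Ω} {θ : Ω → Ω'}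

/-- The commutator subgroup `[T, α]`. -/
noncomputable def Dm (α : MulAut T) : Subgroup Ω := img (fun t => act α t * t⁻¹) T

/-- `α` is a nontrivial `p'`-automorphism transitive on the nontrivial elements of `[T, α]`. -/
def Trv (p : ℕ) (α : MulAut T) : Prop := (∃ t ∈ T, act α t ≠ t) ∧ (orderOf α).Coprime p ∧
  ∀ a ∈ Dm α, ∀ b ∈ Dm α, a ≠ 1 → b ≠ 1 → ∃ k : ℕ, act (α ^ k) a = b

theorem Dm_le : Dm α ≤ T := img_le_iff.2 fun _ hx => mul_mem (act_mem α hx) (inv_mem hx)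

theorem Dm_act (ha : a ∈ Dm α) (k : ℕ) : act (α ^ k) a ∈ Dm α :=
  act_pow_maps (fun x hx => by
    simpa [Dm] using mul_mem (mem_img_of_mem (fun t => act α t * t⁻¹) (Dm_le hx)) hx) k a ha

variable [Finite T] [Fact p.Prime]

open scoped IsMulCommutative in
theorem Dm_fix (hT : IsPGroup p T) (hc : T ≤ centralizer (T : Set Ω)) (ho : (orderOf α).Coprime p)
    (ha : a ∈ Dm α) (h : act α a = a) : a = 1 := by
  have := H6Core2.isMulComm hc
  let N : T →* T := ∏ i ∈ Finset.range (orderOf α), (α ^ i).toMonoidHom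
  have h1 : ∀ t, N (α t) = N t := fun t => by
    have e := (Finset.prod_range_succ' (fun i => (α ^ i) t) (orderOf α)).symm.trans
      (Finset.prod_range_succ (fun i => (α ^ i) t) (orderOf α))
    simp only [pow_orderOf_eq_one, pow_zero, mul_left_inj, pow_succ, MulAut.mul_apply] at e
    simpa [N, MonoidHom.finset_prod_apply] using e
  have h2 : Dm α ≤ N.ker.map T.subtype := img_le_iff.2 fun x hx =>
    ⟨α ⟨x, hx⟩ * (⟨x, hx⟩ : T)⁻¹, by simp [h1], by simp [act_of_mem α hx]⟩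
  obtain ⟨b, hb, rfl⟩ := h2 ha
  have h3 : ∀ i : ℕ, (α ^ i) b = b := fun i => Subtype.ext ((act_coe _ b).symm.trans (act_pow_fixed h i))
  have h4 : b ^ orderOf α = 1 := by simpa [N, MonoidHom.finset_prod_apply, h3] using hb
  obtain ⟨k, hk⟩ := hT b
  rw [(pow_eq_one_iff_of_coprime (ho.pow_right k)).1 ⟨h4, hk⟩]; rfl

theorem tr_gen (hT : IsPGroup p T) (hc : T ≤ centralizer (T : Set Ω)) (hθ : HomOn T θ)
    (hk : ∀ x ∈ T, θ x = 1 → act α x = x) {n : ℕ} (hn : n.Coprime p) (h1 : ∀ x ∈ T, θ (act (α ^ n) x) = θ x)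
    (h2 : ∃ t ∈ T, θ (act α t) ≠ θ t) (h3 : ∀ a ∈ T, ∀ b ∈ T, θ a ∈ img (fun t => θ (act α t) * (θ t)⁻¹) T →
      θ b ∈ img (fun t => θ (act α t) * (θ t)⁻¹) T → θ a ≠ 1 → θ b ≠ 1 → ∃ k : ℕ, θ (act (α ^ k) a) = θ b) :
    ∃ β ∈ zpowers α, Trv p β := by
  let K : Subgroup (MulAut T) :=
    { carrier := {β | ∀ x ∈ T, θ (act β x) = θ x}
      one_mem' := fun x _ => by rw [act_one]
      mul_mem' := fun {β γ} hβ hγ x hx => by rw [act_mul, hβ _ (act_mem _ hx), hγ x hx]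
      inv_mem' := fun {β} hβ x hx => by rw [← hβ _ (act_mem _ hx), act_act_inv] }
  obtain ⟨u, v, ⟨i, hi⟩, hv, e, ⟨k, hu⟩, ho⟩ := PRes.exists_p_part (p := p) α
  have hK : u ∈ K := AmbRes.mem_of_pow_mem_of_coprime
    (Nat.Coprime.coprime_dvd_left (orderOf_dvd_of_pow_eq_one hu) (hn.symm.pow_left k)) (by
      rw [← hi, ← zpow_natCast, ← zpow_mul, mul_comm, zpow_mul, zpow_natCast]
      exact zpow_mem (show α ^ n ∈ K from h1) i)
  have hc' : Commute u v := by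
    obtain ⟨j, rfl⟩ := hv
    rw [← hi]; exact Commute.zpow_zpow_self α i j
  have e1 : ∀ (j : ℕ), ∀ x ∈ T, θ (act (v ^ j) x) = θ (act (α ^ j) x) := fun j x hx => by
    rw [e, hc'.mul_pow, act_mul, pow_mem hK j _ (act_mem _ hx)]
  have e2 : ∀ x ∈ T, θ (act v x) = θ (act α x) := by simpa only [pow_one] using e1 1
  have e3 : ∀ x ∈ Dm v, θ x = 1 → x = 1 := fun x hx h => Dm_fix hT hc ho hx (by
    obtain ⟨j, rfl⟩ := mem_powers_iff_mem_zpowers.2 hv
    exact act_pow_fixed (hk x (Dm_le hx) h) j)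
  have e4 : Dm v ≤ hθ.pre (img (fun t => θ (act α t) * (θ t)⁻¹) T) := img_le_iff.2 fun x hx =>
    ⟨mul_mem (act_mem _ hx) (inv_mem hx), by
      rw [hθ.mul_inv (act_mem _ hx) hx, e2 x hx]; exact mem_img_of_mem (fun t => θ (act α t) * (θ t)⁻¹) hx⟩
  refine ⟨v, hv, ?_, ho, fun a ha b hb ha' hb' => ?_⟩
  · obtain ⟨t, ht, h⟩ := h2
    exact ⟨t, ht, fun e => h (by rw [← e2 t ht, e])⟩
  · obtain ⟨j, hj⟩ := h3 a (Dm_le ha) b (Dm_le hb) (e4 ha).2 (e4 hb).2 (fun h => ha' (e3 a ha h)) fun h => hb' (e3 b hb h)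
    exact ⟨j, mul_inv_eq_one.1 (e3 _ (mul_mem (Dm_act ha j) (inv_mem hb)) (by
      rw [hθ.mul_inv (act_mem _ (Dm_le ha)) (Dm_le hb), e1 j a (Dm_le ha), hj, mul_inv_cancel]))⟩

omit [Finite T] [Fact p.Prime] in
theorem act_pow_map {T' : Subgroup Ω'} {β : MulAut T'} (e : ∀ x ∈ T, act β (θ x) = θ (act α x)) (n : ℕ) :
    ∀ x ∈ T, act (β ^ n) (θ x) = θ (act (α ^ n) x) := fun x hx => by
  induction n with
  | zero => rw [pow_zero, pow_zero, act_one, act_one]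
  | succ n ih => rw [act_pow_succ, act_pow_succ, ih, e _ (act_mem _ hx)]

theorem Trv.lift {T' : Subgroup Ω'} {β : MulAut T'} (h : Trv p β) (hT : IsPGroup p T) (hc : T ≤ centralizer (T : Set Ω))
    (hθ : HomOn T θ) (e : img θ T = T') (hk : ∀ x ∈ T, θ x = 1 → act α x = x)
    (h1 : ∀ x ∈ T, act β (θ x) = θ (act α x)) : ∃ γ ∈ zpowers α, Trv p γ := by
  have h2 : img (fun t => θ (act α t) * (θ t)⁻¹) T ≤ Dm β := img_le_iff.2 fun x hx => by
    rw [← h1 x hx]; exact mem_img_of_mem (fun t => act β t * t⁻¹) (e ▸ mem_img_of_mem θ hx)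
  refine tr_gen hT hc hθ hk h.2.1 (fun x hx => by rw [← act_pow_map h1 _ x hx, pow_orderOf_eq_one, act_one]) ?_
    fun a ha b _ h3 h4 h5 h6 => ?_
  · obtain ⟨t, ht, h3⟩ := h.1
    obtain ⟨x, hx, rfl⟩ := hθ.mem_img.1 (e.ge ht)
    exact ⟨x, hx, h1 x hx ▸ h3⟩
  · obtain ⟨k, hk⟩ := h.2.2 _ (h2 h3) _ (h2 h4) h5 h6
    exact ⟨k, act_pow_map h1 k a ha ▸ hk⟩

theorem exists_sl_fix {F : Type*} [Field F] {x : Fin 2 → F} (hx : x ≠ 0) : ∃ m : SL(2, F), m.1 *ᵥ ![1, 0] = x := by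
  by_cases h : x 0 = 0
  · have h1 : x 1 ≠ 0 := fun e => hx (H6Nat.vec_ext h e)
    exact ⟨⟨!![0, -(x 1)⁻¹; x 1, 0], by simp [Matrix.det_fin_two, h1]⟩,
      H6Nat.vec_ext (by simp [H6Nat.mulVec_two, h]) (by simp [H6Nat.mulVec_two])⟩
  · exact ⟨⟨!![x 0, 0; x 1, (x 0)⁻¹], by simp [Matrix.det_fin_two, h]⟩,
      H6Nat.vec_ext (by simp [H6Nat.mulVec_two]) (by simp [H6Nat.mulVec_two])⟩

theorem line_of_fix {F : Type*} [Field F] {x y : Fin 2 → F} {m : SL(2, F)} (hm : m ≠ 1) (hx : x ≠ 0)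
    (h1 : m.1 *ᵥ x = x) (h2 : m.1 *ᵥ y = y) : ∃ c : F, y = c • x := by
  by_cases h : x 0 * y 1 - x 1 * y 0 = 0
  · by_cases h0 : x 0 = 0
    · have h3 : x 1 ≠ 0 := fun e => hx (H6Nat.vec_ext h0 e)
      refine ⟨y 1 / x 1, H6Nat.vec_ext ?_ (by simp [h3])⟩
      rw [h0, zero_mul, zero_sub, neg_eq_zero] at h
      simp [h0, (mul_eq_zero.1 h).resolve_left h3]
    · exact ⟨y 0 / x 0, H6Nat.vec_ext (by simp [h0]) (by simp; field_simp; linear_combination h)⟩
  have a0 := congrFun h1 0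
  have a1 := congrFun h1 1
  have b0 := congrFun h2 0
  have b1 := congrFun h2 1
  rw [H6Nat.mulVec_two] at a0 a1 b0 b1
  refine (hm (Subtype.ext (SL2Basic.ext4 ?_ ?_ ?_ ?_))).elim <;> refine mul_left_cancel₀ h ?_ <;>
    simp only [Matrix.SpecialLinearGroup.coe_one, Matrix.one_apply_eq, Matrix.one_apply_ne (zero_ne_one' (Fin 2)),
      Matrix.one_apply_ne (zero_ne_one' (Fin 2)).symm]
  · linear_combination y 1 * a0 - x 1 * b0
  · linear_combination x 0 * b0 - y 0 * a0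
  · linear_combination y 1 * a1 - x 1 * b1
  · linear_combination x 0 * b1 - y 0 * a1

theorem exists_cjA {g : Ω} (hg : g ∈ normalizer (T : Set Ω)) (h : ∃ β ∈ zpowers (cjA T g), Trv p β) :
    ∃ g ∈ normalizer (T : Set Ω), Trv p (cjA T g) := by
  obtain ⟨_, ⟨i, rfl⟩, h⟩ := h
  exact ⟨g ^ i, zpow_mem hg i, (homOn_cjA T).zpow hg i ▸ h⟩

section grp

open CA.FusGl CA.H6Nat CA.H6Core

variable {G : Type u} [Group G] [Finite G] {V T A S : Subgroup G}

omit [Fact p.Prime] in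
theorem hyp_of_R1 {M : Subgroup G} (r : R1 p V M T A) : Hyp V ⊤ A M := by
  refine ⟨r.ab, r.nV, le_top, r.AM, r.quad, fun x _ hx => ?_, fun h => r.ne (top_le_iff.1 h),
    fun a ha h => r.core a ha fun g => Amb.mem_cj.2 (h g trivial), ?_, fun h => r.nc (le_top.trans h)⟩
  · rw [top_inf_eq]
    exact (r.uniq _ le_sup_left fun h => hx (inv_mem_iff.1 (r.mem_of_le (Amb.cj_le_iff.1 (le_sup_right.trans h))))).ge
  · conv_lhs => rw [r.gen]
    refine AmbRes.ncl_le_iff.2 fun g _ => Amb.cj_le_iff'.2 fun t ht => ?_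
    have := mul_mem (mem_sup_right (S := V ⊓ centralizer (A : Set G)) (commutator_comm V ⊤ ▸
      commutator_mem_commutator (mem_top g) (r.le ht))) (mem_sup_left ⟨r.le ht, AmbRes.cent_symm r.AT ht⟩)
    simpa [commutatorElement_def] using this

theorem tr_of_R1 (hp : p ≠ 2) (r : R1 p V (normalizer (T : Set G)) T A) :
    ∃ g ∈ normalizer (T : Set G), Trv p (cjA T g) := by
  have hH := hyp_of_R1 r
  obtain ⟨k, hk⟩ := IsPGroup.iff_card.1 r.pV
  obtain ⟨n, -, hn⟩ := (Nat.dvd_prime_pow Fact.out).1 (hk ▸ relIndex_dvd_card (centralizer (A : Set G)) V)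
  have hn0 : n ≠ 0 := fun e => hH.not_le (relIndex_eq_one.1 (by rw [hn, e, pow_zero]))
  obtain ⟨F, _, _, hF⟩ := H6Core2.exists_field (p := p) hn0
  have hq : Nat.card F = p ^ n := by rw [Nat.card_eq_fintype_card, hF]
  have := charP_of_card hq
  obtain ⟨d, hd⟩ := acts_iff.1 (hH.nt_of (H6Core2.fm_iff.1 (by rw [mul_comm]; exact r.off)) F (hq.trans hn.symm))
  have hs : ∀ m, ∃ g, d.r g = m := fun m => by
    obtain ⟨g, -, h⟩ := (d.mem_rim le_rfl).1 (hd.ge (mem_top m))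
    exact ⟨g, h⟩
  have hz : ∀ v ∈ V, d.ψ v = 0 → v ∈ center G := fun v hv h => Amb.centralizer_top.le ((d.ψ_zero hv).1 h).2
  obtain ⟨t, ht, ht'⟩ := SetLike.not_le_iff_exists.1 r.not_le_center
  have hx : d.ψ t ≠ 0 := fun h => ht' (hz t (r.le ht) h)
  have hA : ∀ a ∈ A, ∀ s ∈ T, (d.r a).1 *ᵥ d.ψ s = d.ψ s := fun a ha s hs => by
    rw [← d.act trivial (r.le hs), comm_of_cent (r.AT ha) hs]
  obtain ⟨a, ha, ha'⟩ := SetLike.not_le_iff_exists.1 r.nc
  have hl : ∀ s ∈ T, ∃ c : F, d.ψ s = c • d.ψ t := fun s hs => line_of_fix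
    (fun e => ha' (hH.inf_Kn.le ⟨ha, (d.mem_Kn trivial).2 e⟩).2) hx (hA a ha t ht) (hA a ha s hs)
  let H : Subgroup G :=
    { carrier := {g | ∃ c : F, (d.r g).1 *ᵥ d.ψ t = c • d.ψ t}
      one_mem' := ⟨1, by rw [d.r_one, sl_one_mulVec, one_smul]⟩
      mul_mem' := fun ⟨c, hc⟩ ⟨e, he⟩ => ⟨e * c, by
        rw [d.r_mul trivial trivial, sl_mul_mulVec, he, Matrix.mulVec_smul, hc, smul_smul]⟩
      inv_mem' := fun {g} ⟨c, hc⟩ => by
        have h := sl_inv_mulVec (d.r g) (d.ψ t)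
        rw [hc, Matrix.mulVec_smul] at h
        have h0 : c ≠ 0 := fun e => hx (by rw [← h, e, zero_smul])
        exact ⟨c⁻¹, by rw [d.r_inv trivial, eq_inv_smul_iff₀ h0, h]⟩ }
  obtain ⟨m, hm⟩ := exists_sl_fix hx
  have hHM : H ≤ normalizer (T : Set G) := fun g hg => by_contra fun hg' => by
    obtain ⟨b, hb⟩ := hs (m * SL2Unip.l 1 * m⁻¹)
    obtain ⟨c, hc⟩ := r.mem_top (H := H) hg' hg (fun a ha => ⟨1, by rw [hA a ha t ht, one_smul]⟩)
      (fun c hc => ⟨1, by rw [← d.act trivial (r.le ht), comm_of_cent hc (r.le ht), one_smul]⟩) b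
    rw [hb, ← hm, sl_mul_mulVec, sl_mul_mulVec, sl_inv_mulVec, ← Matrix.mulVec_smul] at hc
    have := congrArg (fun x => ((m⁻¹).1 *ᵥ x) 1) hc
    simp only [sl_inv_mulVec, l_mulVec] at this
    simp at this
  obtain ⟨μ, hμ⟩ := IsCyclic.exists_generator (α := Fˣ)
  obtain ⟨g, hg⟩ := hs (m * SL2Torus.dg μ * m⁻¹)
  have h1 : (d.r g).1 *ᵥ d.ψ t = (μ : F) • d.ψ t := by
    rw [hg, ← hm, sl_mul_mulVec, sl_mul_mulVec, sl_inv_mulVec, ← Matrix.mulVec_smul, SL2Torus.dg_coe]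
    exact congrArg _ (vec_ext (by simp [mulVec_two]) (by simp [mulVec_two]))
  have hgN := hHM ⟨_, h1⟩
  have h2 : ∀ (j : ℕ), ∀ s ∈ T, d.ψ (act (cjA T g ^ j) s) = (μ : F) ^ j • d.ψ s := fun j s hs => by
    induction j with
    | zero => rw [pow_zero, act_one, pow_zero, one_smul]
    | succ j ih =>
      obtain ⟨c, hc⟩ := hl s hs
      rw [act_pow_succ, act_cjA hgN (act_mem _ hs), d.act trivial (r.le (act_mem _ hs)), ih, hc, Matrix.mulVec_smul,
        Matrix.mulVec_smul, h1, smul_comm c, smul_smul, pow_succ]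
  refine exists_cjA hgN (tr_gen (θ := fun x => Multiplicative.ofAdd (d.ψ x)) (r.pV.to_le r.le)
    ((r.le.trans r.ab).trans (Amb.centralizer_anti r.le))
    (fun x hx y hy => congrArg _ (d.ψ_mul (r.le hx) (r.le hy))) (fun x hx h => ?_) (n := p ^ n - 1) ?_
    (fun x hx => ?_) ⟨t, ht, fun e => ?_⟩ fun x hx y hy _ _ h3 h4 => ?_)
  · rw [act_cjA hgN hx, mem_center_iff.1 (hz x (r.le hx) h) g, mul_inv_cancel_right]
  · refine ((Nat.Prime.coprime_iff_not_dvd Fact.out).2 fun h => (Fact.out : p.Prime).ne_one (Nat.dvd_one.1 ?_)).symm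
    have := Nat.dvd_sub (dvd_pow_self p hn0) h
    rwa [Nat.sub_sub_self (Nat.one_le_pow _ _ (Fact.out : p.Prime).pos)] at this
  · rw [h2 _ x hx, ← hF, FiniteField.pow_card_sub_one_eq_one _ μ.ne_zero, one_smul]
  · have h3 := h2 1 t ht
    rw [pow_one, pow_one, Multiplicative.ofAdd.injective e, eq_comm, ← sub_eq_zero] at h3
    nth_rewrite 2 [← one_smul F (d.ψ t)] at h3
    rw [← sub_smul, smul_eq_zero_iff_left hx, sub_eq_zero] at h3
    obtain ⟨i, hi⟩ := hμ (-1)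
    rw [Units.val_eq_one.1 h3] at hi
    have h4 := congrArg Units.val hi
    simp only [one_zpow, Units.val_one, Units.val_neg] at h4
    exact SL2Basic.two_ne_zero_of_char p hp (by linear_combination h4)
  · obtain ⟨c, hc⟩ := hl x hx
    obtain ⟨e, he⟩ := hl y hy
    have hc0 : c ≠ 0 := fun h => h3 (by rw [hc, h, zero_smul]; rfl)
    have he0 : e ≠ 0 := fun h => h4 (by rw [he, h, zero_smul]; rfl)
    obtain ⟨j, hj⟩ := mem_powers_iff_mem_zpowers.2 (hμ (Units.mk0 (e / c) (div_ne_zero he0 hc0)))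
    refine ⟨j, congrArg _ ?_⟩
    rw [h2 j x hx, hc, he, smul_smul, ← Units.val_pow_eq_pow_val, show μ ^ j = _ from hj, Units.val_mk0,
      div_mul_cancel₀ e hc0]

/-- Glauberman's alternative for a central subgroup of `S` normalised by `N(J(S))`. -/
theorem glaub_grp (hp : p ≠ 2) {G : Type u} [Group G] [Finite G] {S T : Subgroup G} (hS : SylIn p S ⊤)
    (hT : T ≤ pCoreOf p ⊤) (hTS : S ≤ centralizer (T : Set G))
    (h : normalizer (J 0 S : Set G) ≤ normalizer (T : Set G)) :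
    ⊤ ≤ normalizer (T : Set G) ∨ ∃ g ∈ normalizer (T : Set G), Trv p (cjA T g) := by
  induction hc : Nat.card G using Nat.strong_induction_on generalizing G with
  | _ m ih =>
  refine or_iff_not_imp_right.2 fun hn => by_contra fun hx => hn ?_
  have hTS' := hT.trans (pCoreOf_le_syl hS)
  obtain ⟨A, r⟩ := exists_R1 (n := 0) hS (Amb.norm_of_centralizer hTS) (fun e => hx e.ge) h hT hTS
    (fun t _ => pow_zero t) (centralizer_le_normalizer _) fun H R h2 h3 h4 h5 h6 => by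
      have h7 := hT.trans h3
      rcases ih _ (hc ▸ H6NPC.card_lt_of_ne_top h2) (H6NPC.sylIn_subgroupOf_top h5) (T := T.subgroupOf H)
        (fun x hx => by
          rw [pCoreOf_top, ← mem_pCoreOf_iff]; exact pCoreOf_le_pCoreOf_of_le le_top h3 (hT hx))
        (fun x hx y hy => Subtype.ext (hTS (h4 hx) y hy)) (fun g hg => by
          rw [H6J.J_subgroupOf h5.le, Amb.normalizer_subgroupOf ((H6J.J_le 0 R).trans h5.le)] at hg
          rw [Amb.normalizer_subgroupOf h7]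
          exact h6 ⟨g.2, hg⟩) rfl with e | ⟨g, hg, e⟩
      · rw [Amb.normalizer_subgroupOf h7] at e
        exact fun g hg => e (mem_top (⟨g, hg⟩ : H))
      refine (hn ?_).elim
      obtain ⟨θ, i⟩ := (homOn_hom (T.subgroupOf H) H.subtype).exists_hIso fun _ _ _ _ => Subtype.ext
      rw [img_hom, map_subgroupOf_eq_of_le h7] at i
      have hg' : (g : G) ∈ normalizer (T : Set G) := by rwa [Amb.normalizer_subgroupOf h7] at hg
      refine exists_cjA hg' (e.lift (hS.pg.to_le hTS') (hTS'.trans hTS) i.symm.hom i.symm.img_eq (fun x hx h => ?_)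
        fun x hx => ?_)
      · rw [i.symm.inj x hx 1 (one_mem _) (h.trans i.symm.hom.one.symm), (homOn_act _).one]
      · rw [act_cjA hg (i.mapg x hx), act_cjA hg' hx, ← i.gf _ (conj_mem_of_norm hg (i.mapg x hx))]
        exact congrArg θ (by rw [map_mul, map_mul, i.fg x hx]; rfl)
  exact tr_of_R1 hp r

end grp

variable {S : Subgroup Ω} {S' : Subgroup Ω'} {F : FusionSystem S}

/-- Some `F`-automorphism of `T` is transitive on the nontrivial elements of its commutator subgroup. -/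
def Gd (F : FusionSystem S) (p : ℕ) (T : Subgroup Ω) : Prop := ∃ α ∈ F.autGroup T, Trv p α

omit [Finite T] in
theorem Quo.gd [Finite S] {E : FusionSystem S'} (q : Quo F E θ) (hS : IsPGroup p S)
    (hT : T ≤ S ⊓ centralizer (S : Set Ω)) (h1 : ∀ P f, Mor F P f → ∀ x ∈ P, x ∈ T → θ x = 1 → f x = x)
    (h2 : img θ T ≠ ⊥ → ∀ f, Mor F (q.hom.pre (img θ T)) f →
      (∀ x ∈ q.hom.pre (img θ T), f x ∈ q.hom.pre (img θ T)) → ∀ x ∈ T, f x ∈ T) (h : Gd E p (img θ T)) : Gd F p T := by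
  obtain ⟨β, hβ, h⟩ := h
  have hTS := hT.trans inf_le_left
  have := fin_le hTS
  have h3 := q.hom.le_pre_img hTS
  obtain ⟨f, hf, e⟩ := q.bwd ((mem_aut (img_le_iff.2 fun _ hx => q.mem (hTS hx))).1 hβ)
  obtain ⟨α, hα, e'⟩ := (hf.mono h3).exists_aut (h2 (fun e => by
    obtain ⟨t, ht, h⟩ := h.1
    exact h (by rw [mem_bot.1 (e.le ht), (homOn_act β).one])) f hf fun x hx => ⟨hf.mem hx, e x hx ▸ act_mem β hx.2⟩)
  obtain ⟨γ, hγ, h4⟩ := h.lift (α := α) (hS.to_le hTS) ((hT.trans inf_le_right).trans (Amb.centralizer_anti hTS))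
    (q.hom.mono hTS) rfl (fun x hx h => (e' x hx).trans (h1 _ f hf x (h3 hx) hx h)) fun x hx => by
      rw [e x (h3 hx), e' x hx]
  exact ⟨γ, zpowers_le.2 hα hγ, h4⟩

omit [Finite T] [Fact p.Prime] in
theorem IsKN.maps {U P : Subgroup Ω} {f : Ω → Ω} {E : FusionSystem U} (hE : IsKN F (⊤ : Subgroup (MulAut T)) E)
    (hf : Mor E P f) (hP : T ≤ P) : ∀ x ∈ T, f x ∈ T := fun x hx => by
  obtain ⟨-, g, -, e1, e2⟩ := kMor_top.1 ((hE.2 P f).1 hf)
  exact e1 x (hP hx) ▸ e2.le (mem_img_of_mem g hx)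

/-- Glauberman's alternative for fusion systems. -/
theorem glaub_fus (hp : p ≠ 2) {Ω : Type u} [Group Ω] {S : Subgroup Ω} [Finite S] (F : FusionSystem S) :
    IsPGroup p S → F.IsSaturated p → ∀ T, T ≤ S ⊓ centralizer (S : Set Ω) →
      (∀ f, KMor F (⊤ : Subgroup (MulAut (J 0 S))) (J 0 S) f → ∀ x ∈ T, f x ∈ T) → F.IsNormal T ∨ Gd F p T := by
  refine fus_ind (M := fun {Ω} _ {S} _ F => IsPGroup p S → F.IsSaturated p → ∀ T, T ≤ S ⊓ centralizer (S : Set Ω) →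
    (∀ f, KMor F (⊤ : Subgroup (MulAut (J 0 S))) (J 0 S) f → ∀ x ∈ T, f x ∈ T) → F.IsNormal T ∨ Gd F p T)
    (fun {Ω} _ {S} _ F ih ih' hS hF T hT h => or_iff_not_imp_right.2 fun hn => ?_) F
  have hW : Fn p fun {G : Type u} [Group G] (X : Subgroup G) => J 0 X := fn_J (dvd_zero p)
  have hTS := hT.trans inf_le_left
  have := fin_le hTS
  have hN := Amb.norm_of_centralizer (AmbRes.cent_symm (hT.trans inf_le_right))
  obtain ⟨E, -, hE⟩ := loc_norm' hS hF hTS hN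
  have h0 : NLe F (J 0 S) E := fun P f hf => by
    obtain ⟨h1, g, hg, e1, e2⟩ := kMor_top.1 hf
    have h2 := (hT.trans Z_le_J).trans (le_sup_right (a := P))
    exact (hE.2 P f).2 (kMor_top.2 ⟨le_inf (h1.trans inf_le_left) ((h1.trans inf_le_left).trans hN), g,
      hg.mono (sup_le le_sup_left h2), e1, (hg.mono h2).img_eq_of_maps (h g (kMor_top.2 ⟨le_normIn (H6J.J_le 0 S), g,
        hg.mono (by rw [sup_idem]; exact le_sup_right), fun _ _ => rfl, e2⟩))⟩)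
  rcases reduce_fn hW hS hF h0 (fun {U} _ D hD hd h => NLe.sub_of_normal (hE.kLe.sub hD.sub)
    ((ih' D hD.sub hd (hS.to_le hD.le) hD.sat T (hT.trans hD.center_le) fun f hf => hE.maps (h _ f hf)
      ((hT.trans hD.center_le).trans Z_le_J)).resolve_right fun ⟨α, hα, h⟩ => hn ⟨α, aut_mono hD.sub T hα, h⟩))
    with h | h | ⟨h, h'⟩
  · exact hE.normal_of_sub h
  · obtain ⟨G, _, _, U, j, j', md, -⟩ := exists_mdl hS h (c := True) (H := Unit) (Or.inl trivial)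
    have h1 : T ≤ F.core := fun z hz => (md.mem_core (hT hz)).2
    have h2 := md.hom.mono hTS
    rcases glaub_grp hp md.syl (T := img j T) (md.core ▸ img_mono j h1) (AmbRes.cent_symm (img_le_iff.2
      fun z hz => (md.mem_core (hT hz)).1.2)) (fun g hg => mem_normalizer_fintype fun y hy => by
        obtain ⟨f, hf, e⟩ := md.kMor (H6J.J_le 0 S) (fn_norm' hW hS) (by rwa [fn_iso hW hS md.toHIso])
        obtain ⟨x, hx, rfl⟩ := h2.mem_img.1 hy
        exact e x (h1 hx) ▸ mem_img_of_mem j (hE.maps (h0 _ f hf) h1 x hx)) with e | ⟨g, hg, e⟩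
    · exact md.normal hTS e
    refine (hn (md.toFIso.quo.gd hS hT (fun P f hf x hx h3 h4 => ?_) (fun _ f _ => ?_) ⟨_, (mem_aut (md.img_le hTS)).2
      (mor_group.2 ⟨md.img_le hTS, fun x hx => md.img_le hTS (act_mem _ hx), g, fun x hx => act_cjA hg hx⟩), e⟩)).elim
    · rw [md.inj x (hTS h3) 1 (one_mem _) (h4.trans md.hom.one.symm), hf.hom.one]
    · rw [HomOn.pre_img_of_le _ hTS (md.ker_eq.le.trans bot_le)]; exact id
  · obtain ⟨Ω', _, S', _, E', θ, q, e, h1, h2, -⟩ := exists_quo_core hS hF (c := True) (H := Unit) (Or.inl trivial)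
      (normal_sc (core_normal F))
    have h4 : img θ T ≤ S' ⊓ centralizer (S' : Set Ω') := img_le_iff.2 fun z hz =>
      ⟨q.mem (hT hz).1, q.img_eq ▸ q.hom.map_cent le_rfl (hT hz).1 (hT hz).2⟩
    have h5 : ∀ U', U' ≤ S' → U' ≠ ⊥ → S' ≤ normalizer (U' : Set Ω') → img θ T ≤ U' → ∀ f,
        KMor F (⊤ : Subgroup (MulAut (q.hom.pre U'))) (q.hom.pre U') f → ∀ x ∈ T, f x ∈ T := fun U' a b c d f hf =>
      hE.maps (h' _ (e ▸ q.ker_lt_pre a b) (q.hom.pre_le _) (q.pre_norm c) _ f hf)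
        ((q.hom.le_pre_img hTS).trans (q.hom.pre_mono d))
    rcases ih E' (q.card_lt (e ▸ h.ne_bot)) h1 h2 _ h4 (fun g hg y hy => by
      obtain ⟨f, hf, e'⟩ := q.kMor_lift hg
      obtain ⟨x, hx, rfl⟩ := (q.mem_img hTS).1 hy
      rw [e' x ⟨hTS hx, Z_le_J (h4 hy)⟩]
      exact mem_img_of_mem θ (h5 _ (H6J.J_le 0 S') (fn_ne hW h1 (h.quo_ne_bot q e)) (fn_norm' hW h1)
        (h4.trans Z_le_J) f hf x hx)) with h6 | h6
    · exact central_normal (h.central (e ▸ (q.hom.img_eq_bot_iff hTS).1 (h.quo_normal hS hF q e h6))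
        (hT.trans inf_le_right))
    refine (hn (q.gd hS hT (fun P f hf x hx h7 h8 => central_fix (h.central (U := F.core ⊓ T) inf_le_left
      (inf_le_right.trans (hT.trans inf_le_right))) hf hx ⟨e.le ⟨hTS h7, h8⟩, h7⟩) (fun h7 f hf h8 => ?_) h6)).elim
    have := fin_le (q.hom.pre_le (img θ T))
    exact h5 _ (h4.trans inf_le_left) h7 (Amb.norm_of_centralizer (AmbRes.cent_symm (h4.trans inf_le_right))) le_rfl f
      (kMor_top.2 ⟨le_normIn (q.hom.pre_le _), f, hf.mono (sup_idem _).le, fun _ _ => rfl, hf.img_eq_of_maps h8⟩)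

end CA.Fus
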