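import Cfsg.Agent.Lib.Fus.FusTate
import Cfsg.Agent.Lib.Fus.FusCtl
import Cfsg.Agent.Lib.Fus.FusExp
import Cfsg.Agent.Lib.Fus.FusUp

/-!
A nilpotency criterion by weakly embedded subgroups of a fixed order.
-/

namespace CA.Fus

open Cfsg Subgroup CA.AmbSyl CA.AmbCore

universe u

variable {p : ℕ} [hp : Fact p.Prime]

theorem exists_nb {Ω : Type*} [Group Ω] {S M N : Subgroup Ω} [Finite S] {k : ℕ} (hS : IsPGroup p S) (h : N ≤ M)
    (hM : M ≤ S) (n1 : S ≤ normalizer (N : Set Ω)) (n2 : S ≤ normalizer (M : Set Ω)) (h1 : Nat.card N ≤ p ^ k)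
    (h2 : p ^ k ≤ Nat.card M) : ∃ K, N ≤ K ∧ K ≤ M ∧ S ≤ normalizer (K : Set Ω) ∧ Nat.card K = p ^ k := by
  have := normal_subgroupOf_of_le_normalizer n1
  have := normal_subgroupOf_of_le_normalizer n2
  have := fin_le (h.trans hM)
  obtain ⟨j, e⟩ := (hS.to_le (h.trans hM)).exists_card_eq
  obtain ⟨i, rfl⟩ := Nat.exists_eq_add_of_le ((Nat.pow_le_pow_iff_right hp.out.one_lt).1 (e ▸ h1))
  have e1 := Nat.card_congr (subgroupOfEquivOfLe (h.trans hM)).toEquiv
  obtain ⟨K, _, h3, h4, h5⟩ := PGBasic.exists_normal_card_between hS (subgroupOf_mono S h) i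
    (by rwa [e1, Nat.card_congr (subgroupOfEquivOfLe hM).toEquiv, e, ← pow_add])
  exact ⟨K.map S.subtype, (map_subgroupOf_eq_of_le (h.trans hM)).ge.trans (map_mono h3),
    (map_mono h4).trans (map_subgroupOf_eq_of_le hM).le, Amb.norm_map_subtype K,
      by rw [card_map_of_injective S.subtype_injective, h5, e1, e, pow_add]⟩

theorem wh_hyper {Ω : Type u} [Group Ω] {S : Subgroup Ω} [Finite S] {F : FusionSystem S} {k : ℕ} (hS : IsPGroup p S)
    (hF : F.IsSaturated p) (hk : p ^ k < Nat.card S) (ha : ∀ Q, Q ≤ S → Nat.card Q = p ^ k →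
      ∃ P, F.StronglyClosed P ∧ F.StronglyClosed (Q ⊔ P) ∧ F.StronglyClosed (Q ⊓ P))
    (hb : ∀ H, F.IsFullyNormalized H → Nat.card H = p ^ k → NLe F H (innerFusionSystem S)) :
    F.hyperfocalSubgroup p = ⊥ := by
  induction h : Nat.card S using Nat.strong_induction_on generalizing Ω k with | _ n ih => ?_
  subst h
  by_contra h0
  have B : ∀ N, F.StronglyClosed N → N ≠ ⊥ → Nat.card N ≤ p ^ k → F.hyperfocalSubgroup p ≤ N := fun N h1 h2 h3 => by
    obtain ⟨Ω', _, S', _, E, θ, q, rfl, h4, h5, -⟩ := exists_quo_core (H := Unit) hS hF (.inl trivial) h1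
    have := fin_le h1.1
    obtain ⟨j, e⟩ := (hS.to_le h1.1).exists_card_eq
    obtain ⟨i, rfl⟩ := Nat.exists_eq_add_of_le' ((Nat.pow_le_pow_iff_right hp.out.one_lt).1 (e ▸ h3))
    have c : ∀ Q, Q ≤ S' → Nat.card Q = p ^ i → Nat.card (q.hom.pre Q) = p ^ (i + j) := fun Q h6 h7 => by
      rw [q.hom.card_of_ker_le (q.hom.pre_le _) (q.hom.pre_mono bot_le), q.img_pre h6, h7, e, pow_add]
    have h6 := ih _ (q.card_lt h2) h4 h5 (k := i) (by
      rw [q.hom.card_eq_mul, q.img_eq, e, pow_add] at hk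
      exact lt_of_mul_lt_mul_right hk (Nat.zero_le _)) (fun Q h6 h7 => ?_) (fun H h6 h7 => q.nLe (hb _
        ((q.fullyNorm_iff (q.hom.pre_le _) (q.hom.pre_mono bot_le)).1 (by rwa [q.img_pre h6.1])) (c H h6.1 h7))) rfl
    · exact (q.hom.le_pre_img (hyper_le F p)).trans (q.hom.pre_mono (q.hyper.symm.trans h6).le)
    obtain ⟨P, h8, h9, h10⟩ := ha _ (q.hom.pre_le Q) (c Q h6 h7)
    refine ⟨_, q.sc_img h8, by simpa only [q.img_sup (q.hom.pre_le Q) h8.1, q.img_pre h6] using q.sc_img h9, ?_⟩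
    convert q.sc_img h10 using 1
    refine le_antisymm (fun y hy => ?_) (le_inf ((img_mono θ inf_le_left).trans (q.img_pre h6).le) (img_mono θ inf_le_right))
    obtain ⟨x, hx, rfl⟩ := (q.mem_img h8.1).1 hy.2
    exact mem_img_of_mem θ ⟨⟨h8.1 hx, hy.1⟩, hx⟩
  rcases k with _ | k
  · refine h0 ((hyper_eq_bot_iff hS hF).2 (sub_antisymm ((hb ⊥ (normal_fullyNorm (normal_bot F)) (by simp)).sub_of_normal
      (normal_bot F)) (inner_sub F le_rfl)))
  have nb : ∀ {Q : Subgroup Ω}, Nat.card Q = p ^ (k + 1) → Q ≠ ⊥ := fun e h =>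
    (Nat.one_lt_pow k.succ_ne_zero hp.out.one_lt).ne (by rw [← e, h, card_bot])
  have A : ∀ P, F.StronglyClosed P → P ≠ ⊥ → ∃ N, F.StronglyClosed N ∧ N ≠ ⊥ ∧ N ≤ P ∧ Nat.card N ≤ p ^ (k + 1) := by
    intro P h1 h2
    induction h : Nat.card P using Nat.strong_induction_on generalizing P with | _ n ih => ?_
    subst h
    have := fin_le h1.1
    rcases le_total (Nat.card P) (p ^ (k + 1)) with h3 | h3
    · exact ⟨P, h1, h2, le_rfl, h3⟩
    obtain ⟨Q, -, h4, -, h5⟩ := exists_nb hS bot_le h1.1 (sc_norm (sc_bot F)) (sc_norm h1) (by simpa using Nat.one_le_pow _ _ hp.out.pos) h3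
    obtain ⟨R, h6, h7, h8⟩ := ha Q (h4.trans h1.1) h5
    have := fin_le h4
    by_cases h9 : Q ⊓ R = ⊥
    swap
    · exact ⟨_, h8, h9, inf_le_left.trans h4, (card_le_of_le inf_le_left).trans h5.le⟩
    by_cases h10 : R ⊓ P = ⊥
    · have := sc_inf h7 h1
      rw [Amb.sup_inf_of_norm ((h4.trans h1.1).trans (sc_norm h6)) h4, h10, sup_bot_eq] at this
      exact ⟨Q, this, nb h5, h4, h5.le⟩
    obtain ⟨N, c1, c2, c3, c4⟩ := ih _ (card_lt_of_lt (inf_le_right.lt_of_ne fun e =>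
      nb h5 (h9 ▸ (inf_eq_left.2 (h4.trans (inf_eq_right.1 e))).symm))) _ (sc_inf h6 h1) h10 rfl
    exact ⟨N, c1, c2, c3.trans inf_le_right, c4⟩
  have C : ∀ P, F.StronglyClosed P → P ≠ ⊥ → F.hyperfocalSubgroup p ≤ P := fun P h1 h2 =>
    let ⟨N, c1, c2, c3, c4⟩ := A P h1 h2; (B N c1 c2 c4).trans c3
  have hT := hyper_sc hS hF
  obtain ⟨N, c1, c2, -, c4⟩ := A _ hT h0
  have := fin_le c1.1
  have c5 := (card_le_of_le (B N c1 c2 c4)).trans c4
  obtain ⟨M, m1, m2⟩ : ∃ M : Subgroup S, IsCoatom M ∧ ¬ F.hyperfocalSubgroup p ≤ M.map S.subtype := by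
    by_contra h
    push Not at h
    refine h0 (le_bot_iff.1 (tate_core hS hF (sc_norm (sc_bot F)) (fun x hx => mem_sup_right ⟨⟨x, hT.1 hx⟩, ?_, rfl⟩) bot_le))
    simp only [frattini, Order.radical, SetLike.mem_coe, mem_iInf]
    exact fun M hM => let ⟨y, hy, e⟩ := h M hM hx; (Subtype.ext e : y = ⟨x, _⟩) ▸ hy
  have := PGBasic.normal_of_isCoatom hS m1
  have m3 := Amb.norm_map_subtype M
  have := fin_le hT.1
  by_cases h1 : M.map S.subtype ⊓ F.hyperfocalSubgroup p = ⊥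
  swap
  · obtain ⟨Q, h2, h3, -, h4⟩ := exists_nb hS inf_le_left (map_subtype_le M) (Amb.norm_inf m3 (sc_norm hT)) m3
      ((card_le_of_le inf_le_right).trans c5) (by
        obtain ⟨j, e⟩ := (hS.to_subgroup M).exists_card_eq
        rw [← M.card_mul_index, PGBasic.index_eq_of_isCoatom hS m1, e, ← pow_succ,
          Nat.pow_lt_pow_iff_right hp.out.one_lt] at hk
        rw [card_map_of_injective S.subtype_injective, e]
        exact Nat.pow_le_pow_right hp.out.pos (by omega))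
    obtain ⟨P, h5, h6, h7⟩ := ha Q (h3.trans (map_subtype_le M)) h4
    have h8 : Q ⊓ P = ⊥ := by_contra fun h => m2 ((C _ h7 h).trans (inf_le_left.trans h3))
    refine h1 (le_bot_iff.1 ((le_inf h2 (inf_le_right.trans (C P h5 ?_))).trans h8.le))
    rintro rfl
    exact m2 ((C Q (by simpa using h6) (nb h4)).trans h3)
  have h2 : F.hyperfocalSubgroup p ≤ centralizer S := commutator_eq_bot_iff_le_centralizer.1 (le_bot_iff.1 (h1 ▸ le_inf
    ((commutator_mono hT.1 le_rfl).trans ((le_frattini' hS).trans (map_mono (frattini_le_coatom m1))))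
    (le_normalizer_iff_commutator_le_left.1 (sc_norm hT))))
  obtain ⟨H, h3, h4, h5, h6⟩ := exists_nb hS hT.1 le_rfl (sc_norm hT) le_normalizer c5 hk.le
  have := fin_le h4
  refine h0 (le_bot_iff.1 (hyper_le_of_cr hS hF (sc_norm (sc_bot F)) fun P h7 h8 _ α hα hc x hx => ?_))
  have h9 : F.hyperfocalSubgroup p ≤ P := (le_inf hT.1 (h2.trans (centralizer_le h7.1))).trans (centric_self_le h8)
  have h10 := ((mem_aut h7.1).1 hα).mono h9
  obtain ⟨β, hβ, e⟩ := exists_aut_of_central hS hF h10 h2 ((sc_img_le hT h10 le_rfl).trans h2)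
  obtain ⟨γ, hγ, e'⟩ := exists_aut_restrict le_rfl hβ h4 fun y hy =>
    (aut_le_stab_sc (sc_of_hyper_le hS hF h3 h4 h5) S hβ y).2 hy
  obtain ⟨-, g, hg, e''⟩ := mor_inner.1 ((mem_aut h4).1 ((hb H (fullyNorm_of_normal h4 h5) h6).aut_le h4 hγ))
  rw [fix_of_fix_le (hS.to_le h7.1) hc (fun y hy => by rw [← e y hy, ← e' y (h3 hy), e'' y (h3 hy), h2 hy g hg,
    mul_inv_cancel_right]) (hyper_le_iff'.1 le_rfl P h7.1 α hα hc x hx), inv_mul_cancel]
  exact one_mem _

theorem inner_iff_wh {Ω : Type*} [Group Ω] {S : Subgroup Ω} [Finite S] {F : FusionSystem S} (hS : IsPGroup p S)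
    (hF : F.IsSaturated p) (h : p ^ 2 ≤ Nat.card S) : (∀ P, F.Hom P = (innerFusionSystem S).Hom P) ↔ ∃ D, ⊥ < D ∧ D < S ∧
      (∀ Q, Q ≤ S → Nat.card Q = Nat.card D → ∃ P, F.StronglyClosed P ∧ F.StronglyClosed (Q ⊔ P) ∧
        F.StronglyClosed (Q ⊓ P)) ∧ ∀ H, F.IsFullyNormalized H → Nat.card H = Nat.card D →
          ∀ N : FusionSystem (FusionSystem.normalizerIn S H), F.IsNormalizerSystem H N →
            ∀ P, N.Hom P = (innerFusionSystem (FusionSystem.normalizerIn S H)).Hom P := by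
  obtain ⟨n, e⟩ := hS.exists_card_eq
  obtain ⟨n, rfl⟩ := Nat.exists_eq_add_of_le' ((Nat.pow_le_pow_iff_right hp.out.one_lt).1 (e ▸ h))
  refine inner_iff_hom.trans ⟨fun h1 => ?_, fun ⟨D, _, h2, h3, h4⟩ => ?_⟩
  · obtain ⟨D, -, h2, -, h3⟩ := exists_nb (k := n + 1) hS bot_le le_rfl (sc_norm (sc_bot F)) le_normalizer
      (by simpa using Nat.one_le_pow _ _ hp.out.pos) (e ▸ Nat.pow_le_pow_right hp.out.pos (by omega))
    refine ⟨D, bot_lt_iff_ne_bot.2 fun h => (Nat.one_lt_pow n.succ_ne_zero hp.out.one_lt).ne (by rw [← h3, h, card_bot]),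
      h2.lt_of_ne fun h => (Nat.pow_lt_pow_right hp.out.one_lt (n + 1).lt_succ_self).ne (by rw [← h3, h, e]),
      fun Q h4 h5 => ⟨⊥, sc_bot F, ?_, by simpa using sc_bot F⟩, fun H _ _ N hN => normSys_inner h1 hN⟩
    have := PGBasic.card_mul_relIndex h4
    rw [h5, h3, e, pow_succ p (n + 1)] at this
    rw [sup_bot_eq]
    exact sc_of_hyper_le hS hF (((hyper_mono h1).trans (hyper_inner hS).le).trans bot_le) h4
      (le_normalizer_iff_commutator_le_right.2 ((commutator_mono le_rfl h4).trans ((le_frattini' hS).trans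
        ((map_mono (frattini_le_coatom (PGBasic.isCoatom_of_index_prime hp.out (Nat.eq_of_mul_eq_mul_left
          (pow_pos hp.out.pos _) this)))).trans (map_subgroupOf_eq_of_le h4).le))))
  · have := fin_le h2.le
    obtain ⟨k, e'⟩ := (hS.to_le h2.le).exists_card_eq
    rw [(hyper_eq_bot_iff hS hF).1 (wh_hyper hS hF (e' ▸ card_lt_of_lt h2) (e' ▸ h3) fun H h5 h6 =>
      nLe_inner h5.1 (h4 H h5 (e' ▸ h6)))]
    exact sub_refl _

end CA.Fus
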