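import Cfsg.Agent.Lib.Fus.FusPark

/-!
A group acting on a directed graph acts, after passing to the group of based paths, on a tree; finite subgroups
fix a vertex.
-/

set_option autoImplicit false

namespace CA.H8Hnn

open FreeGroup hiding map_one map_mul map_inv norm norm_one norm_eq_zero

universe u

section Path

variable {E V : Type*} (s t : E → V)

/-- the initial vertex of a letter -/
def ini (l : E × Bool) : V := cond l.2 (s l.1) (t l.1)

/-- the terminal vertex of a letter -/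
def ter (l : E × Bool) : V := cond l.2 (t l.1) (s l.1)

/-- a word is a path between two vertices -/
def Pth : V → List (E × Bool) → V → Prop
  | v, [], w => v = w
  | v, l :: L, w => ini s t l = v ∧ Pth (ter s t l) L w

variable {s t}

theorem pth_append {L M : List (E × Bool)} {v w : V} :
    Pth s t v (L ++ M) w ↔ ∃ u, Pth s t v L u ∧ Pth s t u M w := by
  induction L generalizing v with
  | nil => simp [Pth]
  | cons l L ih => simp [Pth, ih, and_assoc]

theorem Pth.step {L M : List (E × Bool)} {v w : V} (h : Red.Step L M) (hp : Pth s t v L w) : Pth s t v M w := by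
  obtain @⟨L₁, L₂, x, b⟩ := h
  obtain ⟨u, h1, h2, -, h4⟩ := pth_append.1 hp
  refine pth_append.2 ⟨u, h1, ?_⟩
  rw [← h2]
  cases b <;> exact h4

theorem Pth.red {L M : List (E × Bool)} {v w : V} (h : Red L M) (hp : Pth s t v L w) : Pth s t v M w := by
  induction h with
  | refl => exact hp
  | tail _ h2 ih => exact ih.step h2

theorem Pth.inv {L : List (E × Bool)} {v w : V} (hp : Pth s t v L w) : Pth s t w (invRev L) v := by
  induction L generalizing v with
  | nil => exact Eq.symm hp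
  | cons l L ih =>
    rw [invRev_cons]
    obtain ⟨x, b⟩ := l
    refine pth_append.2 ⟨_, ih hp.2, ?_⟩
    have := hp.1
    cases b <;> exact ⟨rfl, this⟩

theorem Pth.iff {N : V → Prop} {L : List (E × Bool)} {v w : V} (hp : Pth s t v L w)
    (h : ∀ l ∈ L, N (s l.1) ↔ N (t l.1)) : N v ↔ N w := by
  induction L generalizing v with
  | nil => rw [show v = w from hp]
  | cons l L ih =>
    rw [← ih hp.2 fun l hl => h l (List.mem_cons_of_mem _ hl), ← hp.1]
    have := h l List.mem_cons_self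
    obtain ⟨x, b⟩ := l
    cases b
    · exact this.symm
    · exact this

end Path

section Act

variable {Γ E V : Type*} [Group Γ] [MulAction Γ E] [MulAction Γ V]

/-- the action on letters -/
def sm (g : Γ) (l : E × Bool) : E × Bool := (g • l.1, l.2)

variable (Γ E) in
/-- the action on the free group -/
def act : Γ →* MulAut (FreeGroup E) where
  toFun g := freeGroupCongr (MulAction.toPerm g)
  map_one' := by
    rw [← MulAction.toPermHom_apply, map_one]; exact freeGroupCongr_refl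
  map_mul' g h := by
    rw [← MulAction.toPermHom_apply, map_mul]; exact (freeGroupCongr_trans _ _).symm

theorem act_mk (g : Γ) (L : List (E × Bool)) : act Γ E g (mk L) = mk (L.map (sm g)) := rfl

theorem toWord_act [DecidableEq E] (g : Γ) (w : FreeGroup E) : (act Γ E g w).toWord = w.toWord.map (sm g) := by
  conv_lhs => rw [← mk_toWord (x := w), act_mk, toWord_mk]
  exact IsReduced.reduce_eq (List.isChain_map_of_isChain _
    (fun a b h e => h (MulAction.injective g e)) isReduced_toWord)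

theorem norm_act [DecidableEq E] (g : Γ) (w : FreeGroup E) : (act Γ E g w).norm = w.norm := by
  rw [FreeGroup.norm, toWord_act, List.length_map]; rfl

variable {s t : E → V} (hs : ∀ (g : Γ) e, s (g • e) = g • s e) (ht : ∀ (g : Γ) e, t (g • e) = g • t e)

include hs ht in
theorem Pth.smul (g : Γ) {L : List (E × Bool)} {v w : V} (hp : Pth s t v L w) :
    Pth s t (g • v) (L.map (sm g)) (g • w) := by
  induction L generalizing v with
  | nil => exact congrArg _ hp
  | cons l L ih =>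
    obtain ⟨x, b⟩ := l
    have h1 := ih hp.2
    have h2 := hp.1
    cases b
    · exact ⟨(ht g x).trans (congrArg _ h2), by show Pth s t (s (g • x)) _ _; rw [hs]; exact h1⟩
    · exact ⟨(hs g x).trans (congrArg _ h2), by show Pth s t (t (g • x)) _ _; rw [ht]; exact h1⟩

/-- the group of based paths -/
def grp (v : V) : Subgroup (FreeGroup E ⋊[act Γ E] Γ) where
  carrier := {x | ∃ L, mk L = x.left ∧ Pth s t v L (x.right • v)}
  one_mem' := ⟨[], rfl, (one_smul _ _).symm⟩
  mul_mem' := by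
    rintro a b ⟨L, h1, h2⟩ ⟨M, h3, h4⟩
    refine ⟨L ++ M.map (sm a.right), ?_, pth_append.2 ⟨_, h2, ?_⟩⟩
    · rw [SemidirectProduct.mul_left, ← h1, ← h3, act_mk, mul_mk]
    · rw [SemidirectProduct.mul_right, mul_smul]; exact h4.smul hs ht _
  inv_mem' := by
    rintro a ⟨L, h1, h2⟩
    refine ⟨(invRev L).map (sm a.right⁻¹), ?_, ?_⟩
    · rw [SemidirectProduct.inv_left, ← h1, inv_mk, act_mk]
    · have := h2.inv.smul hs ht a.right⁻¹
      rwa [inv_smul_smul] at this

variable {hs ht} {v : V}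

theorem pth_of_mem [DecidableEq E] {x : FreeGroup E ⋊[act Γ E] Γ} (h : x ∈ grp hs ht v) :
    Pth s t v x.left.toWord (x.right • v) := by
  obtain ⟨L, h1, h2⟩ := h
  rw [← h1, toWord_mk]
  exact h2.red reduce.red

omit [MulAction Γ E] in
theorem toWord_tail [DecidableEq E] {w : FreeGroup E} {l : E × Bool} {L : List (E × Bool)}
    (h : w.toWord = l :: L) : (mk [l])⁻¹ * w = mk L ∧ (mk L).toWord = L := by
  refine ⟨by rw [inv_mul_eq_iff_eq_mul, mul_mk, ← mk_toWord (x := w), h]; rfl, ?_⟩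
  rw [toWord_mk]
  exact ((h ▸ isReduced_toWord : IsReduced (l :: L)).infix ⟨[l], [], by simp⟩).reduce_eq

omit [MulAction Γ E] in
theorem norm_inv_mul [DecidableEq E] {w w' : FreeGroup E} {l l' : E × Bool} {L L' : List (E × Bool)}
    (h : w.toWord = l :: L) (h' : w'.toWord = l' :: L') (hne : l' ≠ l) : w.norm < (w'⁻¹ * w).norm := by
  have h1 : IsReduced (w'⁻¹.toWord ++ w.toWord) := by
    refine List.IsChain.append isReduced_toWord isReduced_toWord ?_
    rw [toWord_inv, h, h', invRev_cons]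
    rintro x hx y hy e
    obtain ⟨a, b⟩ := l
    obtain ⟨a', b'⟩ := l'
    simp only [invRev, List.map_cons, List.map_nil, List.reverse_cons, List.reverse_nil, List.nil_append,
      List.getLast?_concat, Option.mem_def, Option.some.injEq, List.head?_cons] at hx hy
    subst hx hy
    obtain rfl : a' = a := e
    cases b <;> cases b' <;> simp_all
  rw [FreeGroup.norm, FreeGroup.norm, toWord_mul, h1.reduce_eq, List.length_append, toWord_inv, invRev_length, h']
  simp

theorem fix [DecidableEq E] (htr : ∀ w : V, ∃ g : Γ, g • v = w) {H : Type*} [Group H] [Fintype H]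
    (f : H →* grp hs ht v) : ∃ g : grp hs ht v, ∀ h, (g * f h * g⁻¹ : grp hs ht v).1.left = 1 := by
  induction hn : ∑ h, (f h).1.left.norm using Nat.strong_induction_on generalizing f with
  | _ n ih =>
  subst hn
  obtain ⟨h, -, hm⟩ := Finset.exists_max_image Finset.univ (fun h => (f h).1.left.norm) ⟨1, Finset.mem_univ _⟩
  cases e : (f h).1.left.toWord with
  | nil =>
    refine ⟨1, fun k => ?_⟩
    have := hm k (Finset.mem_univ _)
    rw [toWord_eq_nil_iff.1 e, FreeGroup.norm_one, Nat.le_zero, FreeGroup.norm_eq_zero] at this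
    rwa [one_mul, inv_one, mul_one]
  | cons l L =>
  have hA : ∀ k l' L', (f k).1.left.toWord = l' :: L' → l' = l := fun k l' L' e' => by_contra fun hne => by
    have h1 := hm (k⁻¹ * h) (Finset.mem_univ _)
    rw [map_mul, map_inv, Subgroup.coe_mul, Subgroup.coe_inv, SemidirectProduct.mul_left,
      SemidirectProduct.inv_left, SemidirectProduct.inv_right, ← map_mul, norm_act] at h1
    exact (norm_inv_mul e e' hne).not_ge h1
  have hp := pth_of_mem (f h).2
  rw [e] at hp
  obtain ⟨τ, hτ⟩ := htr (ter s t l)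
  let x : grp hs ht v := ⟨⟨mk [l], τ⟩, [l], rfl, hp.1, hτ.symm⟩
  let f' : H →* grp hs ht v := (MulAut.conj x⁻¹).toMonoidHom.comp f
  have hf : ∀ k, (f' k).1.left.norm = ((mk [l])⁻¹ * (f k).1.left * mk [sm (f k).1.right l]).norm := fun k => by
    show ((x⁻¹ * f k * x⁻¹⁻¹ : grp hs ht v) : FreeGroup E ⋊[act Γ E] Γ).left.norm = _
    simp only [inv_inv, Subgroup.coe_mul, Subgroup.coe_inv, SemidirectProduct.mul_left,
      SemidirectProduct.inv_left, SemidirectProduct.inv_right, SemidirectProduct.mul_right, map_mul, x]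
    rw [← map_mul, MulAut.mul_apply, ← map_mul, norm_act, act_mk]
    rfl
  have hlt : ∀ k l' L', (f k).1.left.toWord = l' :: L' → (f' k).1.left.norm < (f k).1.left.norm := by
    intro k l' L' e'
    obtain rfl := hA k l' L' e'
    obtain ⟨h1, h2⟩ := toWord_tail e'
    have h3 : (f k⁻¹).1.left.toWord = (invRev L' ++ invRev [l']).map (sm (f k).1.right⁻¹) := by
      rw [map_inv, Subgroup.coe_inv, SemidirectProduct.inv_left, toWord_act, toWord_inv, e', invRev_cons]
    rw [hf, h1, FreeGroup.norm.eq_1 (f k).1.left, e']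
    cases e'' : invRev L' with
    | nil =>
      rw [e''] at h3
      have := congrArg Prod.snd (hA _ _ _ h3)
      simp [sm] at this
    | cons m M =>
      rw [e''] at h3
      have h4 : m = sm (f k).1.right l' := by rw [← hA _ _ _ h3]; simp [sm]
      have h5 := (toWord_tail (w := (mk L')⁻¹) (by rw [toWord_inv, h2, e''])).1
      rw [← norm_inv_eq, mul_inv_rev, ← h4, h5]
      have h6 := congrArg List.length e''
      rw [invRev_length] at h6
      have := norm_mk_le (L₁ := M)
      simp only [List.length_cons] at h6 ⊢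
      omega
  obtain ⟨g, hg⟩ := ih _ (Finset.sum_lt_sum (fun k _ => by
    cases e' : (f k).1.left.toWord with
    | cons l' L' => exact (hlt k l' L' e').le
    | nil =>
      have h1 := toWord_eq_nil_iff.1 e'
      have h2 := hA (k * h) (sm (f k).1.right l) (L.map (sm (f k).1.right)) (by
        rw [map_mul, Subgroup.coe_mul, SemidirectProduct.mul_left, h1, one_mul, toWord_act, e]; rfl)
      rw [hf, h1, h2, mul_one, inv_mul_cancel]) ⟨h, Finset.mem_univ _, hlt h l L e⟩) f' rfl
  refine ⟨g * x⁻¹, fun k => ?_⟩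
  have := hg k
  rwa [show g * f' k * g⁻¹ = g * x⁻¹ * f k * (g * x⁻¹)⁻¹ by
    show g * (x⁻¹ * f k * x⁻¹⁻¹) * g⁻¹ = _
    group] at this

end Act

theorem free_ker {Γ E V : Type u} [Group Γ] [MulAction Γ E] [MulAction Γ V] {s t : E → V}
    {hs : ∀ (g : Γ) e, s (g • e) = g • s e} {ht : ∀ (g : Γ) e, t (g • e) = g • t e} {v : V} :
    IsFreeGroup (SemidirectProduct.rightHom.comp (grp hs ht v).subtype).ker := by
  let φ : (SemidirectProduct.rightHom.comp (grp hs ht v).subtype).ker →* FreeGroup E :=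
    { toFun := fun x => x.1.1.left
      map_one' := rfl
      map_mul' := fun a b => by
        have : a.1.1.right = 1 := a.2
        show (a.1.1 * b.1.1).left = _
        rw [SemidirectProduct.mul_left, this, map_one]; rfl }
  have hφ : Function.Injective φ := fun a b e => Subtype.ext (Subtype.ext (SemidirectProduct.ext e
    ((show a.1.1.right = 1 from a.2).trans (show b.1.1.right = 1 from b.2).symm)))
  exact IsFreeGroup.ofMulEquiv (MonoidHom.ofInjective hφ).symm

section Fusion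

open Cfsg CA.Fus Subgroup

variable {Ω : Type u} [Group Ω] {S : Subgroup Ω} (F : FusionSystem S)

/-- the left regular representation -/
noncomputable def reg (S : Subgroup Ω) : Ω → Equiv.Perm S := Fus.ext (MulAction.toPermHom S S)

theorem reg_hom : HomOn S (reg S) := homOn_ext _

theorem reg_coe (x : S) : reg S x = MulAction.toPermHom S S x := ext_coe _ _

theorem reg_inj {x y : Ω} (hx : x ∈ S) (hy : y ∈ S) (h : reg S x = reg S y) : x = y := by
  have := congrArg (fun σ : Equiv.Perm S => ((σ 1 : S) : Ω)) ((reg_coe ⟨x, hx⟩).symm.trans (h.trans (reg_coe ⟨y, hy⟩)))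
  simpa using this

theorem fx_reg {L : Subgroup Ω} (hL : L ≤ S) (h : L ≠ ⊥) : fx (reg S) L = 0 := by
  obtain ⟨⟨a, ha⟩, h1⟩ := ne_bot_iff_exists_ne_one.1 h
  haveI : IsEmpty {x // ∀ k ∈ L, reg S k x = x} := ⟨fun ⟨x, hx⟩ => h1 (by
    have := hx a ha
    rw [show reg S a = _ from reg_coe ⟨a, hL ha⟩] at this
    have h2 : (⟨a, hL ha⟩ : S) = 1 := mul_eq_right.1 this
    exact Subtype.ext (congrArg Subtype.val h2 :))⟩
  exact Nat.card_of_isEmpty

variable [Finite S]

theorem exists_perm {P : Subgroup Ω} {f : Ω → Ω} (hf : Mor F P f) :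
    ∃ w : Equiv.Perm S, ∀ u ∈ P, w * reg S u * w⁻¹ = reg S (f u) := by
  obtain ⟨w, hw⟩ := exists_twist (E := F) reg_hom (fun L M ⟨φ, h1, h2⟩ => by
    have h3 := F.le_of_mem h1
    by_cases h : L = ⊥
    · subst h
      rw [← h2, show φ.range = ⊥ from eq_bot_iff.2 fun _ ⟨x, e⟩ => by
        rw [← e, Subsingleton.elim x 1, map_one]; exact one_mem _]
    · rw [fx_reg h3.1 h, fx_reg (h2 ▸ fun _ ⟨x, e⟩ => e ▸ h3.2 x) fun e => h (eq_bot_iff.2 fun x hx => ?_)]
      have : φ ⟨x, hx⟩ ∈ (⊥ : Subgroup Ω) := e ▸ h2 ▸ ⟨_, rfl⟩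
      exact congrArg Subtype.val (F.injective_of_mem h1 ((mem_bot.1 this).trans (map_one φ).symm))) hf
  exact ⟨w, fun u hu => by rw [hw u hu, mul_inv_cancel_right]⟩

/-- the maps of the system -/
abbrev Ix : Type u := {z : Subgroup Ω × (Ω → Ω) // Mor F z.1 z.2}

/-- a permutation realizing a map of the system -/
noncomputable def pm (i : Ix F) : Equiv.Perm S := (exists_perm F i.2).choose

theorem pm_spec (i : Ix F) : ∀ u ∈ i.1.1, pm F i * reg S u * (pm F i)⁻¹ = reg S (i.1.2 u) :=
  (exists_perm F i.2).choose_spec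

omit [Finite S] in
theorem mem_img_reg {P : Subgroup Ω} (hP : P ≤ S) {y : Equiv.Perm S} : y ∈ img (reg S) P ↔ ∃ x ∈ P, reg S x = y :=
  (reg_hom.mono hP).mem_img

/-- the edges -/
abbrev Ed : Type u := Σ i : Ix F, Equiv.Perm S ⧸ img (reg S) i.1.1

/-- the vertices -/
abbrev Vx (S : Subgroup Ω) : Type u := Equiv.Perm S ⧸ img (reg S) S

/-- the source of an edge -/
noncomputable def src (e : Ed F) : Vx S := Quotient.liftOn' e.2 (fun ρ => (ρ : Vx S)) fun a b h => by
  rw [QuotientGroup.leftRel_apply] at h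
  exact QuotientGroup.eq.2 (img_mono _ e.1.2.le h)

/-- the target of an edge -/
noncomputable def tgt (e : Ed F) : Vx S := Quotient.liftOn' e.2 (fun ρ => ((ρ * (pm F e.1)⁻¹ : Equiv.Perm S) : Vx S))
  fun a b h => by
    rw [QuotientGroup.leftRel_apply] at h
    obtain ⟨x, hx, h1⟩ := (mem_img_reg e.1.2.le).1 h
    refine QuotientGroup.eq.2 ((mem_img_reg le_rfl).2 ⟨_, e.1.2.mem hx, ?_⟩)
    rw [← pm_spec F _ x hx, h1]; group

omit [Finite S] in
theorem src_smul (g : Equiv.Perm S) (e : Ed F) : src F (g • e) = g • src F e := by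
  obtain ⟨i, ⟨ρ⟩⟩ := e; rfl

theorem tgt_smul (g : Equiv.Perm S) (e : Ed F) : tgt F (g • e) = g • tgt F e := by
  obtain ⟨i, ⟨ρ⟩⟩ := e
  exact congrArg _ (mul_assoc g ρ _)

/-- the group realizing the system -/
noncomputable abbrev Gp := grp (src_smul F) (tgt_smul F) ((1 : Equiv.Perm S) : Vx S)

omit [Finite S] in
theorem fix_base {g : Equiv.Perm S} : ((1 : Equiv.Perm S) : Vx S) = g • ((1 : Equiv.Perm S) : Vx S) ↔
    ∃ x ∈ S, reg S x = g := by
  rw [MulAction.Quotient.smul_coe, QuotientGroup.eq, mem_img_reg le_rfl]; simp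

/-- the embedding of `S` -/
noncomputable def emb : S →* Gp F :=
  (SemidirectProduct.inr.comp (MulAction.toPermHom S S)).codRestrict _ fun x =>
    ⟨[], rfl, fix_base.2 ⟨x, x.2, reg_coe x⟩⟩

theorem emb_right (x : S) : (emb F x).1.right = reg S x := (reg_coe x).symm

theorem emb_left (x : S) : (emb F x).1.left = 1 := rfl

theorem mem_emb {g : Gp F} (h : g.1.left = 1) : g ∈ (emb F).range := by
  classical
  have := pth_of_mem g.2
  rw [h, toWord_one] at this
  obtain ⟨x, hx, e⟩ := fix_base.1 this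
  exact ⟨⟨x, hx⟩, Subtype.ext (SemidirectProduct.ext h.symm ((emb_right F _).trans e))⟩

theorem conj_of_mor {P : Subgroup Ω} {f : Ω → Ω} (hf : Mor F P f) :
    ∃ g : Gp F, ∀ x (hx : x ∈ P), emb F ⟨f x, hf.mem hx⟩ = g * emb F ⟨x, hf.le hx⟩ * g⁻¹ := by
  let i : Ix F := ⟨(P, f), hf⟩
  let e : Ed F := ⟨i, ((1 : Equiv.Perm S) : _ ⧸ _)⟩
  let y : Gp F := ⟨⟨mk [(e, true)], (pm F i)⁻¹⟩, [(e, true)], rfl, rfl, by
    show (((1 : Equiv.Perm S) * _ : Equiv.Perm S) : Vx S) = _
    rw [MulAction.Quotient.smul_coe]; simp; rfl⟩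
  refine ⟨y⁻¹, fun x hx => ?_⟩
  rw [inv_inv, mul_assoc, eq_inv_mul_iff_mul_eq]
  refine Subtype.ext (SemidirectProduct.ext ?_ ?_)
  · rw [Subgroup.coe_mul, Subgroup.coe_mul, SemidirectProduct.mul_left, SemidirectProduct.mul_left, emb_left,
      emb_left, map_one, mul_one, one_mul, emb_right]
    have : reg S x • e = e := Sigma.ext rfl (heq_of_eq (by
      show reg S x • ((1 : Equiv.Perm S) : _ ⧸ img (reg S) P) = ((1 : Equiv.Perm S) : _ ⧸ img (reg S) P)
      rw [MulAction.Quotient.smul_coe, eq_comm, QuotientGroup.eq, mem_img_reg hf.le]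
      exact ⟨x, hx, by simp⟩))
    show mk [(e, true)] = mk [(reg S x • e, true)]
    rw [this]
  · rw [Subgroup.coe_mul, Subgroup.coe_mul, SemidirectProduct.mul_right, SemidirectProduct.mul_right, emb_right,
      emb_right]
    show (pm F i)⁻¹ * reg S (i.1.2 x) = reg S x * (pm F i)⁻¹
    rw [← pm_spec F i x hx]; group

theorem mor_of_conj {P : Subgroup Ω} (hP : P ≤ S) {f : Ω → Ω} (hf : ∀ x ∈ P, f x ∈ S) (g : Gp F)
    (h : ∀ x (hx : x ∈ P), emb F ⟨f x, hf x hx⟩ = g * emb F ⟨x, hP hx⟩ * g⁻¹) : Mor F P f := by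
  classical
  let N : Equiv.Perm S → Prop := fun α => ∃ k, Mor F P k ∧ ∀ x ∈ P, reg S (k x) = α⁻¹ * reg S (f x) * α
  have hN : ∀ α β : Equiv.Perm S, (α : Vx S) = β → N α → N β := fun α β e ⟨k, h1, h2⟩ => by
    obtain ⟨y, hy, e'⟩ := (mem_img_reg le_rfl).1 (QuotientGroup.eq.1 e)
    refine ⟨_, h1.cj_comp (inv_mem hy), fun x hx => ?_⟩
    rw [inv_inv, reg_hom _ (mul_mem (inv_mem hy) (h1.mem hx)) _ hy, reg_hom _ (inv_mem hy) _ (h1.mem hx),
      reg_hom.inv hy, e', h2 x hx]
    group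
  have hN' : ∀ α : Equiv.Perm S, (∃ β : Equiv.Perm S, (β : Vx S) = α ∧ N β) ↔ N α := fun α =>
    ⟨fun ⟨β, h1, h2⟩ => hN _ _ h1 h2, fun h1 => ⟨α, rfl, h1⟩⟩
  have h' : ∀ x (hx : x ∈ P), (emb F ⟨f x, hf x hx⟩ * g).1 = (g * emb F ⟨x, hP hx⟩).1 := fun x hx => by
    rw [h x hx, inv_mul_cancel_right]
  have key := (pth_of_mem g.2).iff (N := fun v => ∃ β : Equiv.Perm S, (β : Vx S) = v ∧ N β) fun l hl => by
    obtain ⟨⟨i, ⟨ρ⟩⟩, b⟩ := l
    have h1 : ∀ x ∈ P, ∃ y ∈ i.1.1, reg S y = ρ⁻¹ * reg S (f x) * ρ := fun x hx => by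
      have h2 := congrArg (fun z => z.left.toWord) (h' x hx)
      simp only [Subgroup.coe_mul, SemidirectProduct.mul_left, emb_left, emb_right, map_one, mul_one, one_mul,
        toWord_act] at h2
      have h3 := congrArg Prod.fst (List.map_inj_left.1 (h2.trans (List.map_id _).symm) _ hl)
      have h4 : reg S (f x) • (ρ : _ ⧸ img (reg S) i.1.1) = (ρ : _ ⧸ img (reg S) i.1.1) :=
        eq_of_heq (Sigma.ext_iff.1 h3).2
      rw [MulAction.Quotient.smul_coe, eq_comm, QuotientGroup.eq, mem_img_reg i.2.le] at h4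
      simpa only [smul_eq_mul, mul_assoc] using h4
    refine (hN' ρ).trans (Iff.trans ⟨fun ⟨k, h2, h3⟩ => ?_, fun ⟨k, h2, h3⟩ => ?_⟩ (hN' (ρ * (pm F i)⁻¹)).symm)
    · have h4 : ∀ x ∈ P, k x ∈ i.1.1 := fun x hx => by
        obtain ⟨y, hy, e⟩ := h1 x hx
        rwa [reg_inj (h2.mem hx) (i.2.le hy) ((h3 x hx).trans e.symm)]
      refine ⟨_, h2.comp i.2 h4, fun x hx => ?_⟩
      rw [← pm_spec F i _ (h4 x hx), h3 x hx]; group
    · obtain ⟨k', hk⟩ := i.2.iso
      have h4 : ∀ x ∈ P, ∃ y ∈ i.1.1, reg S y = ρ⁻¹ * reg S (f x) * ρ ∧ k x = i.1.2 y := fun x hx => by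
        obtain ⟨y, hy, e⟩ := h1 x hx
        refine ⟨y, hy, e, reg_inj (h2.mem hx) (i.2.mem hy) ?_⟩
        rw [← pm_spec F i y hy, e, h3 x hx]; group
      refine ⟨_, h2.comp hk.mor' fun x hx => ?_, fun x hx => ?_⟩
      · obtain ⟨y, hy, -, e⟩ := h4 x hx
        exact e ▸ hk.mapf y hy
      · obtain ⟨y, hy, e1, e⟩ := h4 x hx
        rw [e, hk.gf y hy, e1]
  obtain ⟨k, h1, h2⟩ := (hN' 1).1 (key.2 ⟨g.1.right, by rw [MulAction.Quotient.smul_coe]; simp,
    _, mor_id F hP, fun x hx => by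
      have := congrArg SemidirectProduct.right (h' x hx)
      simp only [Subgroup.coe_mul, SemidirectProduct.mul_right, emb_right] at this
      rw [mul_assoc, this, inv_mul_cancel_left]⟩)
  exact h1.congr fun x hx => reg_inj (h1.mem hx) (hf x hx) (by simpa using h2 x hx)

theorem realized : F.IsRealizedBy (emb F) := by
  refine ⟨fun x y e => Subtype.ext (reg_inj x.2 y.2 ?_), fun P hP φ hφ => ⟨fun h => ?_, fun ⟨g, hg⟩ => ?_⟩⟩
  · rw [← emb_right F, ← emb_right F, e]
  · obtain ⟨g, hg⟩ := conj_of_mor F (mor_ext h)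
    exact ⟨g, fun x => by rw [← hg x x.2]; simp only [ext_coe]⟩
  · refine mem_hom_iff.2 (mor_of_conj F hP (fun x hx => ext_coe φ ⟨x, hx⟩ ▸ hφ _) g fun x hx => ?_)
    rw [← hg ⟨x, hx⟩]
    exact congrArg _ (Subtype.ext (ext_coe φ ⟨x, hx⟩))

theorem fin_conj (H : Subgroup (Gp F)) [Finite H] : ∃ g : Gp F, ∀ h ∈ H, g * h * g⁻¹ ∈ (emb F).range := by
  classical
  haveI := Fintype.ofFinite H
  obtain ⟨g, hg⟩ := fix (fun w => by
    obtain ⟨ρ⟩ := w
    exact ⟨ρ, by rw [MulAction.Quotient.smul_coe]; simp; rfl⟩) H.subtype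
  exact ⟨g, fun h hh => mem_emb F (hg ⟨h, hh⟩)⟩

theorem main : ∃ (G : Type u) (_ : Group G) (ι : S →* G), F.IsRealizedBy ι ∧
    (∀ H : Subgroup G, Finite H → ∃ g : G, ∀ h ∈ H, g * h * g⁻¹ ∈ ι.range) ∧
    ∃ N : Subgroup G, N.Normal ∧ IsFreeGroup N ∧ N.index ∣ (Nat.card S).factorial :=
  ⟨Gp F, inferInstance, emb F, realized F, fun H _ => fin_conj F H, _, inferInstance, free_ker, by
    rw [index_ker, ← Nat.card_perm]; exact card_subgroup_dvd_card _⟩

end Fusion

end CA.H8Hnn
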